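import Cfsg.Agent.MaxClassP.Section
import Mathlib

/-!
# The linear part of a norm

If `(a^t s)^p = s^p` for all `t`, in a group normalising a subgroup `N` of exponent `p` and class less
than `p`, then the `(p-1)`-fold commutator of `a` with `s` is trivial, provided it is linear in `t`.
The proof passes to the diagonal subgroup of `(ZMod p)ˣ → X`, where permuting the coordinates gives an
automorphism that scales `a`.
-/

set_option autoImplicit false

open Subgroup
open scoped commutatorElement

namespace Cfsg.Agent.DiagonalNorm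

universe u

variable {G : Type u} [Group G]

/-- The commutator with `s`. -/
def d (s y : G) : G := y⁻¹ * (s * y * s⁻¹)

theorem lcs_mono {S T : Subgroup G} (h : S ≤ T) (k : ℕ) :
    S.lowerCentralSeries k ≤ T.lowerCentralSeries k := by
  induction k with
  | zero => exact h
  | succ k ih => exact Subgroup.commutator_mono ih h

theorem commutator_pow_pow {w v : G} (h1 : Commute w ⁅w, v⁆) (h2 : Commute v ⁅w, v⁆) (i j : ℕ) :
    ⁅w ^ i, v ^ j⁆ = ⁅w, v⁆ ^ (i * j) := by
  have hw : ∀ i : ℕ, w ^ i * v = ⁅w, v⁆ ^ i * v * w ^ i := by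
    intro i
    induction i with
    | zero => simp
    | succ i ih =>
      calc w ^ (i + 1) * v = w * (w ^ i * v) := by rw [pow_succ', mul_assoc]
        _ = w * ⁅w, v⁆ ^ i * (v * w ^ i) := by rw [ih]; group
        _ = ⁅w, v⁆ ^ i * w * (v * w ^ i) := by rw [(h1.pow_right i).eq]
        _ = ⁅w, v⁆ ^ i * (⁅w, v⁆ * v * w) * w ^ i := by rw [commutatorElement_def]; group
        _ = ⁅w, v⁆ ^ (i + 1) * v * w ^ (i + 1) := by rw [pow_succ, pow_succ']; group
  have hc : ∀ j : ℕ, w ^ i * v ^ j = ⁅w, v⁆ ^ (i * j) * v ^ j * w ^ i := by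
    intro j
    induction j with
    | zero => simp
    | succ j ih =>
      calc w ^ i * v ^ (j + 1) = w ^ i * v ^ j * v := by rw [pow_succ, mul_assoc]
        _ = ⁅w, v⁆ ^ (i * j) * v ^ j * (w ^ i * v) := by rw [ih, mul_assoc]
        _ = ⁅w, v⁆ ^ (i * j) * (v ^ j * ⁅w, v⁆ ^ i) * v * w ^ i := by rw [hw]; group
        _ = ⁅w, v⁆ ^ (i * j) * (⁅w, v⁆ ^ i * v ^ j) * v * w ^ i := by
            rw [((h2.pow_pow j i)).eq]
        _ = ⁅w, v⁆ ^ (i * (j + 1)) * v ^ (j + 1) * w ^ i := by
            rw [Nat.mul_succ, pow_add, pow_succ]; group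
  rw [commutatorElement_def, hc]
  group

variable {W : Type u} [Group W]

local notation "γ" => Subgroup.lowerCentralSeries (⊤ : Subgroup W)

theorem mk_central {k : ℕ} {x : W} (hx : x ∈ γ k) (y : W ⧸ γ (k + 1)) :
    Commute (x : W ⧸ γ (k + 1)) y := by
  obtain ⟨y, rfl⟩ := QuotientGroup.mk_surjective y
  rw [Commute, SemiconjBy, ← commutatorElement_eq_one_iff_mul_comm]
  show ⁅(QuotientGroup.mk' (γ (k + 1))) x, (QuotientGroup.mk' (γ (k + 1))) y⁆ = 1
  rw [← map_commutatorElement, QuotientGroup.mk'_apply, QuotientGroup.eq_one_iff]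
  exact commutator_mem_commutator hx (mem_top y)

/-- An endomorphism acting as the `e`-th power on the abelianisation acts as the `e^(k+1)`-th power
on the `k`-th section. -/
theorem section_scaling [Finite W] (μ : W →* W) (e : ℕ)
    (hbase : ∀ x : W, (μ x : W ⧸ γ 1) = (x : W ⧸ γ 1) ^ e) :
    ∀ (k : ℕ), ∀ x ∈ γ k, (μ x : W ⧸ γ (k + 1)) = (x : W ⧸ γ (k + 1)) ^ e ^ (k + 1) := by
  intro k
  induction k with
  | zero => intro x _; simpa using hbase x
  | succ k ih =>
    intro x hx
    rw [Subgroup.lowerCentralSeries_succ, Subgroup.commutator_def] at hx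
    have hle : ∀ y ∈ Subgroup.closure {g | ∃ w ∈ γ k, ∃ v ∈ (⊤ : Subgroup W), ⁅w, v⁆ = g},
        y ∈ γ (k + 1) := fun y hy => by rwa [Subgroup.lowerCentralSeries_succ, Subgroup.commutator_def]
    induction hx using Subgroup.closure_induction with
    | one => rw [map_one, QuotientGroup.mk_one, one_pow]
    | mul y z hy hz ihy ihz =>
      rw [map_mul, QuotientGroup.mk_mul, QuotientGroup.mk_mul, ihy, ihz,
        (mk_central (hle y hy) _).mul_pow]
    | inv y hy ihy => rw [map_inv, QuotientGroup.mk_inv, QuotientGroup.mk_inv, ihy, inv_pow]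
    | mem y hy =>
      obtain ⟨w, hw, v, -, rfl⟩ := hy
      set π := QuotientGroup.mk' (γ (k + 1 + 1)) with hπ
      have hcen : ∀ z ∈ γ (k + 1), ∀ y, Commute (π z) y := fun z hz y => mk_central hz y
      -- the correction factors
      set z1 := (w ^ e ^ (k + 1))⁻¹ * μ w with hz1
      set z2 := (v ^ e)⁻¹ * μ v with hz2
      have h1 : z1 ∈ γ (k + 1) := by
        rw [hz1, ← QuotientGroup.eq, QuotientGroup.mk_pow]
        exact (ih w hw).symm
      have h2 : z2 ∈ γ 1 := by
        rw [hz2, ← QuotientGroup.eq, QuotientGroup.mk_pow]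
        exact (hbase v).symm
      have hwz : Commute (π w) (π z2) := by
        rw [Commute, SemiconjBy, ← commutatorElement_eq_one_iff_mul_comm, ← map_commutatorElement]
        refine (QuotientGroup.eq_one_iff _).2 ?_
        exact MaxClassP.comm_lcs k 1 (commutator_mem_commutator hw h2)
      have hc : ∀ y, Commute (π ⁅w, v⁆) y := hcen _ (commutator_mem_commutator hw (mem_top v))
      have e1 : π (μ w) = π w ^ e ^ (k + 1) * π z1 := by
        rw [← map_pow, ← map_mul, hz1, mul_inv_cancel_left]
      have e2 : π (μ v) = π v ^ e * π z2 := by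
        rw [← map_pow, ← map_mul, hz2, mul_inv_cancel_left]
      show π (μ ⁅w, v⁆) = π ⁅w, v⁆ ^ e ^ (k + 1 + 1)
      have hmain : ⁅π w ^ e ^ (k + 1), π v ^ e⁆ = π ⁅w, v⁆ ^ (e ^ (k + 1) * e) := by
        rw [map_commutatorElement]
        refine commutator_pow_pow ?_ ?_ _ _
        · rw [← map_commutatorElement]; exact (hc _).symm
        · rw [← map_commutatorElement]; exact (hc _).symm
      rw [map_commutatorElement μ, map_commutatorElement π, e1, e2, pow_succ e (k + 1), ← hmain]
      set A := π w ^ e ^ (k + 1)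
      set B := π v ^ e
      have hA : Commute A (π z2) := hwz.pow_left _
      have hz1c := hcen z1 h1
      rw [commutatorElement_def, commutatorElement_def]
      calc A * π z1 * (B * π z2) * (A * π z1)⁻¹ * (B * π z2)⁻¹
          = A * (π z1 * (B * π z2) * (π z1)⁻¹) * A⁻¹ * (B * π z2)⁻¹ := by group
        _ = A * (B * π z2) * A⁻¹ * (B * π z2)⁻¹ := by rw [(hz1c (B * π z2)).eq, mul_inv_cancel_right]
        _ = A * B * (π z2 * A⁻¹) * (π z2)⁻¹ * B⁻¹ := by group
        _ = A * B * (A⁻¹ * π z2) * (π z2)⁻¹ * B⁻¹ := by rw [(hA.inv_left).symm.eq]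
        _ = _ := by group

variable {p : ℕ} [Fact p.Prime] {X : Type u} [Group X] [Finite X]

/-- The linear part of the norm is trivial. -/
theorem iterate_d_eq_one (N : Subgroup X) (s a : X) (hs : ∀ x ∈ N, s * x * s⁻¹ ∈ N) (ha : a ∈ N)
    (hexp : ∀ x ∈ N, x ^ p = 1) (hcl : N.lowerCentralSeries (p - 1) = ⊥)
    (hpow : ∀ t : ℕ, (a ^ t * s) ^ p = s ^ p)
    (hlin : ∀ t : ℕ, (d s)^[p - 1] (a ^ t) = ((d s)^[p - 1] a) ^ t) :
    (d s)^[p - 1] a = 1 := by
  classical
  have hp : p.Prime := Fact.out
  let S : (ZMod p)ˣ → X := fun _ => s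
  let A : (ZMod p)ˣ → X := fun i => a ^ (i : ZMod p).val
  set V := closure (Set.range fun k : ℕ => S ^ k * A * (S ^ k)⁻¹) with hV
  have hSV : ∀ x ∈ V, S * x * S⁻¹ ∈ V := by
    intro x hx
    induction hx using Subgroup.closure_induction with
    | one => simp
    | mul y z _ _ ihy ihz =>
      have := mul_mem ihy ihz
      rwa [show S * y * S⁻¹ * (S * z * S⁻¹) = S * (y * z) * S⁻¹ by group] at this
    | inv y _ ihy =>
      have := inv_mem ihy
      rwa [show (S * y * S⁻¹)⁻¹ = S * y⁻¹ * S⁻¹ by group] at this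
    | mem y hy =>
      obtain ⟨k, rfl⟩ := hy
      refine subset_closure ⟨k + 1, ?_⟩
      show S ^ (k + 1) * A * (S ^ (k + 1))⁻¹ = _
      rw [pow_succ']
      group
  have hcoord : ∀ x ∈ V, ∀ i, x i ∈ N := by
    intro x hx i
    induction hx using Subgroup.closure_induction with
    | one => exact one_mem N
    | mul y z _ _ ihy ihz => exact mul_mem ihy ihz
    | inv y _ ihy => exact inv_mem ihy
    | mem y hy =>
      obtain ⟨k, rfl⟩ := hy
      induction k with
      | zero => simpa [A] using pow_mem ha _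
      | succ k ih =>
        have := hs _ ih
        simpa [Pi.mul_apply, Pi.inv_apply, Pi.pow_apply, S, pow_succ', mul_assoc] using this
  have hVexp : ∀ x : V, x ^ p = 1 := fun x => Subtype.ext (funext fun i => hexp _ (hcoord x x.2 i))
  -- the coordinate permutations
  obtain ⟨c, hc⟩ := IsCyclic.exists_generator (α := (ZMod p)ˣ)
  set e := (c : ZMod p).val with he
  let μ0 : ((ZMod p)ˣ → X) →* ((ZMod p)ˣ → X) :=
    { toFun := fun f i => f (c * i), map_one' := rfl, map_mul' := fun _ _ => rfl }
  have hap : a ^ p = 1 := hexp a ha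
  have hgen : ∀ k : ℕ, μ0 (S ^ k * A * (S ^ k)⁻¹) = (S ^ k * A * (S ^ k)⁻¹) ^ e := by
    intro k
    rw [conj_pow, map_mul, map_mul, map_inv, map_pow]
    congr 2
    funext i
    show a ^ ((c * i : (ZMod p)ˣ) : ZMod p).val = (a ^ (i : ZMod p).val) ^ e
    rw [← pow_mul, Units.val_mul, ZMod.val_mul, ← pow_eq_pow_mod _ hap, mul_comm]
  have hμV : ∀ x ∈ V, μ0 x ∈ V := by
    intro x hx
    induction hx using Subgroup.closure_induction with
    | one => simp
    | mul y z _ _ ihy ihz => rw [map_mul]; exact mul_mem ihy ihz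
    | inv y _ ihy => rw [map_inv]; exact inv_mem ihy
    | mem y hy =>
      obtain ⟨k, rfl⟩ := hy
      rw [hgen]
      exact pow_mem (subset_closure (Set.mem_range_self k)) _
  let μ : V →* V := (μ0.comp V.subtype).codRestrict V fun x => hμV _ x.2
  let θ : V →* V :=
    ((MulAut.conj S).toMonoidHom.comp V.subtype).codRestrict V fun x => by simpa using hSV _ x.2
  -- scaling on the abelianisation
  have hbase : ∀ x : V, (μ x : V ⧸ (⊤ : Subgroup V).lowerCentralSeries 1) =
      (x : V ⧸ (⊤ : Subgroup V).lowerCentralSeries 1) ^ e := by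
    intro x
    have hx : x ∈ closure (((↑) : V → _) ⁻¹' Set.range fun k : ℕ => S ^ k * A * (S ^ k)⁻¹) := by
      rw [closure_closure_coe_preimage]; exact mem_top x
    induction hx using Subgroup.closure_induction with
    | one => rw [map_one, QuotientGroup.mk_one, one_pow]
    | mul y z _ _ ihy ihz =>
      rw [map_mul, QuotientGroup.mk_mul, QuotientGroup.mk_mul, ihy, ihz,
        (mk_central (k := 0) (mem_top y) _).mul_pow]
    | inv y _ ihy => rw [map_inv, QuotientGroup.mk_inv, QuotientGroup.mk_inv, ihy, inv_pow]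
    | mem y hy =>
      obtain ⟨k, hk⟩ := hy
      rw [← QuotientGroup.mk_pow]
      congr 1
      apply Subtype.ext
      show μ0 (y : _) = (y : (ZMod p)ˣ → X) ^ e
      rw [← hk]
      exact hgen k
  -- the norm
  set A' : V := ⟨A, subset_closure ⟨0, by simp⟩⟩ with hA'
  let g : V → V := fun y => y⁻¹ * θ y
  let u : ℕ → Abelianization V := fun l => Abelianization.of (g^[l] A')
  let f : Abelianization V →* Abelianization V := Abelianization.map θ
  have hf : ∀ y, f (Abelianization.of y) = Abelianization.of (θ y) := fun y => rfl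
  have hu : ∀ l, f (u l) = u l * u (l + 1) := fun l => by
    simp only [u, hf, Function.iterate_succ_apply', g, map_mul, map_inv, mul_inv_cancel_left]
  have hiter : ∀ i : ℕ, ((θ^[i] A' : V) : (ZMod p)ˣ → X) = S ^ i * A * (S ^ i)⁻¹ := by
    intro i
    induction i with
    | zero => simp [hA']
    | succ i ih =>
      rw [Function.iterate_succ_apply']
      show S * ((θ^[i] A' : V) : (ZMod p)ˣ → X) * S⁻¹ = _
      rw [ih, pow_succ']
      group
  have hfiter : ∀ i, f^[i] (u 0) = Abelianization.of (θ^[i] A') := by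
    intro i
    induction i with
    | zero => rfl
    | succ i ih => rw [Function.iterate_succ_apply', Function.iterate_succ_apply', ih, hf]
  have htel : ∀ i : ℕ, ∃ E : V, (E : (ZMod p)ˣ → X) = (A * S) ^ i * (S ^ i)⁻¹ ∧
      Abelianization.of E = ∏ l ∈ Finset.range i, f^[l] (u 0) := by
    intro i
    induction i with
    | zero => exact ⟨1, by simp, by simp⟩
    | succ i ih =>
      obtain ⟨E, hE1, hE2⟩ := ih
      refine ⟨E * θ^[i] A', ?_, ?_⟩
      · rw [Subgroup.coe_mul, hE1, hiter, pow_succ, pow_succ]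
        group
      · rw [map_mul, hE2, Finset.prod_range_succ, hfiter]
  obtain ⟨E, hE1, hE2⟩ := htel p
  have hEone : E = 1 := by
    apply Subtype.ext
    rw [hE1]
    funext i
    show (a ^ (i : ZMod p).val * s) ^ p * (s ^ p)⁻¹ = 1
    rw [hpow, mul_inv_cancel]
  set U := g^[p - 1] A' with hU
  have hUcomm : U ∈ (⊤ : Subgroup V).lowerCentralSeries 1 := by
    rw [Subgroup.top_lowerCentralSeries_one, ← Abelianization.ker_of, MonoidHom.mem_ker]
    show u (p - 1) = 1
    have hsplit := Finset.prod_range_succ (fun l => u l ^ p.choose (l + 1)) (p - 1)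
    simp only [Nat.sub_add_cancel hp.one_le, Nat.choose_self, pow_one] at hsplit
    rw [hEone, map_one, MaxClassP.norm_expand f u hu, hsplit] at hE2
    rw [Finset.prod_eq_one, one_mul] at hE2
    · exact hE2.symm
    intro l hl
    rw [Finset.mem_range] at hl
    obtain ⟨t, ht⟩ := hp.dvd_choose_self (k := l + 1) (by omega) (by omega)
    rw [ht, pow_mul]
    show (Abelianization.of (g^[l] A') ^ p) ^ t = 1
    rw [← map_pow, hVexp, map_one, one_pow]
  -- its coordinates
  have hco : ∀ (l : ℕ) (y : V) (i : (ZMod p)ˣ),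
      ((g^[l] y : V) : (ZMod p)ˣ → X) i = (d s)^[l] ((y : (ZMod p)ˣ → X) i) := by
    intro l
    induction l with
    | zero => intro y i; rfl
    | succ l ih =>
      intro y i
      rw [Function.iterate_succ_apply', Function.iterate_succ_apply', ← ih]
      rfl
  set z := (d s)^[p - 1] a with hz
  have hUi : ∀ i : (ZMod p)ˣ, (U : (ZMod p)ˣ → X) i = z ^ (i : ZMod p).val := fun i => by
    rw [hU, hco]; exact hlin _
  have hzp : z ^ p = 1 := by
    have : ∀ l, (d s)^[l] a ∈ N := fun l => by
      induction l with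
      | zero => exact ha
      | succ l ih =>
        rw [Function.iterate_succ_apply']
        exact mul_mem (inv_mem ih) (hs _ ih)
    exact hexp _ (this _)
  have hμU : μ U = U ^ e := by
    apply Subtype.ext
    funext i
    show (U : (ZMod p)ˣ → X) (c * i) = ((U : (ZMod p)ˣ → X) i) ^ e
    rw [hUi, hUi, ← pow_mul, Units.val_mul, ZMod.val_mul, ← pow_eq_pow_mod _ hzp, mul_comm]
  have hoc : orderOf c = p - 1 := by
    rw [orderOf_eq_card_of_forall_mem_zpowers hc, Nat.card_eq_fintype_card, ZMod.card_units]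
  have hdesc : ∀ k, 1 ≤ k → k ≤ p - 1 → U ∈ (⊤ : Subgroup V).lowerCentralSeries k := by
    intro k hk hkp
    induction k with
    | zero => omega
    | succ k ih =>
      rcases Nat.eq_zero_or_pos k with rfl | hk0
      · exact hUcomm
      have hUk := ih hk0 (by omega)
      have h := section_scaling μ e hbase k U hUk
      rw [hμU, QuotientGroup.mk_pow] at h
      rw [← QuotientGroup.eq_one_iff, ← orderOf_eq_one_iff]
      by_contra hne
      have hord : orderOf (U : V ⧸ (⊤ : Subgroup V).lowerCentralSeries (k + 1)) = p :=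
        ((Nat.dvd_prime hp).1 (orderOf_dvd_of_pow_eq_one (by
          rw [← QuotientGroup.mk_pow, hVexp, QuotientGroup.mk_one]))).resolve_left hne
      rw [pow_eq_pow_iff_modEq, hord, ← ZMod.natCast_eq_natCast_iff, Nat.cast_pow, he,
        ZMod.natCast_zmod_val] at h
      have h1 : c ^ (k + 1) = c := Units.ext (by push_cast; exact h.symm)
      rw [pow_succ, mul_eq_right] at h1
      have := Nat.le_of_dvd hk0 (hoc ▸ orderOf_dvd_of_pow_eq_one h1)
      omega
  have hmem := hdesc (p - 1) (by have := hp.two_le; omega) le_rfl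
  have hU1 : (U : (ZMod p)ˣ → X) 1 = 1 := by
    let φ : V →* X := (Pi.evalMonoidHom (fun _ => X) (1 : (ZMod p)ˣ)).comp V.subtype
    have h1 : φ U ∈ ((⊤ : Subgroup V).lowerCentralSeries (p - 1)).map φ := mem_map_of_mem φ hmem
    rw [map_lowerCentralSeries] at h1
    have h2 := lcs_mono (T := N) (by
      rintro _ ⟨x, -, rfl⟩; exact hcoord _ x.2 1) (p - 1) h1
    rw [hcl, mem_bot] at h2
    exact h2
  rw [hUi, Units.val_one, ZMod.val_one, pow_one] at hU1
  exact hU1

end Cfsg.Agent.DiagonalNorm
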