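import Cfsg.Agent.ClassCount.TwoLargest
import Cfsg.Agent.FGSev.TwoSizes
import Cfsg.Agent.PSingular.Core
import Cfsg.Agent.S4134

/-!
# Class sizes `1, n, m, n * m` with `n`, `m` coprime: `n` and `m` are prime powers

For a `p`-element `a` of class size `n` and `X = C(a)`, the elements of order prime to `p` in `X`
are central in `X` as soon as `m` is no prime power; then these centralisers are abelian, which is
absurd.
-/

set_option autoImplicit false

namespace Cfsg.Agent.FourSizes

open Subgroup
open Cfsg.Agent.TwoLargest (cls mem_cent center_le_cent cls_pos center_of_cls_eq_one cent_eq_of_le)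

universe u

variable {G : Type u} [Group G]

/-- An `s`-element. -/
def El (s : ℕ) (x : G) : Prop := ∃ k, orderOf x = s ^ k

/-- `U` contains a noncentral `s`-element. -/
def NC (s : ℕ) (U : Subgroup G) : Prop := ∃ x ∈ U, x ∉ center G ∧ El s x

theorem El.coprime {s t : ℕ} {x y : G} (hs : s.Prime) (ht : t.Prime) (hst : s ≠ t) (hx : El s x)
    (hy : El t y) : (orderOf x).Coprime (orderOf y) := by
  obtain ⟨i, hi⟩ := hx
  obtain ⟨j, hj⟩ := hy
  rw [hi, hj]
  exact Nat.Coprime.pow i j ((Nat.coprime_primes hs ht).2 hst)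

theorem El.coprime_prime {s p : ℕ} {x : G} (hs : s.Prime) (hp : p.Prime) (hsp : s ≠ p)
    (hx : El s x) : (orderOf x).Coprime p := by
  obtain ⟨i, hi⟩ := hx
  rw [hi]
  exact ((Nat.coprime_primes hs hp).2 hsp).pow_left i

theorem El.conj {s : ℕ} {x : G} (hx : El s x) (g : G) : El s (g⁻¹ * x * g) := by
  have h := FGSev.pElem_conj g⁻¹ hx
  rwa [inv_inv] at h

theorem El.coe_iff {H : Subgroup G} {s : ℕ} {x : H} : El s x ↔ El s (x : G) := by
  simp only [El, orderOf_coe]

theorem cls_conj (g x : G) : cls (g⁻¹ * x * g) = cls x := by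
  have h := ClassSize.index_centralizer_conj g⁻¹ x
  rwa [inv_inv] at h

theorem commute_conj {x y : G} (h : Commute x y) (g : G) :
    Commute (g⁻¹ * x * g) (g⁻¹ * y * g) := by
  show g⁻¹ * x * g * (g⁻¹ * y * g) = g⁻¹ * y * g * (g⁻¹ * x * g)
  calc g⁻¹ * x * g * (g⁻¹ * y * g) = g⁻¹ * (x * y) * g := by group
    _ = g⁻¹ * (y * x) * g := by rw [h.eq]
    _ = _ := by group

theorem not_center_conj {x : G} (hx : x ∉ center G) (g : G) : g⁻¹ * x * g ∉ center G := fun h =>
  hx (by simpa [mul_assoc] using (inferInstance : (center G).Normal).conj_mem _ h g)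

/-- If no prime outside `q` is available, a number is a prime power. -/
theorem exists_prime_ne {k : ℕ} (hk : 1 < k) (hnp : ¬ IsPrimePow k) (q : ℕ) :
    ∃ r, r.Prime ∧ r ∣ k ∧ r ≠ q := by
  by_contra hcon
  push Not at hcon
  apply hnp
  obtain ⟨r, hr, hrk⟩ := Nat.exists_prime_and_dvd hk.ne'
  have hq := hcon r hr hrk
  subst hq
  rw [Nat.eq_prime_pow_of_unique_prime_dvd (by omega : k ≠ 0) (fun {d} hd hdk => hcon d hd hdk)]
  refine hr.isPrimePow.pow fun e => ?_
  rw [Nat.eq_prime_pow_of_unique_prime_dvd (by omega : k ≠ 0) (fun {d} hd hdk => hcon d hd hdk), e,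
    pow_zero] at hk
  omega

section Finite

variable [Finite G]

theorem nc_iff {s : ℕ} (hs : s.Prime) {U : Subgroup G} :
    NC s U ↔ s ∣ (center G).relIndex U :=
  ⟨fun ⟨_, hxU, hx, _, hk⟩ => FGSev.prime_dvd_relIndex hs hxU hx hk,
    fun h => FGSev.exists_noncentral_of_dvd hs h⟩

/-- Transfer of noncentral `s`-elements between subgroups over the centre. -/
theorem NC.of_index {s : ℕ} (hs : s.Prime) {U V : Subgroup G} (hU : center G ≤ U)
    (hV : center G ≤ V) (hd : V.index ∣ U.index) (h : NC s U) : NC s V := by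
  rw [nc_iff hs] at h ⊢
  obtain ⟨c, hc⟩ := hd
  have h1 := relIndex_mul_index hU
  rw [hc, ← mul_assoc] at h1
  have h2 := relIndex_mul_index hV
  rw [← h1] at h2
  refine h.trans ⟨c, Nat.eq_of_mul_eq_mul_right (Nat.pos_of_ne_zero index_ne_zero_of_finite)
    (h2.trans ?_)⟩
  ring

theorem eq_of_le_index {A B : Subgroup G} (hle : A ≤ B) (h : A.index = B.index) : A = B := by
  refine eq_of_le_of_card_ge hle (le_of_eq ?_)
  refine Nat.eq_of_mul_eq_mul_right
    (Nat.pos_of_ne_zero (index_ne_zero_of_finite (H := A))) ?_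
  conv_lhs => rw [h, card_mul_index]
  rw [card_mul_index]

theorem index_inf_coprime {A B : Subgroup G} (h : A.index.Coprime B.index) :
    (A ⊓ B).index = A.index * B.index :=
  le_antisymm Subgroup.index_inf_le (Nat.le_of_dvd (Nat.pos_of_ne_zero index_ne_zero_of_finite)
    (h.mul_dvd_of_dvd_of_dvd (index_dvd_of_le inf_le_left) (index_dvd_of_le inf_le_right)))

/-- Elements of `s`-power order are conjugate into subgroups of index prime to `s`. -/
theorem conj_into {s : ℕ} (hs : s.Prime) {D : Subgroup G} (hD : ¬ s ∣ D.index) {x : G}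
    (hx : El s x) : ∃ g : G, g⁻¹ * x * g ∈ D := by
  haveI := Fact.mk hs
  obtain ⟨P, -, hP⟩ := PSingular.exists_sylow_mem_le (p := s) hD (one_mem D) (k := 0) (by simp)
  obtain ⟨g, hg⟩ := FGSev.pElem_conj_mem P hx
  exact ⟨g, hP hg⟩

theorem exists_part {V : Subgroup G} {f : G} (hf : ¬ V ≤ centralizer {f}) :
    ∃ v ∈ zpowers f, ∃ s : ℕ, s.Prime ∧ El s v ∧ s ∣ orderOf f ∧ ¬ V ≤ centralizer {v} := by
  by_contra hcon
  push Not at hcon
  apply hf
  have hle : closure {g : zpowers f | ∃ q k : ℕ, q.Prime ∧ orderOf g = q ^ k} ≤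
      (centralizer (V : Set G)).subgroupOf (zpowers f) := by
    rw [closure_le]
    rintro g ⟨q, k, hq, hg⟩
    rw [SetLike.mem_coe, mem_subgroupOf, mem_centralizer_iff]
    intro v hv
    rcases k.eq_zero_or_pos with hk | hk
    · rw [hk, pow_zero, orderOf_eq_one_iff] at hg
      simp [hg]
    rw [← orderOf_coe] at hg
    exact (mem_cent.1 (hcon g g.2 q hq ⟨k, hg⟩
      ((dvd_pow_self q hk.ne').trans (hg ▸ orderOf_dvd_of_mem_zpowers g.2)) hv)).eq
  rw [Element.closure_primePow_orderOf] at hle
  intro v hv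
  have hf' : f ∈ centralizer (V : Set G) := hle (mem_top (⟨f, mem_zpowers f⟩ : zpowers f))
  exact mem_cent.2 (mem_centralizer_iff.1 hf' v hv)

/-- The hypotheses. -/
structure Hyp (G : Type u) [Group G] (n m : ℕ) : Prop where
  n1 : 1 < n
  m1 : 1 < m
  cop : n.Coprime m
  sizes : ∀ x : G, cls x = 1 ∨ cls x = n ∨ cls x = m ∨ cls x = n * m
  exn : ∃ x : G, cls x = n
  exm : ∃ x : G, cls x = m
  exnm : ∃ x : G, cls x = n * m

variable {n m : ℕ}

omit [Finite G] in
theorem Hyp.symm (H : Hyp G n m) : Hyp G m n where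
  n1 := H.m1
  m1 := H.n1
  cop := H.cop.symm
  sizes x := by rcases H.sizes x with e | e | e | e <;> simp [e, mul_comm n m]
  exn := H.exm
  exm := H.exn
  exnm := by obtain ⟨x, hx⟩ := H.exnm; exact ⟨x, by rw [hx, mul_comm]⟩

variable (H : Hyp G n m)
include H

omit [Finite G] in
theorem Hyp.not_dvd_m {s : ℕ} (hs : s.Prime) (h : s ∣ n) : ¬ s ∣ m := fun h' =>
  hs.ne_one (Nat.eq_one_of_dvd_coprimes H.cop h h')

omit [Finite G] in
theorem Hyp.not_dvd_n {s : ℕ} (hs : s.Prime) (h : s ∣ m) : ¬ s ∣ n := fun h' =>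
  H.not_dvd_m hs h' h

omit [Finite G] in
theorem Hyp.n_ne_m : n ≠ m := fun e => by
  have := H.cop
  rw [e, Nat.coprime_self] at this
  linarith [H.m1]

theorem Hyp.cls_n_of_dvd {x : G} (hd : cls x ∣ n) (hx : x ∉ center G) : cls x = n := by
  have hm : ¬ m ∣ n := fun h => by
    have := Nat.eq_one_of_dvd_coprimes H.cop h dvd_rfl
    linarith [H.m1]
  rcases H.sizes x with e | e | e | e
  · exact absurd (center_of_cls_eq_one e) hx
  · exact e
  · exact absurd (e ▸ hd) hm
  · exact absurd ((dvd_mul_left m n).trans (e ▸ hd)) hm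

theorem Hyp.cls_of_n_dvd {x : G} (hd : n ∣ cls x) : cls x = n ∨ cls x = n * m := by
  rcases H.sizes x with e | e | e | e
  · have := Nat.le_of_dvd one_pos (e ▸ hd)
    linarith [H.n1]
  · exact Or.inl e
  · have := Nat.eq_one_of_dvd_coprimes H.cop dvd_rfl (e ▸ hd)
    linarith [H.n1]
  · exact Or.inr e

theorem Hyp.cls_top {x : G} (hd : n * m ∣ cls x) : cls x = n * m := by
  rcases H.cls_of_n_dvd (dvd_trans (dvd_mul_right n m) hd) with e | e
  · have h1 := Nat.le_of_dvd (by linarith [H.n1]) (e ▸ hd)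
    nlinarith [H.n1, H.m1]
  · exact e

omit [Finite G] in
theorem Hyp.not_center {x : G} (h : cls x ≠ 1) : x ∉ center G := fun hx =>
  h ((ClassSize.index_centralizer_eq_one_iff x).2 hx)

/-- Centralisers of elements of largest class size are minimal. -/
theorem Hyp.minimal {x f : G} (hx : cls x = n * m) (hc : Commute x f)
    (hcop : (orderOf x).Coprime (orderOf f)) :
    centralizer ({x} : Set G) ≤ centralizer {f} := by
  have e := Element.centralizer_mul_of_coprime hc hcop
  have hle : centralizer ({x * f} : Set G) ≤ centralizer {x} := e ▸ inf_le_left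
  have h1 := cent_eq_of_le hle (hx.trans (H.cls_top (hx ▸ index_dvd_of_le hle)).symm)
  rw [← h1, e]
  exact inf_le_right

/-- A prime power element of class size `n`. -/
theorem Hyp.exists_primePow : ∃ (p : ℕ) (a : G), p.Prime ∧ El p a ∧ cls a = n := by
  obtain ⟨x, hx⟩ := H.exn
  obtain ⟨w, hw, hwc, q, k, hq, hk⟩ := FGSev.exists_noncentral_primePow
    (H.not_center (x := x) (by rw [hx]; exact H.n1.ne'))
  exact ⟨q, w, hq, ⟨k, hk⟩, H.cls_n_of_dvd (hx ▸ ClassSize.index_centralizer_dvd_of_mem_zpowers hw) hwc⟩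

variable {p : ℕ} {a : G}

/-- Elements of order prime to `p` in `C(a)` that are not central there. -/
theorem Hyp.rel_index (hp : p.Prime) (ha : El p a) (han : cls a = n) {f : G}
    (hf : f ∈ centralizer ({a} : Set G)) (hfo : (orderOf f).Coprime p)
    (hnc : ¬ centralizer ({a} : Set G) ≤ centralizer {f}) :
    (centralizer ({a} : Set G) ⊓ centralizer {f}).index = n * m := by
  obtain ⟨k, hk⟩ := ha
  have hcop : (orderOf a).Coprime (orderOf f) := by rw [hk]; exact hfo.symm.pow_left k
  have e := Element.centralizer_mul_of_coprime (mem_cent.1 hf).symm hcop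
  rw [← e]
  have hd : n ∣ cls (a * f) := han ▸ index_dvd_of_le (e ▸ inf_le_left)
  rcases H.cls_of_n_dvd hd with h | h
  · have h1 := cent_eq_of_le (e ▸ inf_le_left : centralizer ({a * f} : Set G) ≤ centralizer {a})
      (han.trans h.symm)
    exact absurd (h1 ▸ (e ▸ inf_le_right : centralizer ({a * f} : Set G) ≤ centralizer {f})) hnc
  · exact h

theorem Hyp.rel_relIndex (hp : p.Prime) (ha : El p a) (han : cls a = n) {f : G}
    (hf : f ∈ centralizer ({a} : Set G)) (hfo : (orderOf f).Coprime p)
    (hnc : ¬ centralizer ({a} : Set G) ≤ centralizer {f}) :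
    (centralizer ({f} : Set G)).relIndex (centralizer {a}) = m := by
  have h := relIndex_mul_index (inf_le_left : centralizer ({a} : Set G) ⊓ centralizer {f} ≤ _)
  rw [inf_relIndex_left, H.rel_index hp ha han hf hfo hnc,
    show (centralizer ({a} : Set G)).index = n from han, mul_comm n m] at h
  exact Nat.eq_of_mul_eq_mul_right (by linarith [H.n1]) h

/-- A relevant `t`-element. -/
def Rel (a : G) (t : ℕ) (v : G) : Prop :=
  v ∈ centralizer ({a} : Set G) ∧ El t v ∧ ¬ centralizer ({a} : Set G) ≤ centralizer {v}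

omit [Finite G] H in
theorem Rel.not_center {t : ℕ} {v : G} (hv : Rel a t v) : v ∉ center G := fun hc =>
  hv.2.2 fun g _ => mem_cent.2 (mem_center_iff.1 hc g)

omit [Finite G] H in
theorem Rel.conj {t : ℕ} {v x : G} (hv : Rel a t v) (hx : x ∈ centralizer ({a} : Set G)) :
    Rel a t (x⁻¹ * v * x) := by
  refine ⟨mul_mem (mul_mem (inv_mem hx) hv.1) hx, hv.2.1.conj x, fun hle => hv.2.2 fun g hg => ?_⟩
  have := commute_conj (mem_cent.1 (hle (mul_mem (mul_mem (inv_mem hx) hg) hx))) x⁻¹
  simp only [inv_inv, mul_assoc, mul_inv_cancel_left, mul_inv_cancel_right, inv_mul_cancel_left,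
    inv_mul_cancel_right, mul_inv_cancel, inv_mul_cancel, mul_one, one_mul] at this
  exact mem_cent.2 this

/-- Commuting relevant elements of coprime orders have the same centraliser in `C(a)`. -/
theorem Hyp.pair (hp : p.Prime) (ha : El p a) (han : cls a = n) {s t : ℕ} (hs : s.Prime)
    (ht : t.Prime) (hsp : s ≠ p) (htp : t ≠ p) (hst : s ≠ t) {u v : G} (hu : Rel a s u)
    (hv : Rel a t v) (hc : Commute u v) :
    centralizer ({a} : Set G) ⊓ centralizer {u} = centralizer ({a} : Set G) ⊓ centralizer {v} := by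
  have hcop := hu.2.1.coprime hs ht hst hv.2.1
  have e := Element.centralizer_mul_of_coprime hc hcop
  have ho : (orderOf (u * v)).Coprime p := by
    rw [hc.orderOf_mul_eq_mul_orderOf_of_coprime hcop]
    exact Nat.Coprime.mul_left (hu.2.1.coprime_prime hs hp hsp) (hv.2.1.coprime_prime ht hp htp)
  have hnc : ¬ centralizer ({a} : Set G) ≤ centralizer {u * v} := fun h =>
    hu.2.2 (h.trans (e ▸ inf_le_left))
  have hi := H.rel_index hp ha han (mul_mem hu.1 hv.1) ho hnc
  rw [e] at hi
  have h1 := eq_of_le_index (inf_le_inf_left (centralizer ({a} : Set G))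
    (inf_le_left : centralizer ({u} : Set G) ⊓ centralizer {v} ≤ _))
    (hi.trans (H.rel_index hp ha han hu.1 (hu.2.1.coprime_prime hs hp hsp) hu.2.2).symm)
  have h2 := eq_of_le_index (inf_le_inf_left (centralizer ({a} : Set G))
    (inf_le_right : centralizer ({u} : Set G) ⊓ centralizer {v} ≤ _))
    (hi.trans (H.rel_index hp ha han hv.1 (hv.2.1.coprime_prime ht hp htp) hv.2.2).symm)
  exact h1.symm.trans h2

/-- Every relevant prime occurs inside the centraliser of any relevant element. -/
theorem Hyp.rel_in (hp : p.Prime) (ha : El p a) (han : cls a = n) {s t : ℕ} (hs : s.Prime)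
    (ht : t.Prime) (hsp : s ≠ p) (htp : t ≠ p) {u w : G} (hu : Rel a s u) (hw : Rel a t w) :
    ∃ v, Rel a t v ∧ Commute v u := by
  set X := centralizer ({a} : Set G) with hX
  set U := (centralizer ({w} : Set G)).subgroupOf X with hU
  set V := (centralizer ({u} : Set G)).subgroupOf X with hV
  have hce : ∀ f ∈ X, center X ≤ (centralizer ({f} : Set G)).subgroupOf X := fun f hf z hz =>
    mem_cent.2 (congrArg Subtype.val (mem_center_iff.1 hz ⟨f, hf⟩)).symm
  have hUi : U.index = m := H.rel_relIndex hp ha han hw.1 (hw.2.1.coprime_prime ht hp htp) hw.2.2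
  have hVi : V.index = m := H.rel_relIndex hp ha han hu.1 (hu.2.1.coprime_prime hs hp hsp) hu.2.2
  have h1 : NC t U := ⟨⟨w, hw.1⟩, mem_cent.2 (Commute.refl w), fun hc => hw.2.2 fun g hg =>
    mem_cent.2 (congrArg Subtype.val (mem_center_iff.1 hc ⟨g, hg⟩)), El.coe_iff.2 hw.2.1⟩
  obtain ⟨⟨v, hvX⟩, hvV, hvc, hvt⟩ := h1.of_index ht (hce w hw.1) (hce u hu.1) (by rw [hUi, hVi])
  exact ⟨v, ⟨hvX, El.coe_iff.1 hvt, fun hle => hvc (mem_center_iff.2 fun g =>
    Subtype.ext (mem_cent.1 (hle g.2)).eq)⟩, mem_cent.1 hvV⟩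

/-- Two relevant primes are present. -/
def Two (p : ℕ) (a : G) : Prop :=
  ∀ t : ℕ, ∃ (s : ℕ) (w : G), s.Prime ∧ s ≠ p ∧ s ≠ t ∧ Rel a s w

/-- With two relevant primes, relevant elements commute only inside one centraliser. -/
theorem Hyp.D_eq (hp : p.Prime) (ha : El p a) (han : cls a = n) (h2 : Two p a) {s t : ℕ}
    (hs : s.Prime) (ht : t.Prime) (hsp : s ≠ p) (htp : t ≠ p) {u f : G} (hu : Rel a s u)
    (hf : Rel a t f) (hc : Commute f u) :
    centralizer ({a} : Set G) ⊓ centralizer {f} = centralizer ({a} : Set G) ⊓ centralizer {u} := by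
  by_cases hts : t = s
  · subst hts
    obtain ⟨s', w, hs', hs'p, hs't, hw⟩ := h2 t
    obtain ⟨v, hv, hvu⟩ := H.rel_in hp ha han hs hs' hsp hs'p hu hw
    have h1 := H.pair hp ha han hs' hs hs'p hsp hs't hv hu hvu
    have hfv : f ∈ centralizer ({a} : Set G) ⊓ centralizer {v} := by
      rw [h1]; exact ⟨hf.1, mem_cent.2 hc⟩
    exact (H.pair hp ha han ht hs' htp hs'p (Ne.symm hs't) hf hv (mem_cent.1 hfv.2)).trans h1
  · exact H.pair hp ha han ht hs htp hsp hts hf hu hc

/-- Elements of order prime to `p` in the centraliser of a relevant element are central in it. -/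
theorem Hyp.D_le (hp : p.Prime) (ha : El p a) (han : cls a = n) (h2 : Two p a) {t : ℕ}
    (ht : t.Prime) (htp : t ≠ p) {u f : G} (hu : Rel a t u)
    (hf : f ∈ centralizer ({a} : Set G)) (hfo : (orderOf f).Coprime p) (hc : Commute f u) :
    centralizer ({a} : Set G) ⊓ centralizer {u} ≤ centralizer {f} := by
  by_contra hle
  obtain ⟨v, hvf, s, hs, hv, hsf, hnle⟩ := exists_part hle
  apply hnle
  have hvX : v ∈ centralizer ({a} : Set G) := zpowers_le.2 hf hvf
  have hsp : s ≠ p := fun e => hs.ne_one (Nat.eq_one_of_dvd_coprimes hfo hsf (e ▸ dvd_rfl))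
  by_cases hXv : centralizer ({a} : Set G) ≤ centralizer {v}
  · exact inf_le_left.trans hXv
  have hcv : Commute v u := by
    obtain ⟨k, rfl⟩ := hvf
    exact hc.zpow_left k
  rw [← H.D_eq hp ha han h2 ht hs htp hsp hu ⟨hvX, hv, hXv⟩ hcv]
  exact inf_le_right

/-- Primes of `m` are relevant. -/
theorem Hyp.rel_exists (hp : p.Prime) (ha : El p a) (han : cls a = n) {r : ℕ} (hr : r.Prime)
    (hrm : r ∣ m) {f : G}
    (hf : f ∈ centralizer ({a} : Set G)) (hfo : (orderOf f).Coprime p)
    (hnc : ¬ centralizer ({a} : Set G) ≤ centralizer {f}) :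
    ∃ v, Rel a r v := by
  haveI := Fact.mk hr
  by_contra hcon
  push Not at hcon
  set X := centralizer ({a} : Set G) with hX
  obtain ⟨R⟩ : Nonempty (Sylow r X) := inferInstance
  have hle : (R : Subgroup X) ≤ (centralizer ({f} : Set G)).subgroupOf X := by
    intro x hx
    refine mem_cent.2 (mem_cent.1 ((not_not.1 fun h => hcon (x : G) ⟨x.2, ?_, h⟩ : X ≤ _) hf)).symm
    exact El.coe_iff.1 (FGSev.pElem_of_mem R.2 hx)
  apply R.not_dvd_index
  refine hrm.trans ?_
  rw [← H.rel_relIndex hp ha han hf hfo hnc]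
  exact index_dvd_of_le hle

/-- If `p` is prime to `m`, the elements of order prime to `p` are central in `C(a)`. -/
theorem Hyp.central_of_not_dvd (hnp : ¬ IsPrimePow m) (hp : p.Prime) (ha : El p a)
    (han : cls a = n) (hpm : ¬ p ∣ m) {f0 : G} (hf0 : f0 ∈ centralizer ({a} : Set G))
    (hf0o : (orderOf f0).Coprime p) : centralizer ({a} : Set G) ≤ centralizer {f0} := by
  classical
  by_contra hnc
  haveI := Fact.mk hp
  have h2 : Two p a := fun t => by
    obtain ⟨r, hr, hrm, hrt⟩ := exists_prime_ne H.m1 hnp t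
    obtain ⟨v, hv⟩ := H.rel_exists hp ha han hr hrm hf0 hf0o hnc
    exact ⟨r, v, hr, fun e => hpm (e ▸ hrm), hrt, hv⟩
  set X := centralizer ({a} : Set G) with hX
  have hpart : ∀ g : X, ∃ P' : Sylow p X, Element.pPart p g ∈ (P' : Subgroup X) ∧
      ∀ x ∈ (P' : Subgroup X), Commute x (Element.pComplPart p g) := by
    intro g
    set e := Element.pPart p g with he
    set f := Element.pComplPart p g with hf
    have heo : orderOf e = p ^ (orderOf g).factorization p := Element.orderOf_pPart_eq_pow hp g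
    by_cases hfc : X ≤ centralizer ({(f : G)} : Set G)
    · obtain ⟨P', hP'⟩ := Element.exists_sylow_mem heo
      exact ⟨P', hP', fun x _ => Subtype.ext (mem_cent.1 (hfc x.2)).eq⟩
    · have hfo : (orderOf (f : G)).Coprime p := by
        rw [orderOf_coe]; exact Element.coprime_orderOf_pComplPart hp g
      obtain ⟨v, hvf, s, hs, hv, hsf, hnle⟩ := exists_part hfc
      have hsp : s ≠ p := fun e => hs.ne_one (Nat.eq_one_of_dvd_coprimes hfo hsf (e ▸ dvd_rfl))
      have hvX : v ∈ X := zpowers_le.2 f.2 hvf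
      obtain ⟨j, hj⟩ := hvf
      have hev : Commute (e : G) v := hj ▸
        ((Element.commute_pPart_pComplPart p g).map X.subtype).zpow_right j
      have hfv : Commute (f : G) v := hj ▸ (Commute.refl (f : G)).zpow_right j
      have hD : ¬ p ∣ ((centralizer ({v} : Set G)).subgroupOf X).index := by
        rw [show ((centralizer ({v} : Set G)).subgroupOf X).index = m from
          H.rel_relIndex hp ha han hvX (hv.coprime_prime hs hp hsp) hnle]
        exact hpm
      obtain ⟨P', hP', hPD⟩ := PSingular.exists_sylow_mem_le hD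
        (show e ∈ (centralizer ({v} : Set G)).subgroupOf X from mem_cent.2 hev) heo
      refine ⟨P', hP', fun x hx => Subtype.ext (mem_cent.1 ?_).eq⟩
      exact H.D_le hp ha han h2 hs hsp ⟨hvX, hv, hnle⟩ f.2 hfo hfv ⟨x.2, hPD hx⟩
  obtain ⟨P⟩ : Nonempty (Sylow p X) := inferInstance
  have hnorm : normalizer ((P : Subgroup X) : Set X) = ⊤ := by
    refine PSingular.eq_top_of_meets_all _ fun g => ?_
    obtain ⟨P', heP, hfP⟩ := hpart g
    obtain ⟨k, hk⟩ := MulAction.exists_smul_eq X P P'
    refine ⟨k, ?_⟩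
    refine Sylow.smul_eq_iff_mem_normalizer.1 ?_
    have hg : g • P' = P' := by
      rw [Sylow.smul_eq_iff_mem_normalizer, ← Element.pPart_mul_pComplPart p g]
      refine mul_mem (le_normalizer heP) (Coprime.centralizer_le_normalizer' _ ?_)
      rw [mem_centralizer_iff]
      exact fun x hx => (hfP x hx).eq
    rw [mul_smul, mul_smul, hk, hg, ← hk, inv_smul_smul]
  haveI hPn : (P : Subgroup X).Normal := normalizer_eq_top_iff.1 hnorm
  set Y := centralizer ((P : Subgroup X) : Set X) with hY
  have hfY : ∀ g : X, Element.pPart p g ∈ (P : Subgroup X) ∧ Element.pComplPart p g ∈ Y := by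
    intro g
    obtain ⟨P', heP, hfP⟩ := hpart g
    haveI := Sylow.unique_of_normal P hPn
    obtain rfl : P' = P := Subsingleton.elim _ _
    exact ⟨heP, mem_centralizer_iff.2 fun x hx => (hfP x hx).eq⟩
  -- the class sizes of `Y`
  have hclass : ∀ g : Y, (centralizer ({g} : Set Y)).index =
      (centralizer ({((Element.pComplPart p (g : X) : X) : G)} : Set G)).relIndex X := by
    intro g
    set e := Element.pPart p (g : X) with he
    set f := Element.pComplPart p (g : X) with hf
    have h1 : centralizer ({g} : Set Y) = (centralizer ({f} : Set X)).subgroupOf Y := by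
      rw [ClassSize.centralizer_subgroupOf, Element.centralizer_eq_inf_pPart p (g : X)]
      ext y
      simp only [mem_subgroupOf, mem_inf]
      refine ⟨fun h => h.2, fun h => ⟨?_, h⟩⟩
      exact mem_cent.2 (mem_centralizer_iff.1 y.2 e (hfY (g : X)).1).symm
    rw [h1]
    show (centralizer ({f} : Set X)).relIndex Y = _
    have hPC : (P : Subgroup X) ≤ centralizer ({f} : Set X) := fun x hx =>
      mem_cent.2 (mem_centralizer_iff.1 (hfY (g : X)).2 x hx)
    have hsup : centralizer ({f} : Set X) ⊔ Y = ⊤ := by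
      rw [eq_top_iff]
      intro x _
      rw [← Element.pPart_mul_pComplPart p x]
      exact mul_mem (mem_sup_left (hPC (hfY x).1)) (mem_sup_right (hfY x).2)
    haveI : Y.Normal := Subgroup.normal_centralizer
    have h2 : Y.relIndex (centralizer ({f} : Set X)) = Y.index := by
      rw [← relIndex_sup_right (K := Y), hsup, relIndex_top_right]
    have h3 := relIndex_mul_index (inf_le_right : centralizer ({f} : Set X) ⊓ Y ≤ Y)
    have h4 := relIndex_mul_index (inf_le_left : centralizer ({f} : Set X) ⊓ Y ≤ _)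
    rw [inf_relIndex_right] at h3
    rw [inf_relIndex_left, h2, mul_comm] at h4
    rw [Nat.eq_of_mul_eq_mul_right (Nat.pos_of_ne_zero index_ne_zero_of_finite) (h3.trans h4.symm),
      ClassSize.centralizer_subgroupOf]
    rfl
  have hone : ∀ f : G, X ≤ centralizer ({f} : Set G) →
      (centralizer ({f} : Set G)).relIndex X = 1 := fun f h => relIndex_eq_one.2 h
  obtain ⟨l, hl, i, hi, -⟩ := S4134.result (G := Y) m H.m1 (fun g => by
    rw [hclass g]
    by_cases hc : X ≤ centralizer ({((Element.pComplPart p (g : X) : X) : G)} : Set G)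
    · exact Or.inl (hone _ hc)
    · exact Or.inr (H.rel_relIndex hp ha han (SetLike.coe_mem _)
        (by rw [orderOf_coe]; exact Element.coprime_orderOf_pComplPart hp _) hc)) (by
    have hfo : (orderOf (⟨f0, hf0⟩ : X)).Coprime p := by rw [orderOf_mk]; exact hf0o
    have h1 := (Element.pPart_eq_one hp hfo).2
    refine ⟨⟨⟨f0, hf0⟩, h1 ▸ (hfY ⟨f0, hf0⟩).2⟩, ?_⟩
    rw [hclass, h1]
    exact H.rel_relIndex hp ha han hf0 hf0o hnc)
  apply hnp
  rw [hi]
  refine (hl.out).isPrimePow.pow fun e => ?_
  have := H.m1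
  rw [hi, e, pow_zero] at this
  omega

/-- The same when `p` divides `m`. -/
theorem Hyp.central_of_dvd (hnp : ¬ IsPrimePow m) (hp : p.Prime) (ha : El p a)
    (han : cls a = n) (hpm : p ∣ m) {f0 : G} (hf0 : f0 ∈ centralizer ({a} : Set G))
    (hf0o : (orderOf f0).Coprime p) : centralizer ({a} : Set G) ≤ centralizer {f0} := by
  classical
  by_contra hnc
  haveI := Fact.mk hp
  set X := centralizer ({a} : Set G) with hX
  obtain ⟨q, hq, hqn⟩ := Nat.exists_prime_and_dvd H.n1.ne'
  haveI := Fact.mk hq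
  obtain ⟨r, hr, hrm, hrp⟩ := exists_prime_ne H.m1 hnp p
  haveI := Fact.mk hr
  have hqm : ¬ q ∣ m := H.not_dvd_m hq hqn
  have hqp : q ≠ p := fun e => hqm (e ▸ hpm)
  have hqr : q ≠ r := fun e => hqm (e ▸ hrm)
  have hpn : ¬ p ∣ n := H.not_dvd_n hp hpm
  have hrn : ¬ r ∣ n := H.not_dvd_n hr hrm
  have hXi : X.index = n := han
  have hI : (X ⊓ centralizer {f0}).index = n * m := H.rel_index hp ha han hf0 hf0o hnc
  have hZI : center G ≤ X ⊓ centralizer {f0} := le_inf (center_le_cent a) (center_le_cent f0)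
  have haI : a ∈ X ⊓ centralizer {f0} := ⟨mem_cent.2 (Commute.refl a),
    mem_cent.2 (mem_cent.1 hf0).symm⟩
  -- a noncentral `q`-element in `C(a)`
  have hNCq : NC q X := by
    by_contra hno
    have hnone : ∀ x : G, n ∣ cls x → ¬ NC q (centralizer {x}) := fun x hx h =>
      hno (h.of_index hq (center_le_cent x) (center_le_cent a) (hXi ▸ hx))
    obtain ⟨b, -, hb, hbq⟩ : NC q (⊤ : Subgroup G) := by
      rw [nc_iff hq, relIndex_top_right]
      refine hqn.trans ?_
      rw [← hXi]
      exact index_dvd_of_le (center_le_cent a)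
    have hm_of : ∀ x : G, b ∈ centralizer ({x} : Set G) → x ∉ center G → cls x = m := by
      intro x hbx hx
      rcases H.sizes x with e | e | e | e
      · exact absurd (center_of_cls_eq_one e) hx
      · exact absurd ⟨b, hbx, hb, hbq⟩ (hnone x (e ▸ dvd_rfl))
      · exact e
      · exact absurd ⟨b, hbx, hb, hbq⟩ (hnone x (e ▸ dvd_mul_right n m))
    have hbm := hm_of b (mem_cent.2 (Commute.refl b)) hb
    have han' : a ∉ center G := H.not_center (by rw [han]; exact H.n1.ne')
    obtain ⟨f, hfb, hf, hfp⟩ := NC.of_index hp hZI (center_le_cent b)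
      (by rw [hI, show (centralizer ({b} : Set G)).index = m from hbm]; exact dvd_mul_left m n)
      ⟨a, haI, han', ha⟩
    have hcfb : Commute f b := mem_cent.1 hfb
    have hcop := hfp.coprime hp hq (Ne.symm hqp) hbq
    have e := Element.centralizer_mul_of_coprime hcfb hcop
    have hfm := hm_of f (mem_cent.2 hcfb.symm) hf
    have hfbm := hm_of (f * b) (mem_cent.2 (hcfb.symm.mul_right (Commute.refl b))) (by
      intro hc
      apply hb
      apply center_of_cls_eq_one
      refine Nat.eq_one_of_dvd_one ?_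
      rw [← (ClassSize.index_centralizer_eq_one_iff (f * b)).2 hc]
      exact index_dvd_of_le (e ▸ inf_le_right))
    have hfb' : centralizer ({f} : Set G) = centralizer {b} :=
      (cent_eq_of_le (e ▸ inf_le_left : centralizer ({f * b} : Set G) ≤ _)
        (hfm.trans hfbm.symm)).symm.trans
        (cent_eq_of_le (e ▸ inf_le_right : centralizer ({f * b} : Set G) ≤ _)
          (hbm.trans hfbm.symm))
    obtain ⟨P0, hP0⟩ := PSingular.exists_sylow_le_of_not_dvd (p := p) (g := a)
      (show ¬ p ∣ cls a by rw [han]; exact hpn)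
    obtain ⟨y, hy⟩ := FGSev.pElem_conj_mem P0 hfp
    have hz : Commute f (y * a * y⁻¹) := by
      have := commute_conj (mem_cent.1 (hP0 hy)) y⁻¹
      simpa [mul_assoc] using this
    have hzb : b ∈ centralizer ({y * a * y⁻¹} : Set G) := by
      have h1 : y * a * y⁻¹ ∈ centralizer ({b} : Set G) := hfb' ▸ mem_cent.2 hz.symm
      exact mem_cent.2 (mem_cent.1 h1).symm
    exact hnone (y * a * y⁻¹)
      (dvd_of_eq ((ClassSize.index_centralizer_conj y a).trans han).symm) ⟨b, hzb, hb, hbq⟩
  obtain ⟨w, hwX, hwc, hwq⟩ := hNCq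
  obtain ⟨v0, hv0⟩ := H.rel_exists hp ha han hr hrm hf0 hf0o hnc
  have hv0o : (orderOf v0).Coprime p := hv0.2.1.coprime_prime hr hp hrp
  -- such elements are relevant
  have hqrel : ∀ d ∈ X, d ∉ center G → El q d → Rel a q d := by
    intro d hdX hd hdq
    refine ⟨hdX, hdq, fun hle => hv0.2.2 ?_⟩
    have hdn : cls d = n := H.cls_n_of_dvd (hXi ▸ index_dvd_of_le hle) hd
    have heq := cent_eq_of_le hle (hdn.trans han.symm)
    have h1 := H.central_of_not_dvd hnp hq hdq hdn hqm (f0 := v0) (heq ▸ hv0.1)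
      (hv0.2.1.coprime_prime hr hq (Ne.symm hqr))
    rwa [← heq] at h1
  have hw := hqrel w hwX hwc hwq
  have h2 : Two p a := fun t => by
    by_cases ht : r = t
    · exact ⟨q, w, hq, hqp, fun e => hqr (e.trans ht.symm), hw⟩
    · exact ⟨r, v0, hr, hrp, ht, hv0⟩
  have hDq : ∀ v t, t.Prime → t ≠ p → Rel a t v → ∀ g ∈ X, Commute g v →
      ∃ d, Rel a q d ∧ Commute g d := by
    intro v t ht htp hv g hg hgv
    obtain ⟨d, hd, hdv⟩ := H.rel_in hp ha han ht hq htp hqp hv hw
    refine ⟨d, hd, mem_cent.1 ?_⟩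
    have := H.D_eq hp ha han h2 ht hq htp hqp hv hd hdv
    exact (this ▸ ⟨hg, mem_cent.2 hgv⟩ : g ∈ X ⊓ centralizer {d}).2
  -- the `q`-elements of the subgroups of index `n * m`
  have hIq : ∀ U : Subgroup G, center G ≤ U → U.index ∣ n * m → NC q U := fun U hU hd => by
    refine NC.of_index hq (U := X ⊓ centralizer {w})
      (le_inf (center_le_cent a) (center_le_cent w)) hU ?_ ⟨w, ⟨hwX, mem_cent.2 (Commute.refl w)⟩, hwc, hwq⟩
    rwa [H.rel_index hp ha han hwX (hwq.coprime_prime hq hp hqp) hw.2.2]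
  have hIr : ∀ U : Subgroup G, center G ≤ U → U.index ∣ n * m → NC r U := fun U hU hd => by
    refine NC.of_index hr (U := X ⊓ centralizer {v0})
      (le_inf (center_le_cent a) (center_le_cent v0)) hU ?_
      ⟨v0, ⟨hv0.1, mem_cent.2 (Commute.refl v0)⟩, hv0.not_center, hv0.2.1⟩
    rwa [H.rel_index hp ha han hv0.1 hv0o hv0.2.2]
  -- every `p`-element meets a relevant `q`-element
  have hgood : ∀ e ∈ X, El p e → X ≤ centralizer {e} ∨ ∃ d, Rel a q d ∧ Commute e d := by
    intro e heX hep
    rw [or_iff_not_imp_left]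
    intro hne
    by_cases hz : ∃ z ∈ X, El r z ∧ z ∉ center G ∧ X ≤ centralizer {z}
    · obtain ⟨z, -, hzr, hzc, hzX⟩ := hz
      have hzn : cls z = n := H.cls_n_of_dvd (hXi ▸ index_dvd_of_le hzX) hzc
      have heq := cent_eq_of_le hzX (hzn.trans han.symm)
      have h1 := H.rel_index hr hzr hzn (f := e) (heq ▸ heX)
        (hep.coprime_prime hp hr (Ne.symm hrp)) (heq ▸ hne)
      rw [← heq] at h1
      obtain ⟨d, ⟨hdX, hde⟩, hd, hdq⟩ := hIq _ (le_inf (center_le_cent a) (center_le_cent e))
        (dvd_of_eq h1)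
      exact ⟨d, hqrel d hdX hd hdq, (mem_cent.1 hde).symm⟩
    have hrrel : ∀ v ∈ X, v ∉ center G → El r v → Rel a r v := fun v hvX hv hvr =>
      ⟨hvX, hvr, fun hle => hz ⟨v, hvX, hvr, hv, hle⟩⟩
    have hea : Commute e a := mem_cent.1 heX
    rcases H.sizes e with h | h | h | h
    · exact absurd (fun g _ => mem_cent.2 (mem_center_iff.1 (center_of_cls_eq_one h) g)) hne
    · by_cases hm : ∃ v ∈ X, El r v ∧ cls v = m
      · obtain ⟨v, hvX, hvr, hvm⟩ := hm
        obtain ⟨g, hg⟩ := conj_into hr (D := centralizer ({e} : Set G))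
          (show ¬ r ∣ cls e by rw [h]; exact hrn) hvr
        have hvc : v ∉ center G := H.not_center (by rw [hvm]; exact H.m1.ne')
        have hga : Commute a (g⁻¹ * v * g) := by
          have := PSingular.comm_all (a := a) (b := v)
            (show (cls a).Coprime (cls v) by rw [han, hvm]; exact H.cop) (mem_cent.1 hvX).symm g⁻¹
          rwa [inv_inv] at this
        exact hDq _ r hr hrp (hrrel _ (mem_cent.2 hga.symm) (not_center_conj hvc g) (hvr.conj g))
          e heX (mem_cent.1 hg).symm
      -- all noncentral `r`-elements have the largest class size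
      have hall : ∀ z : G, El r z → z ∉ center G → cls z = n * m := by
        intro z hzr hzc
        obtain ⟨g, hg⟩ := conj_into hr (D := X) (by rw [hXi]; exact hrn) hzr
        rw [← cls_conj g z]
        have hz' := hzr.conj g
        rcases H.sizes (g⁻¹ * z * g) with e1 | e1 | e1 | e1
        · exact absurd (center_of_cls_eq_one e1) (not_center_conj hzc g)
        · exfalso
          obtain ⟨R, -, hRX⟩ := PSingular.exists_sylow_mem_le (p := r) (D := X)
            (by rw [hXi]; exact hrn) (one_mem X) (k := 0) (by simp)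
          obtain ⟨R', hR'⟩ := PSingular.exists_sylow_le_of_not_dvd (p := r) (g := g⁻¹ * z * g)
            (show ¬ r ∣ cls _ by rw [e1]; exact hrn)
          obtain ⟨c, hc⟩ := FGSev.sylow_exists_conj R' R
          set z'' := c * (g⁻¹ * z * g) * c⁻¹ with hz''
          have hzR : (R : Subgroup G) ≤ centralizer {z''} := by
            intro x hx
            have := commute_conj (mem_cent.1 (hR' ((hc x).1 hx))) c⁻¹
            rw [inv_inv, show c * (c⁻¹ * x * c) * c⁻¹ = x by group] at this
            exact mem_cent.2 this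
          have hz''r : El r z'' := by
            have := hz'.conj c⁻¹
            rwa [inv_inv] at this
          have hz''c : z'' ∉ center G := by
            have := not_center_conj (not_center_conj hzc g) c⁻¹
            rwa [inv_inv] at this
          have hmem : z'' ∈ (R : Subgroup G) := by
            have hle : zpowers z'' ≤ normalizer ((R : Subgroup G) : Set G) := by
              rw [zpowers_le]
              refine Coprime.centralizer_le_normalizer' _ (mem_centralizer_iff.2 fun x hx => ?_)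
              exact (mem_cent.1 (hzR hx)).eq
            have := R.is_maximal' (IsPGroup.to_sup_of_normal_right'
              ((FGSev.pElem_iff_isPGroup r _).1 hz''r) R.2 hle) le_sup_right
            exact this ▸ mem_sup_left (mem_zpowers _)
          have hzrel := hrrel z'' (hRX hmem) hz''c hz''r
          refine R.not_dvd_index (hrm.trans ?_)
          refine (dvd_mul_left m n).trans ?_
          rw [← H.rel_index hp ha han hzrel.1 (hz''r.coprime_prime hr hp hrp) hzrel.2.2]
          exact index_dvd_of_le (le_inf hRX hzR)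
        · exact absurd ⟨_, hg, hz', e1⟩ hm
        · exact e1
      obtain ⟨t, b, ht, hbt, hbm⟩ := H.symm.exists_primePow
      have hbc : b ∉ center G := H.not_center (by rw [hbm]; exact H.m1.ne')
      have htr : t ≠ r := by
        rintro rfl
        have h1 := hbm.symm.trans (hall b hbt hbc)
        nlinarith [H.n1, H.m1]
      have key : ∀ x : G, El p x → cls x = n → ∃ z : G, El r z ∧ z ∉ center G ∧
          centralizer ({z} : Set G) = centralizer {x} ⊓ centralizer {b} ∧
          Commute z x ∧ Commute b x := by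
        intro x hx hxn
        have hi : (centralizer ({x} : Set G) ⊓ centralizer {b}).index = n * m := by
          rw [index_inf_coprime (by
              show (cls x).Coprime (cls b); rw [hxn, hbm]; exact H.cop)]
          show cls x * cls b = _
          rw [hxn, hbm]
        obtain ⟨z, ⟨hzx, hzb⟩, hzc, hzr⟩ := hIr _ (le_inf (center_le_cent x) (center_le_cent b))
          (dvd_of_eq hi)
        have hznm := hall z hzr hzc
        have h1 := H.minimal hznm (mem_cent.1 hzx) (hzr.coprime hr hp hrp hx)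
        have h3 := H.minimal hznm (mem_cent.1 hzb) (hzr.coprime hr ht (Ne.symm htr) hbt)
        have hbz : b ∈ centralizer ({z} : Set G) := mem_cent.2 (mem_cent.1 hzb).symm
        exact ⟨z, hzr, hzc, eq_of_le_index (le_inf h1 h3) (hznm.trans hi.symm), mem_cent.1 hzx,
          mem_cent.1 (h1 hbz)⟩
      obtain ⟨z, hzr, hzc, hzeq, hza, -⟩ := key a ha han
      obtain ⟨-, -, -, -, -, hbe⟩ := key e hep h
      have hez : e ∈ centralizer ({z} : Set G) := by
        rw [hzeq]; exact ⟨heX, mem_cent.2 hbe.symm⟩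
      exact hDq z r hr hrp (hrrel z (mem_cent.2 hza) hzc hzr) e heX (mem_cent.1 hez)
    · have hi : (X ⊓ centralizer {e}).index = n * m := by
        rw [index_inf_coprime (by
            show (cls a).Coprime (cls e); rw [han, h]; exact H.cop)]
        show cls a * cls e = _
        rw [han, h]
      obtain ⟨d, ⟨hdX, hde⟩, hd, hdq⟩ := hIq _ (le_inf (center_le_cent a) (center_le_cent e))
        (dvd_of_eq hi)
      exact ⟨d, hqrel d hdX hd hdq, (mem_cent.1 hde).symm⟩
    · obtain ⟨d, hde, hd, hdq⟩ := hIq _ (center_le_cent e) (dvd_of_eq h)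
      have hle := H.minimal h (mem_cent.1 hde).symm (hep.coprime hp hq (Ne.symm hqp) hdq)
      have hdX : d ∈ X := mem_cent.2 (mem_cent.1 (hle (mem_cent.2 hea.symm))).symm
      exact ⟨d, hqrel d hdX hd hdq, (mem_cent.1 hde).symm⟩
  -- so one centraliser meets every class of `C(a)`
  set D0 := (centralizer ({w} : Set G)).subgroupOf X with hD0
  have hD0i : D0.index = m :=
    H.rel_relIndex hp ha han hwX (hwq.coprime_prime hq hp hqp) hw.2.2
  have hconj : ∀ g : X, ∀ d, Rel a q d → Commute (g : G) d → ∃ k : X, k⁻¹ * g * k ∈ D0 := by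
    intro g d hd hgd
    obtain ⟨k, hk⟩ := conj_into hq (D := D0) (by rw [hD0i]; exact hqm) (x := (⟨d, hd.1⟩ : X))
      (El.coe_iff.2 hd.2.1)
    refine ⟨k, ?_⟩
    have hk' : Commute ((k : G)⁻¹ * d * k) w := mem_cent.1 hk
    have hd' := hd.conj k.2
    have := H.D_eq hp ha han h2 hq hq hqp hqp hw hd' hk'
    have hmem : (k : G)⁻¹ * g * k ∈ X ⊓ centralizer {(k : G)⁻¹ * d * k} :=
      mem_inf.2 ⟨mul_mem (mul_mem (inv_mem k.2) g.2) k.2, mem_cent.2 (commute_conj hgd k)⟩
    rw [this] at hmem
    exact hmem.2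
  have htop := PSingular.eq_top_of_meets_all D0 fun g => by
    set e := Element.pPart p g with he
    set f := Element.pComplPart p g with hf
    have hgef : (g : G) = (e : G) * (f : G) := by
      rw [← Subgroup.coe_mul, he, hf, Element.pPart_mul_pComplPart]
    by_cases hfc : X ≤ centralizer ({(f : G)} : Set G)
    · have hfx : ∀ x ∈ X, Commute (f : G) x := fun x hx => (mem_cent.1 (hfc hx)).symm
      rcases hgood e e.2 (El.coe_iff.1 ⟨_, Element.orderOf_pPart_eq_pow hp g⟩) with hec | ⟨d, hd, hed⟩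
      · refine ⟨1, ?_⟩
        rw [inv_one, one_mul, mul_one]
        refine mem_cent.2 (show Commute (g : G) w from ?_)
        rw [hgef]
        exact (mem_cent.1 (hec hwX)).symm.mul_left (hfx w hwX)
      · refine hconj g d hd ?_
        rw [hgef]
        exact hed.mul_left (hfx d hd.1)
    · have hfo : (orderOf (f : G)).Coprime p := by
        rw [orderOf_coe]; exact Element.coprime_orderOf_pComplPart hp g
      obtain ⟨v, hvf, s, hs, hv, hsf, hnle⟩ := exists_part hfc
      have hsp : s ≠ p := fun e => hs.ne_one (Nat.eq_one_of_dvd_coprimes hfo hsf (e ▸ dvd_rfl))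
      have hvX : v ∈ X := zpowers_le.2 f.2 hvf
      obtain ⟨j, hj⟩ := hvf
      have hgv : Commute (g : G) v := by
        rw [← hj, hgef]
        exact (((Element.commute_pPart_pComplPart p g).map X.subtype).mul_left
          (Commute.refl (f : G))).zpow_right j
      obtain ⟨d, hd, hgd⟩ := hDq v s hs hsp ⟨hvX, hv, hnle⟩ g g.2 hgv
      exact hconj g d hd hgd
  rw [htop, index_top] at hD0i
  linarith [H.m1]

/-- The centralisers of prime power elements of class size `n` are abelian. -/
theorem Hyp.abelian (hnp : ¬ IsPrimePow m) (hp : p.Prime) (ha : El p a) (han : cls a = n)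
    {g : G} (hg : g ∈ centralizer ({a} : Set G)) :
    centralizer ({a} : Set G) ≤ centralizer {g} := by
  have hct : ∀ {s : ℕ} {c : G}, s.Prime → El s c → cls c = n → ∀ f ∈ centralizer ({c} : Set G),
      (orderOf f).Coprime s → centralizer ({c} : Set G) ≤ centralizer {f} := by
    intro s c hs hc hcn f hf hfo
    by_cases hsm : s ∣ m
    · exact H.central_of_dvd hnp hs hc hcn hsm hf hfo
    · exact H.central_of_not_dvd hnp hs hc hcn hsm hf hfo
  obtain ⟨r, hr, hrm, hrp⟩ := exists_prime_ne H.m1 hnp p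
  obtain ⟨z, -, hzc, hzr⟩ : NC r (⊤ : Subgroup G) := by
    obtain ⟨b, hb⟩ := H.exm
    rw [nc_iff hr, relIndex_top_right]
    exact (hrm.trans (dvd_of_eq hb.symm)).trans (index_dvd_of_le (center_le_cent b))
  obtain ⟨c, hc⟩ := conj_into hr (D := centralizer ({a} : Set G))
    (show ¬ r ∣ cls a by rw [han]; exact H.not_dvd_n hr hrm) hzr
  have htr := hzr.conj c
  have hle := hct hp ha han _ hc (htr.coprime_prime hr hp hrp)
  have htn := H.cls_n_of_dvd (han ▸ index_dvd_of_le hle) (not_center_conj hzc c)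
  have heq := cent_eq_of_le hle (htn.trans han.symm)
  intro x hx
  rw [← Element.pPart_mul_pComplPart p g]
  have hpe : Element.pPart p g ∈ centralizer ({a} : Set G) :=
    zpowers_le.2 hg (Element.pPart_mem_zpowers p g)
  have hfe : Element.pComplPart p g ∈ centralizer ({a} : Set G) :=
    zpowers_le.2 hg (Element.pComplPart_mem_zpowers p g)
  have h1 : x ∈ centralizer ({Element.pPart p g} : Set G) := by
    refine hct hr htr htn _ (heq ▸ hpe) ?_ (heq ▸ hx)
    exact El.coprime_prime hp hr (Ne.symm hrp) ⟨_, Element.orderOf_pPart_eq_pow hp g⟩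
  have h2 : x ∈ centralizer ({Element.pComplPart p g} : Set G) :=
    hct hp ha han _ hfe (Element.coprime_orderOf_pComplPart hp g) hx
  exact mem_cent.2 ((mem_cent.1 h1).mul_right (mem_cent.1 h2))

/-- `m` is a prime power. -/
theorem Hyp.isPrimePow : IsPrimePow m := by
  by_contra hnp
  obtain ⟨p, a, hp, ha, han⟩ := H.exists_primePow
  set X := centralizer ({a} : Set G) with hX
  have hXa : ∀ h ∈ X, h ∉ center G → centralizer ({h} : Set G) = X := by
    intro h hh hc
    have hle := H.abelian hnp hp ha han hh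
    exact (cent_eq_of_le hle ((H.cls_n_of_dvd (han ▸ index_dvd_of_le hle) hc).trans han.symm)).symm
  obtain ⟨x, hx⟩ := H.exnm
  have hxc : x ∉ center G := H.not_center (by rw [hx]; nlinarith [H.n1, H.m1])
  obtain ⟨y, hyx, hyc, r, k, hr, hk⟩ := FGSev.exists_noncentral_primePow hxc
  have hnm : ¬ n * m ∣ n := fun h => by
    have := Nat.le_of_dvd (by linarith [H.n1]) h
    nlinarith [H.n1, H.m1]
  by_cases hrm : r ∣ m
  · obtain ⟨g, hg⟩ := conj_into hr (D := X) (show ¬ r ∣ cls a by rw [han]; exact H.not_dvd_n hr hrm)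
      ⟨k, hk⟩
    have hy' := hXa _ hg (not_center_conj hyc g)
    have hxy : Commute x y := mem_cent.1
      (ClassSize.centralizer_le_of_mem_zpowers hyx (mem_cent.2 (Commute.refl x)))
    have hx' : g⁻¹ * x * g ∈ X := hy' ▸ mem_cent.2 (commute_conj hxy g)
    have h := hXa _ hx' (not_center_conj hxc g)
    have h1 : cls (g⁻¹ * x * g) = n := (congrArg Subgroup.index h).trans han
    rw [cls_conj, hx] at h1
    exact hnm (dvd_of_eq h1)
  · obtain ⟨d, hdX, hdc, hdr⟩ := NC.of_index hr (center_le_cent x) (center_le_cent a)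
      (show cls a ∣ cls x by rw [han, hx]; exact dvd_mul_right n m)
      ⟨y, zpowers_le.2 (mem_cent.2 (Commute.refl x)) hyx, hyc, k, hk⟩
    obtain ⟨t, b, -, -, hbm⟩ := H.symm.exists_primePow
    obtain ⟨g, hg⟩ := conj_into hr (D := centralizer ({b} : Set G))
      (show ¬ r ∣ cls b by rw [hbm]; exact hrm) hdr
    have hb' : g * b * g⁻¹ ∈ X := by
      rw [← hXa d hdX hdc]
      have := commute_conj (mem_cent.1 hg).symm g⁻¹
      exact mem_cent.2 (by simpa [mul_assoc] using this)
    have hbc : g * b * g⁻¹ ∉ center G := by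
      have := not_center_conj (H.not_center (x := b) (by rw [hbm]; exact H.m1.ne')) g⁻¹
      rwa [inv_inv] at this
    have h1 : cls (g * b * g⁻¹) = n := (congrArg Subgroup.index (hXa _ hb' hbc)).trans han
    have h2 : cls (g * b * g⁻¹) = m := (ClassSize.index_centralizer_conj g b).trans hbm
    exact H.n_ne_m (h1.symm.trans h2)

end Finite

end Cfsg.Agent.FourSizes
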