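import Cfsg.Agent.ClassCount.SemiRegular
import Cfsg.Agent.FGSev.TwoSizes
import Cfsg.Agent.Perm.Basic

/-!
# A normal subgroup containing a noncentral Sylow subgroup, with two ambient class sizes
-/

set_option autoImplicit false

namespace Cfsg.Agent.ClassCount

open Subgroup

/-- If all class sizes are prime to `t` then a Sylow `t`-subgroup is central. -/
theorem sylow_le_center_of_forall {H : Type*} [Group H] [Finite H] {t : ℕ} [Fact t.Prime] (T : Sylow t H)
    (h : ∀ x : H, ¬ t ∣ (centralizer ({x} : Set H)).index) : (T : Subgroup H) ≤ center H := by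
  classical
  set U := centralizer ((T : Subgroup H) : Set H) with hU
  have hconj : ∀ x : H, ∃ g : H, g⁻¹ * x * g ∈ U := by
    intro x
    obtain ⟨Q, hQ⟩ := (ClassSize.coprime_index_centralizer_iff x).1
      ((Fact.out : t.Prime).coprime_iff_not_dvd.2 (h x)).symm
    obtain ⟨y, hy⟩ := FGSev.sylow_exists_conj T Q
    refine ⟨y, mem_centralizer_iff.2 fun a ha => ?_⟩
    have h2 : y * a * y⁻¹ ∈ (Q : Subgroup H) := (hy _).2 (by rw [show y⁻¹ * (y * a * y⁻¹) * y = a by group]; exact ha)
    have h3 : Commute (y * a * y⁻¹) x := mem_centralizer_singleton_iff.1 (hQ h2)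
    calc a * (y⁻¹ * x * y) = y⁻¹ * ((y * a * y⁻¹) * x) * y := by group
      _ = y⁻¹ * (x * (y * a * y⁻¹)) * y := by rw [h3.eq]
      _ = y⁻¹ * x * y * a := by group
  by_contra hne
  have hUtop : U ≠ ⊤ := fun e => hne fun a ha => mem_center_iff.2 fun g =>
    (mem_centralizer_iff.1 (show g ∈ U by rw [e]; exact mem_top g) a ha).symm
  haveI : Nontrivial (H ⧸ U) := by
    rw [← Finite.one_lt_card_iff_nontrivial, ← Subgroup.index]
    exact one_lt_index_of_ne_top hUtop
  obtain ⟨g, hg⟩ := PermLib.exists_forall_smul_ne (G := H) (α := H ⧸ U)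
  obtain ⟨y, hy⟩ := hconj g
  apply hg (y : H ⧸ U)
  rw [MulAction.Quotient.smul_coe, smul_eq_mul, eq_comm, QuotientGroup.eq, ← mul_assoc]
  exact hy

variable {G : Type*} [Group G] [Finite G] {N : Subgroup G} [N.Normal] {m : ℕ}
  (h : ∀ x ∈ N, (centralizer ({x} : Set G)).index = 1 ∨ (centralizer ({x} : Set G)).index = m)

theorem not_dvd_one' {t : ℕ} [Fact t.Prime] : ¬ t ∣ 1 := (Fact.out : t.Prime).not_dvd_one

include h

theorem normal_index_eq {x : G} (hxN : x ∈ N) (hx : x ∉ center G) :
    (centralizer ({x} : Set G)).index = m :=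
  (h x hxN).resolve_left fun e => hx ((ClassSize.index_centralizer_eq_one_iff x).1 e)

theorem normal_centralizer_eq {x y : G} (hxN : x ∈ N) (hx : x ∉ center G) (hyN : y ∈ N) (hy : y ∉ center G)
    (hle : centralizer ({x} : Set G) ≤ centralizer ({y} : Set G)) :
    centralizer ({x} : Set G) = centralizer ({y} : Set G) := by
  refine eq_of_le_of_card_ge hle (le_of_eq ?_)
  apply Nat.eq_of_mul_eq_mul_right (m := m) ?_
  · conv_lhs => rw [← normal_index_eq h hyN hy, card_mul_index]
    conv_rhs => rw [← normal_index_eq h hxN hx, card_mul_index]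
  · rw [← normal_index_eq h hxN hx]; exact Nat.pos_of_ne_zero index_ne_zero_of_finite

theorem normal_centralizer_coprime {u v : G} (huN : u ∈ N) (hu : u ∉ center G) (hvN : v ∈ N)
    (hv : v ∉ center G) (hc : Commute u v) (hco : (orderOf u).Coprime (orderOf v)) :
    centralizer ({u} : Set G) = centralizer ({v} : Set G) := by
  have e := Element.centralizer_mul_of_coprime hc hco
  have hn : u * v ∉ center G := fun hz => hu (by
    have h1 : centralizer ({u} : Set G) = ⊤ := top_le_iff.1 (by
      rw [← centralizer_eq_top_iff_subset.2 (Set.singleton_subset_iff.2 hz), e]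
      exact inf_le_left)
    exact Set.singleton_subset_iff.1 (centralizer_eq_top_iff_subset.1 h1))
  rw [← normal_centralizer_eq h (mul_mem huN hvN) hn huN hu (e.le.trans inf_le_left),
    normal_centralizer_eq h (mul_mem huN hvN) hn hvN hv (e.le.trans inf_le_right)]

/-- If `t ∤ m` then a Sylow `t`-subgroup of `N` is central in `N`. -/
theorem normal_sylow_central {t : ℕ} [Fact t.Prime] (htm : ¬ t ∣ m) {a : G} (haN : a ∈ N)
    (hat : ∃ k, orderOf a = t ^ k) : N ≤ centralizer ({a} : Set G) := by
  have hall : ∀ x : N, ¬ t ∣ (centralizer ({x} : Set N)).index := fun x hd => by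
    rcases h x x.2 with e | e
    · exact not_dvd_one' (e ▸ hd.trans (ClassSize.index_centralizer_normal_dvd N x))
    · exact htm (e ▸ hd.trans (ClassSize.index_centralizer_normal_dvd N x))
  obtain ⟨k, hk⟩ := hat
  obtain ⟨T, hT⟩ := FGSev.pElem_exists_sylow (p := t) (g := (⟨a, haN⟩ : N)) ⟨k, by rw [orderOf_mk, hk]⟩
  intro n hn
  exact mem_centralizer_singleton_iff.2
    (congrArg Subtype.val (mem_center_iff.1 (sylow_le_center_of_forall T hall hT) ⟨n, hn⟩))

/-- An element of prime power order normalising `A = C_N(v)` outside `C(v)`. -/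
theorem exists_normalizing {v w : G} (hwN : w ∈ N) (hw : w ∉ center G)
    (hwv : centralizer ({w} : Set G) = centralizer ({v} : Set G))
    (hA : ∀ a ∈ centralizer ({v} : Set G) ⊓ N, a ∉ center G →
      centralizer ({a} : Set G) = centralizer ({v} : Set G))
    {t : ℕ} [Fact t.Prime] (hwt : ∃ k, orderOf w = t ^ k) (htm : t ∣ m) :
    ∃ g : G, g ∈ normalizer ((centralizer ({v} : Set G) ⊓ N : Subgroup G) : Set G) ∧
      g ∉ centralizer ({v} : Set G) ∧ ∃ k, orderOf g = t ^ k := by
  classical
  set C := centralizer ({v} : Set G) with hC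
  have hwC : w ∈ C := hwv ▸ mem_centralizer_singleton_iff.2 rfl
  obtain ⟨k, hk⟩ := hwt
  obtain ⟨U, hU⟩ := FGSev.pElem_exists_sylow (p := t) (g := (⟨w, hwC⟩ : C)) ⟨k, by rw [orderOf_mk, hk]⟩
  set U1 := (U : Subgroup C).map C.subtype with hU1
  obtain ⟨S, hS⟩ := (U.2.map C.subtype).exists_le_sylow
  have hUS : U1 < (S : Subgroup G) := by
    refine lt_of_le_of_ne hS fun e => ?_
    have hidx : C.index = m := by rw [← hwv]; exact normal_index_eq h hwN hw
    have h1 : (Nat.card U1) = t ^ (Nat.card C).factorization t := by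
      rw [hU1, ← Nat.card_congr ((U : Subgroup C).equivMapOfInjective _ C.subtype_injective).toEquiv,
        U.card_eq_multiplicity]
    rw [e, S.card_eq_multiplicity, ← C.card_mul_index, hidx] at h1
    have h2 := Nat.pow_right_injective (Fact.out : t.Prime).two_le h1
    have hm0 : m ≠ 0 := hidx ▸ index_ne_zero_of_finite
    rw [Nat.factorization_mul Nat.card_pos.ne' hm0, Finsupp.add_apply] at h2
    have h3 := (Fact.out : t.Prime).factorization_pos_of_dvd hm0 htm
    omega
  haveI := S.2.isNilpotent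
  have hnc := Group.normalizerCondition_of_isNilpotent (U1.subgroupOf (S : Subgroup G))
    (lt_top_iff_ne_top.2 fun e => hUS.ne (le_antisymm hS (subgroupOf_eq_top.1 e)))
  obtain ⟨g, hgN, hgU⟩ := SetLike.exists_of_lt hnc
  have hgnorm : ∀ x ∈ U1, (g : G) * x * (g : G)⁻¹ ∈ U1 := fun x hx =>
    (mem_normalizer_iff.1 hgN ⟨x, hS hx⟩).1 hx
  have hginv : ∀ x ∈ U1, (g : G)⁻¹ * x * (g : G) ∈ U1 := fun x hx =>
    (mem_normalizer_iff''.1 hgN ⟨x, hS hx⟩).1 hx
  have hgC : (g : G) ∉ C := by
    intro hgC
    apply hgU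
    show (g : G) ∈ U1
    have hp : IsPGroup t (Subgroup.zpowers (⟨g, hgC⟩ : C)) :=
      (FGSev.pElem_iff_isPGroup t _).1 (by
        obtain ⟨j, hj⟩ := IsPGroup.iff_orderOf.1 S.2 g
        exact ⟨j, by rw [orderOf_mk, orderOf_coe]; exact hj⟩)
    have hle : Subgroup.zpowers (⟨g, hgC⟩ : C) ≤ normalizer ((U : Subgroup C) : Set C) := by
      rw [zpowers_le, mem_normalizer_iff]
      intro y
      have hconv : ∀ y : C, y ∈ (U : Subgroup C) ↔ (y : G) ∈ U1 := fun y =>
        (mem_map_iff_mem C.subtype_injective).symm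
      rw [hconv, hconv]
      exact ⟨hgnorm _, fun hy => by simpa [mul_assoc] using hginv _ hy⟩
    have := U.is_maximal' (IsPGroup.to_sup_of_normal_right' hp U.2 hle) le_sup_right
    exact mem_map_of_mem C.subtype (this ▸ mem_sup_left (mem_zpowers _) : (⟨g, hgC⟩ : C) ∈ (U : Subgroup C))
  refine ⟨g, ?_, hgC, ?_⟩
  · have hw1 : w ∈ U1 := mem_map_of_mem C.subtype hU
    have hw'N : (g : G) * w * (g : G)⁻¹ ∈ N := (inferInstance : N.Normal).conj_mem w hwN _
    have hw'C : (g : G) * w * (g : G)⁻¹ ∈ C := map_subtype_le _ (hgnorm w hw1)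
    have hw' : (g : G) * w * (g : G)⁻¹ ∉ center G := fun hz => hw (by
      have := (inferInstance : (center G).Normal).conj_mem _ hz (g : G)⁻¹
      simpa [mul_assoc] using this)
    have he := hA _ ⟨hw'C, hw'N⟩ hw'
    rw [mem_normalizer_iff]
    intro y
    show y ∈ C ∧ y ∈ N ↔ _ ∧ _
    refine and_congr ?_ ⟨fun hy => (inferInstance : N.Normal).conj_mem y hy _,
      fun hy => by simpa [mul_assoc] using (inferInstance : N.Normal).conj_mem _ hy (g : G)⁻¹⟩
    show y ∈ C ↔ (g : G) * y * (g : G)⁻¹ ∈ C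
    conv_lhs => rw [← hwv]
    conv_rhs => rw [← he]
    rw [mem_centralizer_singleton_iff, mem_centralizer_singleton_iff]
    constructor <;> intro hy
    · calc (g : G) * y * (g : G)⁻¹ * (g * w * (g : G)⁻¹) = g * (y * w) * (g : G)⁻¹ := by group
        _ = g * (w * y) * (g : G)⁻¹ := by rw [hy]
        _ = _ := by group
    · apply mul_left_cancel (a := (g : G))
      apply mul_right_cancel (b := (g : G)⁻¹)
      calc (g : G) * (y * w) * (g : G)⁻¹ = g * y * (g : G)⁻¹ * (g * w * (g : G)⁻¹) := by group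
        _ = g * w * (g : G)⁻¹ * (g * y * (g : G)⁻¹) := hy
        _ = _ := by group
  · obtain ⟨j, hj⟩ := IsPGroup.iff_orderOf.1 S.2 g
    exact ⟨j, by rw [orderOf_coe]; exact hj⟩

/-- The theorem. -/
theorem isNilpotent_of_two_ambient_sizes {r : ℕ} [Fact r.Prime] (R : Sylow r G)
    (hR : ¬ (R : Subgroup G) ≤ center G) (hRN : (R : Subgroup G) ≤ N) : Group.IsNilpotent N := by
  classical
  have hr : r.Prime := Fact.out
  obtain ⟨u0, hu0R, hu0⟩ := SetLike.not_le_iff_exists.1 hR
  have hrN : ∀ x : G, (∃ k, orderOf x = r ^ k) → x ∈ N := fun x hx => by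
    obtain ⟨y, hy⟩ := FGSev.pElem_conj_mem R hx
    simpa [mul_assoc] using (inferInstance : N.Normal).conj_mem _ (hRN hy) y
  have hp0 : ∃ k, orderOf u0 = r ^ k := FGSev.pElem_of_mem R.2 hu0R
  by_cases hrm : r ∣ m
  swap
  · -- `N` is abelian
    have hcomm : ∀ x ∈ N, N ≤ centralizer ({x} : Set G) := by
      intro x hx
      have hu : N ≤ centralizer ({u0} : Set G) := normal_sylow_central h hrm (hrN _ hp0) hp0
      have h1 : N ≤ centralizer ({Element.pPart r x} : Set G) :=
        normal_sylow_central h hrm (hrN _ ⟨_, Element.orderOf_pPart_eq_pow hr x⟩)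
          ⟨_, Element.orderOf_pPart_eq_pow hr x⟩
      have h2 : N ≤ centralizer ({Element.pComplPart r x} : Set G) := by
        have hwN : Element.pComplPart r x ∈ N := zpowers_le.2 hx (Element.pComplPart_mem_zpowers r x)
        by_cases hw : Element.pComplPart r x ∈ center G
        · exact fun n _ => mem_centralizer_singleton_iff.2 (mem_center_iff.1 hw n)
        · have hc : Commute u0 (Element.pComplPart r x) :=
            (show Commute (Element.pComplPart r x) u0 from mem_centralizer_singleton_iff.1 (hu hwN)).symm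
          obtain ⟨k, hk⟩ := hp0
          rw [← normal_centralizer_coprime h (hrN _ ⟨k, hk⟩) hu0 hwN hw hc
            (by rw [hk]; exact (Element.coprime_orderOf_pComplPart hr x).symm.pow_left k)]
          exact hu
      intro n hn
      rw [← Element.pPart_mul_pComplPart r x]
      exact mem_centralizer_singleton_iff.2 ((show Commute n (Element.pPart r x) from
        mem_centralizer_singleton_iff.1 (h1 hn)).mul_right
        (mem_centralizer_singleton_iff.1 (h2 hn))).eq
    haveI : IsMulCommutative N := ⟨⟨fun a b => Subtype.ext (mem_centralizer_singleton_iff.1 (hcomm b b.2 a.2))⟩⟩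
    exact ⟨⟨1, by rw [Subgroup.upperCentralSeries_one, eq_top_iff]; exact fun a _ =>
      (mem_center_iff.2 (fun b => IsMulCommutative.is_comm.comm b a))⟩⟩
  -- every element of order prime to `r` is central
  suffices key : ∀ x ∈ N, Element.pComplPart r x ∈ center G by
    have hq : IsPGroup r (N ⧸ center N) := by
      intro q
      obtain ⟨x, rfl⟩ := QuotientGroup.mk_surjective q
      obtain ⟨k, hk⟩ : ∃ k, orderOf (Element.pPart r (x : G)) = r ^ k := ⟨_, Element.orderOf_pPart_eq_pow hr _⟩
      refine ⟨k, ?_⟩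
      rw [← QuotientGroup.mk_pow, QuotientGroup.eq_one_iff, mem_center_iff]
      intro n
      apply Subtype.ext
      show (n : G) * (x : G) ^ r ^ k = (x : G) ^ r ^ k * n
      conv_lhs => rw [← Element.pPart_mul_pComplPart r (x : G)]
      conv_rhs => rw [← Element.pPart_mul_pComplPart r (x : G)]
      rw [(Element.commute_pPart_pComplPart r (x : G)).mul_pow, ← hk, pow_orderOf_eq_one, one_mul]
      exact mem_center_iff.1 (pow_mem (key x x.2) _) n
    haveI := hq.isNilpotent
    exact Subgroup.isNilpotent_of_ker_le_center (QuotientGroup.mk' (center N))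
      (by rw [QuotientGroup.ker_mk'])
  intro x hx
  by_contra hxc
  obtain ⟨v, hvx, hv, s, k, hs, hvk⟩ := FGSev.exists_noncentral_primePow hxc
  haveI := Fact.mk hs
  have hvN : v ∈ N := zpowers_le.2 (zpowers_le.2 hx (Element.pComplPart_mem_zpowers r x)) hvx
  have hsr : s ≠ r := by
    rintro rfl
    have h1 : orderOf v ∣ orderOf (Element.pComplPart s x) := orderOf_dvd_of_mem_zpowers hvx
    have hk0 : k = 0 := by
      by_contra hk0
      rw [hvk] at h1
      exact hr.coprime_iff_not_dvd.1 (Element.coprime_orderOf_pComplPart hr x).symm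
        ((dvd_pow_self s hk0).trans h1)
    rw [hk0, pow_zero, orderOf_eq_one_iff] at hvk
    exact hv (hvk ▸ one_mem _)
  set C := centralizer ({v} : Set G) with hC
  -- an `r`-element in `C`
  obtain ⟨u, huC, hu, ku, hku⟩ : ∃ u ∈ C, u ∉ center G ∧ ∃ k, orderOf u = r ^ k := by
    refine FGSev.exists_noncentral_of_dvd hr ?_
    have e1 := relIndex_mul_index (center_le_centralizer ({v} : Set G))
    have e2 := relIndex_mul_index (center_le_centralizer ({u0} : Set G))
    rw [normal_index_eq h hvN hv] at e1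
    rw [normal_index_eq h (hrN _ hp0) hu0, ← e1] at e2
    obtain ⟨k0, hk0⟩ := hp0
    rw [← Nat.eq_of_mul_eq_mul_right (by
      rw [← normal_index_eq h hvN hv]; exact Nat.pos_of_ne_zero index_ne_zero_of_finite) e2]
    exact FGSev.prime_dvd_relIndex hr (mem_centralizer_singleton_iff.2 rfl) hu0 hk0
  have huN := hrN u ⟨ku, hku⟩
  have huv : centralizer ({u} : Set G) = C :=
    normal_centralizer_coprime h huN hu hvN hv (mem_centralizer_singleton_iff.1 huC)
      (by rw [hku, hvk]; exact Nat.Coprime.pow ku k ((Nat.coprime_primes hr hs).2 (Ne.symm hsr)))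
  set A := C ⊓ N with hAdef
  have hAle : ∀ a ∈ A, C ≤ centralizer ({a} : Set G) := by
    rintro a ⟨haC, haN⟩
    have hav : Commute a v := mem_centralizer_singleton_iff.1 haC
    have hau : Commute a u := mem_centralizer_singleton_iff.1 (huv ▸ haC)
    have h1 : C ≤ centralizer ({Element.pPart r a} : Set G) := by
      by_cases hw : Element.pPart r a ∈ center G
      · exact fun n _ => mem_centralizer_singleton_iff.2 (mem_center_iff.1 hw n)
      · exact le_of_eq (normal_centralizer_coprime h (zpowers_le.2 haN (Element.pPart_mem_zpowers r a)) hw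
          hvN hv (Element.commute_pPart hav.symm).symm (by
            rw [Element.orderOf_pPart_eq_pow hr a, hvk]
            exact Nat.Coprime.pow _ k ((Nat.coprime_primes hr hs).2 (Ne.symm hsr)))).symm
    have h2 : C ≤ centralizer ({Element.pComplPart r a} : Set G) := by
      by_cases hw : Element.pComplPart r a ∈ center G
      · exact fun n _ => mem_centralizer_singleton_iff.2 (mem_center_iff.1 hw n)
      · rw [← huv]
        exact le_of_eq (normal_centralizer_coprime h huN hu
          (zpowers_le.2 haN (Element.pComplPart_mem_zpowers r a)) hw (Element.commute_pComplPart hau.symm)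
          (by rw [hku]; exact (Element.coprime_orderOf_pComplPart hr a).symm.pow_left ku))
    intro n hn
    rw [← Element.pPart_mul_pComplPart r a]
    exact mem_centralizer_singleton_iff.2 ((show Commute n (Element.pPart r a) from
      mem_centralizer_singleton_iff.1 (h1 hn)).mul_right (mem_centralizer_singleton_iff.1 (h2 hn))).eq
  have hAeq : ∀ a ∈ A, a ∉ center G → centralizer ({a} : Set G) = C := fun a ha hac =>
    (normal_centralizer_eq h hvN hv ha.2 hac (hAle a ha)).symm
  have hsm : s ∣ m := by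
    by_contra hsm
    have hNC : N ≤ C := normal_sylow_central h hsm hvN ⟨k, hvk⟩
    refine R.not_dvd_index (hrm.trans ?_)
    rw [← normal_index_eq h hvN hv]
    exact index_dvd_of_le (hRN.trans hNC)
  obtain ⟨g, hgA, hgC, jg, hjg⟩ := exists_normalizing h huN hu huv hAeq ⟨ku, hku⟩ hrm
  obtain ⟨f, hfA, hfC, jf, hjf⟩ := exists_normalizing h hvN hv rfl hAeq ⟨k, hvk⟩ hsm
  letI : CommGroup A :=
    { (inferInstance : Group A) with
      mul_comm := fun a b => Subtype.ext (mem_centralizer_singleton_iff.1 (hAle b b.2 a.2.1)) }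
  let φ := A.normalizerMonoidHom
  have hsemi : Semiregular ((center G).subgroupOf A) φ.range := by
    refine ⟨?_, ?_⟩
    · rintro _ ⟨y, rfl⟩ z hz
      apply Subtype.ext
      show (y : G) * (z : G) * (y : G)⁻¹ = z
      rw [mem_center_iff.1 (show (z : G) ∈ center G from hz) (y : G), mul_inv_cancel_right]
    · rintro _ ⟨y, rfl⟩ a ha hya
      have h1 : (y : G) * (a : G) * (y : G)⁻¹ = a := congrArg Subtype.val hya
      have h2 : (y : G) ∈ C := hAeq a a.2 ha ▸ mem_centralizer_singleton_iff.2 (mul_inv_eq_iff_eq_mul.1 h1)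
      refine MulEquiv.ext fun b => Subtype.ext ?_
      show (y : G) * (b : G) * (y : G)⁻¹ = b
      rw [mem_centralizer_singleton_iff.1 (hAle b b.2 h2), mul_inv_cancel_right]
  have hpart : ∀ {t j : ℕ} (w : G), w ∈ A → w ∉ center G → orderOf w = t ^ j →
      HasPart ((center G).subgroupOf A) t := fun w hw hwc hwo =>
    ⟨⟨w, hw⟩, hwc, _, Subtype.ext (by
      show w ^ _ = 1
      rw [← hwo, pow_orderOf_eq_one])⟩
  have hel : ∀ {t j : ℕ} (y : G) (hy : y ∈ normalizer (A : Set G)), y ∉ C → orderOf y = t ^ j →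
      ∃ σ ∈ φ.range, σ ≠ 1 ∧ ∃ i, σ ^ t ^ i = 1 := by
    intro t j y hy hyC hyo
    refine ⟨φ ⟨y, hy⟩, ⟨_, rfl⟩, fun e => hyC ?_, j, ?_⟩
    · have h1 : y * v * y⁻¹ = v := congrArg Subtype.val
        (DFunLike.congr_fun e (⟨v, mem_centralizer_singleton_iff.2 rfl, hvN⟩ : A))
      exact mem_centralizer_singleton_iff.2 (mul_inv_eq_iff_eq_mul.1 h1)
    · rw [← map_pow, show (⟨y, hy⟩ : normalizer (A : Set G)) ^ t ^ j = 1 from
        Subtype.ext (by show y ^ _ = 1; rw [← hyo, pow_orderOf_eq_one]), map_one]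
  exact Semiregular.false_of_two_primes (Ne.symm hsr) (hpart u ⟨huC, huN⟩ hu hku)
    (hpart v ⟨mem_centralizer_singleton_iff.2 rfl, hvN⟩ hv hvk) _ φ.range rfl hsemi (hel g hgA hgC hjg)
    (hel f hfA hfC hjf)

end Cfsg.Agent.ClassCount
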