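import Cfsg.Agent.ClassCount.FourSizes
import Cfsg.Agent.ClassCount.TwoSizeNormal
import Cfsg.Agent.S4127
import Cfsg.Agent.Char.Burnside
import Cfsg.Agent.Cores.Fitting
import Cfsg.Agent.Coprime.Generation
import Cfsg.Agent.FGS75.FitRank.Residual

/-!
# Class sizes `1, q^α, p^β, q^α * p^β`: the group is nilpotent
-/

set_option autoImplicit false

namespace Cfsg.Agent.FourSizes

open Subgroup
open Cfsg.Agent.TwoLargest (cls mem_cent center_le_cent cls_pos center_of_cls_eq_one cent_eq_of_le)

universe u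

variable {G : Type u} [Group G] [Finite G]

theorem mem_sylow_of_le_cent {q : ℕ} [Fact q.Prime] {Q : Sylow q G} {z : G} (hz : El q z)
    (h : (Q : Subgroup G) ≤ centralizer {z}) : z ∈ (Q : Subgroup G) := by
  have hle : zpowers z ≤ normalizer ((Q : Subgroup G) : Set G) := by
    rw [zpowers_le]
    refine Coprime.centralizer_le_normalizer' _ (mem_centralizer_iff.2 fun x hx => ?_)
    exact (mem_cent.1 (h hx)).eq
  have := Q.is_maximal' (IsPGroup.to_sup_of_normal_right'
    ((FGSev.pElem_iff_isPGroup q _).1 hz) Q.2 hle) le_sup_right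
  exact this ▸ mem_sup_left (mem_zpowers _)

/-- A Sylow subgroup of a subgroup, with the `q`-part of its index. -/
theorem exists_qpart (q : ℕ) [Fact q.Prime] (U : Subgroup G) :
    ∃ (T : Subgroup G) (k : ℕ), T ≤ U ∧ (∀ t ∈ T, El q t) ∧ ¬ q ∣ k ∧ T.index = k * U.index := by
  obtain ⟨T⟩ : Nonempty (Sylow q U) := inferInstance
  refine ⟨(T : Subgroup U).map U.subtype, (T : Subgroup U).index, map_subtype_le _, ?_,
    T.not_dvd_index, index_map_subtype _⟩
  intro t ht
  exact FGSev.pElem_of_mem (T.2.map _) ht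

/-- The class sizes are `1, q^α, p^β` and their product. -/
structure TwoPrimes (G : Type u) [Group G] (p q α β n m : ℕ) : Prop where
  H : Hyp G n m
  hp : p.Prime
  hq : q.Prime
  hn : n = q ^ α
  hm : m = p ^ β

variable {p q α β n m : ℕ}

omit [Finite G] in
theorem TwoPrimes.symm (T : TwoPrimes G p q α β n m) : TwoPrimes G q p β α m n :=
  ⟨T.H.symm, T.hq, T.hp, T.hm, T.hn⟩

variable (T : TwoPrimes G p q α β n m)
include T

omit [Finite G] in
theorem TwoPrimes.q_dvd : q ∣ n := by
  rw [T.hn]
  exact dvd_pow_self q fun e => by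
    have := T.H.n1
    rw [T.hn, e, pow_zero] at this
    omega

omit [Finite G] in
theorem TwoPrimes.p_dvd : p ∣ m := T.symm.q_dvd

omit [Finite G] in
theorem TwoPrimes.p_not_n : ¬ p ∣ n := T.H.not_dvd_n T.hp T.p_dvd

omit [Finite G] in
theorem TwoPrimes.q_not_m : ¬ q ∣ m := T.H.not_dvd_m T.hq T.q_dvd

omit [Finite G] in
theorem TwoPrimes.ne : p ≠ q := fun e => T.p_not_n (e ▸ T.q_dvd)

/-- Elements of other prime power orders are central. -/
theorem TwoPrimes.other {s : ℕ} (hs : s.Prime) (hsp : s ≠ p) (hsq : s ≠ q) {x : G}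
    (hx : El s x) : x ∈ center G := by
  haveI := Fact.mk hs
  obtain ⟨S, hxS⟩ := FGSev.pElem_exists_sylow hx
  refine ClassCount.sylow_le_center_of_forall S (fun y hd => ?_) hxS
  have hn : ¬ s ∣ n := fun h => hsq ((Nat.prime_dvd_prime_iff_eq hs T.hq).1 (hs.dvd_of_dvd_pow (T.hn ▸ h)))
  have hm : ¬ s ∣ m := fun h => hsp ((Nat.prime_dvd_prime_iff_eq hs T.hp).1 (hs.dvd_of_dvd_pow (T.hm ▸ h)))
  rcases T.H.sizes y with e | e | e | e
  · exact hs.not_dvd_one (e ▸ hd)
  · exact hn (e ▸ hd)
  · exact hm (e ▸ hd)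
  · exact (hs.dvd_mul.1 (e ▸ hd)).elim hn hm

theorem TwoPrimes.prime_of_dvd {U : Subgroup G} (hU : center G ≤ U) {s : ℕ} (hs : s.Prime)
    (hd : s ∣ U.index) : s = p ∨ s = q := by
  by_contra h
  push Not at h
  haveI := Fact.mk hs
  obtain ⟨S⟩ : Nonempty (Sylow s G) := inferInstance
  refine S.not_dvd_index (hd.trans (index_dvd_of_le fun x hx => hU ?_))
  exact T.other hs h.1 h.2 (FGSev.pElem_of_mem S.2 hx)

/-- A subgroup over the centre and a Sylow `p`-subgroup, holding the `q`-part of a centraliser of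
class size `n` or `n * m`, has index dividing `n`. -/
theorem TwoPrimes.index_dvd_n [Fact q.Prime] {P : Sylow p G} {U : Subgroup G} (hU : center G ≤ U)
    (hP : (P : Subgroup G) ≤ U) {x : G} (hx : cls x ∣ n * m)
    (hq : ∀ t ∈ centralizer ({x} : Set G), El q t → t ∈ U) : U.index ∣ n := by
  haveI := Fact.mk T.hp
  have hpow : U.index = q ^ U.index.primeFactorsList.length :=
    Nat.eq_prime_pow_of_unique_prime_dvd index_ne_zero_of_finite fun {d} hd hdU =>
      (T.prime_of_dvd hU hd hdU).resolve_left fun e =>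
        P.not_dvd_index ((dvd_of_eq e.symm).trans (hdU.trans (index_dvd_of_le hP)))
  obtain ⟨T1, k, hT1, hel, hk, hidx⟩ := exists_qpart q (centralizer ({x} : Set G))
  have h1 : U.index ∣ k * (n * m) :=
    (index_dvd_of_le fun t ht => hq t (hT1 ht) (hel t ht)).trans (hidx ▸ mul_dvd_mul_left k hx)
  rw [hpow] at h1 ⊢
  have h2 : (q ^ U.index.primeFactorsList.length).Coprime k :=
    ((T.hq.coprime_iff_not_dvd).2 hk).pow_left _
  have h3 : (q ^ U.index.primeFactorsList.length).Coprime m :=
    ((T.hq.coprime_iff_not_dvd).2 T.q_not_m).pow_left _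
  exact h3.dvd_of_dvd_mul_right (h2.dvd_of_dvd_mul_left h1)

/-- A `p`-element of class size `m` gives a normal `p`-complement. -/
theorem TwoPrimes.complement_of_regular (h : ∃ x : G, El p x ∧ cls x = m) :
    Cfsg.HasNormalPComplement p G := by
  haveI := Fact.mk T.hp
  obtain ⟨x, hx, hxm⟩ := h
  refine S4127.result p β (fun y hd => ?_) ⟨x, hx, hxm.trans T.hm⟩
  have h1 : p ^ (β + 1) ∣ n * m := by
    rcases T.H.sizes y with e | e | e | e
    · exact (hd.trans (dvd_of_eq e)).trans (one_dvd _)
    · exact (hd.trans (dvd_of_eq e)).trans (dvd_mul_right n m)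
    · exact (hd.trans (dvd_of_eq e)).trans (dvd_mul_left m n)
    · exact hd.trans (dvd_of_eq e)
  have h2 : p ^ (β + 1) ∣ m :=
    (((T.hp.coprime_iff_not_dvd).2 T.p_not_n).pow_left _).dvd_of_dvd_mul_left h1
  rw [T.hm, Nat.pow_dvd_pow_iff_le_right T.hp.one_lt] at h2
  omega

/-- A normal `q`-complement makes the Sylow `p`-subgroups normal. -/
theorem TwoPrimes.normal_of_complement (h : Cfsg.HasNormalPComplement q G) (P : Sylow p G) :
    (P : Subgroup G).Normal := by
  haveI := Fact.mk T.hp
  haveI := Fact.mk T.hq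
  obtain ⟨Q, N, hN, hc⟩ := h
  haveI := hN
  have hNi : N.index = Nat.card (Q : Subgroup G) := hc.symm.index_eq_card
  have hPN : (P : Subgroup G) ≤ N := fun x hx => by
    refine Element.mem_of_coprime_index ?_
    rw [hNi]
    obtain ⟨i, hi⟩ := FGSev.pElem_of_mem P.2 hx
    obtain ⟨j, hj⟩ := Q.2.exists_card_eq
    rw [hi, hj]
    exact Nat.Coprime.pow i j ((Nat.coprime_primes T.hp T.hq).2 T.ne)
  have hsup : normalizer ((P : Subgroup G) : Set G) ⊔ N = ⊤ := by
    have := Sylow.normalizer_sup_eq_top (P.subtype hPN)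
    rwa [Sylow.coe_subtype, map_subgroupOf_eq_of_le hPN] at this
  set M := normalizer ((P : Subgroup G) : Set G) with hM
  have h1 : N.relIndex M = N.index := by
    rw [← relIndex_sup_right (K := N), hsup, relIndex_top_right]
  have h2 : M.relIndex N = M.index := by
    have h3 := relIndex_mul_index (inf_le_right : M ⊓ N ≤ N)
    have h4 := relIndex_mul_index (inf_le_left : M ⊓ N ≤ M)
    rw [inf_relIndex_right] at h3
    rw [inf_relIndex_left, h1, mul_comm] at h4
    exact Nat.eq_of_mul_eq_mul_right (Nat.pos_of_ne_zero index_ne_zero_of_finite) (h3.trans h4.symm)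
  refine normalizer_eq_top_iff.1 (index_eq_one.1 ?_)
  by_contra hne
  obtain ⟨s, hs, hsd⟩ := Nat.exists_prime_and_dvd hne
  rcases T.prime_of_dvd (le_trans (center_le_centralizer _) (Coprime.centralizer_le_normalizer' _))
    hs hsd with rfl | rfl
  · exact P.not_dvd_index (hsd.trans (index_dvd_of_le le_normalizer))
  · refine Q.not_dvd_index ?_
    rw [hc.index_eq_card]
    exact hsd.trans (h2 ▸ Subgroup.relIndex_dvd_card M N)

/-- A normal Sylow `p`-subgroup without elements of class size `m` is impossible. -/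
theorem TwoPrimes.false_of_normal (P : Sylow p G) (hPn : (P : Subgroup G).Normal)
    (hirr : ¬ ∃ x : G, El p x ∧ cls x = m) : False := by
  classical
  haveI := Fact.mk T.hp
  haveI := Fact.mk T.hq
  have hPmem : ∀ x : G, El p x → x ∈ (P : Subgroup G) := fun x hx => by
    obtain ⟨S, hS⟩ := FGSev.pElem_exists_sylow hx
    haveI := Sylow.unique_of_normal P hPn
    obtain rfl : S = P := Subsingleton.elim _ _
    exact hS
  have hPel : ∀ x ∈ (P : Subgroup G), El p x := fun x hx => FGSev.pElem_of_mem P.2 hx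
  have hcent : ∀ x : G, ¬ p ∣ cls x → (P : Subgroup G) ≤ centralizer {x} := fun x hx => by
    obtain ⟨S, hS⟩ := PSingular.exists_sylow_le_of_not_dvd (p := p) (g := x) hx
    haveI := Sylow.unique_of_normal P hPn
    obtain rfl : S = P := Subsingleton.elim _ _
    exact hS
  have hcentn : ∀ x : G, cls x = n → (P : Subgroup G) ≤ centralizer {x} := fun x hx =>
    hcent x (by rw [hx]; exact T.p_not_n)
  -- no element of `P` has class size `n * m`
  have hPsize : ∀ x ∈ (P : Subgroup G), x ∉ center G → cls x = n := by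
    intro u huP huc
    rcases T.H.sizes u with e | e | e | e
    · exact absurd (center_of_cls_eq_one e) huc
    · exact e
    · exact absurd ⟨u, hPel u huP, e⟩ hirr
    exfalso
    have hsub : ∀ v ∈ (P : Subgroup G), cls v = n * m → ∀ t ∈ centralizer ({v} : Set G), El q t →
        ∀ c : G, cls c = n → t ∈ centralizer ({c} : Set G) := by
      intro v hvP hv t ht htq c hc
      have hle := T.H.minimal hv (mem_cent.1 ht).symm ((hPel v hvP).coprime T.hp T.hq T.ne htq)
      exact mem_cent.2 (mem_cent.1 (hle (mem_cent.2 (mem_cent.1 (hcentn c hc hvP)).symm))).symm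
    obtain ⟨c, hc⟩ := T.H.exn
    obtain ⟨Q⟩ : Nonempty (Sylow q G) := inferInstance
    obtain ⟨w, hwQ, hwc⟩ := SetLike.not_le_iff_exists.1
      (show ¬ (Q : Subgroup G) ≤ centralizer {c} from fun hle => Q.not_dvd_index
        (T.q_dvd.trans (hc ▸ index_dvd_of_le hle)))
    have hwq : El q w := FGSev.pElem_of_mem Q.2 hwQ
    obtain ⟨f, hfw, hfc, hfp⟩ := NC.of_index T.hp (center_le_cent u) (center_le_cent w)
      (show cls w ∣ cls u by
        rw [e]
        rcases T.H.sizes w with h | h | h | h <;> rw [h] <;>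
          first | exact one_dvd _ | exact dvd_mul_right n m | exact dvd_mul_left m n | rfl)
      ⟨u, mem_cent.2 (Commute.refl u), huc, hPel u huP⟩
    have hwf : w ∈ centralizer ({f} : Set G) := mem_cent.2 (mem_cent.1 hfw).symm
    rcases T.H.sizes f with h | h | h | h
    · exact hfc (center_of_cls_eq_one h)
    · have hI := T.index_dvd_n (P := P) (U := centralizer ({c} : Set G) ⊓ centralizer {f})
        (le_inf (center_le_cent c) (center_le_cent f)) (le_inf (hcentn c hc) (hcentn f h))
        (x := u) (dvd_of_eq e) (fun t ht htq => ⟨hsub u huP e t ht htq c hc, hsub u huP e t ht htq f h⟩)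
      have heq : centralizer ({c} : Set G) ⊓ centralizer {f} = centralizer {f} :=
        eq_of_le_index inf_le_right ((Nat.dvd_antisymm hI
          (h ▸ index_dvd_of_le inf_le_right)).trans h.symm)
      exact hwc (heq.ge hwf).1
    · exact hirr ⟨f, hfp, h⟩
    · exact hwc (hsub f (hPmem f hfp) h w hwf hwq c hc)
  have hPab : ∀ x ∈ (P : Subgroup G), ∀ y ∈ (P : Subgroup G), Commute x y := fun x hx y hy => by
    by_cases hyc : y ∈ center G
    · exact mem_center_iff.1 hyc x
    · exact mem_cent.1 (hcentn y (hPsize y hy hyc) hx)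
  -- an element of class size `m`
  obtain ⟨s, b, hs, hbs, hbm⟩ := T.H.symm.exists_primePow
  have hbc : b ∉ center G := T.H.not_center (by rw [hbm]; exact T.H.m1.ne')
  obtain rfl : s = q := by
    by_contra hsq
    by_cases hsp : s = p
    · exact hirr ⟨b, hsp ▸ hbs, hbm⟩
    · exact hbc (T.other hs hsp hsq hbs)
  obtain ⟨Q, hQb⟩ := PSingular.exists_sylow_le_of_not_dvd (p := s) (g := b)
    (show ¬ s ∣ cls b by rw [hbm]; exact T.q_not_m)
  have hbQ := mem_sylow_of_le_cent hbs hQb
  obtain ⟨l, hlP, hlb⟩ := SetLike.not_le_iff_exists.1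
    (show ¬ (P : Subgroup G) ≤ centralizer {b} from fun hle => P.not_dvd_index
      (T.p_dvd.trans (hbm ▸ index_dvd_of_le hle)))
  have hconj : ∀ g : G, ∀ x ∈ (P : Subgroup G), g * x * g⁻¹ ∈ (P : Subgroup G) := fun g x hx =>
    hPn.conj_mem x hx g
  -- commutators with `b` are never fixed by `b`
  have hfix : ∀ x ∈ (P : Subgroup G), Commute (b * x * b⁻¹ * x⁻¹) b → b * x * b⁻¹ * x⁻¹ = 1 := by
    intro x hx hcb
    set ν := b * x * b⁻¹ * x⁻¹ with hν
    have hpow : ∀ i : ℕ, b ^ i * x * (b ^ i)⁻¹ = ν ^ i * x := by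
      intro i
      induction i with
      | zero => simp
      | succ i ih =>
        calc b ^ (i + 1) * x * (b ^ (i + 1))⁻¹ = b * (b ^ i * x * (b ^ i)⁻¹) * b⁻¹ := by
              rw [pow_succ']; group
          _ = b * ν ^ i * (x * b⁻¹) := by rw [ih]; group
          _ = ν ^ i * b * (x * b⁻¹) := by rw [(hcb.pow_left i).eq]
          _ = ν ^ (i + 1) * x := by rw [pow_succ, hν]; group
    have h1 := hpow (orderOf b)
    rw [pow_orderOf_eq_one, inv_one, one_mul, mul_one, right_eq_mul] at h1
    rw [← orderOf_eq_one_iff]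
    obtain ⟨i, hi⟩ := hPel ν (mul_mem (hconj b x hx) (inv_mem hx))
    refine Nat.eq_one_of_dvd_coprimes ?_ (orderOf_dvd_of_pow_eq_one h1) (dvd_of_eq hi)
    exact (hbs.coprime_prime hs T.hp (Ne.symm T.ne)).pow_right i
  have hrel : ∀ x : G, cls x = n → (centralizer ({x} : Set G)).relIndex (Q : Subgroup G) = n := by
    intro x hx
    have h1 := relIndex_mul_index (inf_le_right : centralizer ({x} : Set G) ⊓ (Q : Subgroup G) ≤ _)
    have h2 : (Nat.Coprime (centralizer ({x} : Set G)).index (Q : Subgroup G).index) := by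
      rw [show (centralizer ({x} : Set G)).index = n from hx, T.hn]
      exact ((T.hq.coprime_iff_not_dvd).2 Q.not_dvd_index).pow_left α
    rw [inf_relIndex_right, index_inf_coprime h2,
      show (centralizer ({x} : Set G)).index = n from hx] at h1
    exact Nat.eq_of_mul_eq_mul_right (Nat.pos_of_ne_zero index_ne_zero_of_finite) h1
  -- `C(b)` has no noncentral `p`-element
  have hnc_b : ¬ NC p (centralizer ({b} : Set G)) := by
    rintro ⟨μ, hμb, hμc, hμp⟩
    have hμP := hPmem μ hμp
    replace hμb := mem_cent.1 hμb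
    set μ' := b * l * b⁻¹ * l⁻¹ with hμ'
    have hμ'P : μ' ∈ (P : Subgroup G) := mul_mem (hconj b l hlP) (inv_mem hlP)
    have hnb : ¬ Commute (μ * μ') b := by
      intro hc
      have h1 : Commute μ' b := by
        have := hμb.inv_left.mul_left hc
        rwa [inv_mul_cancel_left] at this
      refine hlb (mem_cent.2 ?_)
      have h2 := hfix l hlP h1
      rw [mul_inv_eq_one, mul_inv_eq_iff_eq_mul] at h2
      exact h2.symm
    have hmc : μ * μ' ∉ center G := fun hc => hnb (mem_center_iff.1 hc b).symm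
    have hle : centralizer ({μ * μ'} : Set G) ⊓ (Q : Subgroup G) ≤
        centralizer ({μ} : Set G) ⊓ (Q : Subgroup G) := by
      rintro g ⟨hg, hgQ⟩
      refine ⟨mem_cent.2 ?_, hgQ⟩
      have hgb : Commute g b := mem_cent.1 (hQb hgQ)
      -- conjugating by `g`
      have e1 : g * μ * g⁻¹ * (g * μ' * g⁻¹) = μ * μ' := by
        rw [conj_mul, (mem_cent.1 hg).eq, mul_inv_cancel_right]
      have hμg : Commute (g * μ * g⁻¹ * μ⁻¹) b :=
        ((hgb.mul_left hμb).mul_left hgb.inv_left).mul_left hμb.inv_left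
      obtain ⟨l', hl'⟩ : ∃ l', l' = g * l * g⁻¹ := ⟨_, rfl⟩
      have hl'P : l' ∈ (P : Subgroup G) := hl' ▸ hconj g l hlP
      have e2 : g * μ' * g⁻¹ = b * l' * b⁻¹ * l'⁻¹ := by
        have h : g * b * g⁻¹ = b := by rw [hgb.eq, mul_inv_cancel_right]
        calc g * μ' * g⁻¹ = (g * b * g⁻¹) * l' * (g * b * g⁻¹)⁻¹ * l'⁻¹ := by rw [hμ', hl']; group
          _ = _ := by rw [h]
      -- the difference is a commutator with `b`
      have hgμP : g * μ * g⁻¹ ∈ (P : Subgroup G) := hconj g μ hμP
      have hgμ'P : g * μ' * g⁻¹ ∈ (P : Subgroup G) := hconj g μ' hμ'P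
      have e3 : g * μ * g⁻¹ * μ⁻¹ = b * (l * l'⁻¹) * b⁻¹ * (l * l'⁻¹)⁻¹ := by
        have hA : b * l'⁻¹ * b⁻¹ * l' = (b * l' * b⁻¹ * l'⁻¹)⁻¹ := by
          rw [(hPab _ (hconj b _ (inv_mem hl'P)) _ hl'P).eq]
          group
        calc g * μ * g⁻¹ * μ⁻¹ = μ * μ' * (g * μ' * g⁻¹)⁻¹ * μ⁻¹ := by rw [← e1, mul_inv_cancel_right]
          _ = μ * (μ' * (g * μ' * g⁻¹)⁻¹) * μ⁻¹ := by group
          _ = μ' * (g * μ' * g⁻¹)⁻¹ := by
            rw [(hPab μ hμP _ (mul_mem hμ'P (inv_mem hgμ'P))).eq, mul_inv_cancel_right]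
          _ = b * l * b⁻¹ * l⁻¹ * (b * l'⁻¹ * b⁻¹ * l') := by rw [e2, hA, hμ']
          _ = b * l * b⁻¹ * (l⁻¹ * (b * l'⁻¹ * b⁻¹)) * l' := by group
          _ = b * l * b⁻¹ * ((b * l'⁻¹ * b⁻¹) * l⁻¹) * l' := by
            rw [(hPab _ (inv_mem hlP) _ (hconj b _ (inv_mem hl'P))).eq]
          _ = b * (l * l'⁻¹) * b⁻¹ * (l⁻¹ * l') := by group
          _ = _ := by rw [mul_inv_rev, inv_inv, (hPab _ (inv_mem hlP) _ hl'P).eq]
      have h4 : g * μ * g⁻¹ * μ⁻¹ = 1 := by
        rw [e3]
        exact hfix _ (mul_mem hlP (inv_mem hl'P)) (e3 ▸ hμg)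
      rw [mul_inv_eq_one, mul_inv_eq_iff_eq_mul] at h4
      exact h4
    have heq := eq_of_le_index hle (by
      have h3 := fun x : G =>
        relIndex_mul_index (inf_le_right : centralizer ({x} : Set G) ⊓ (Q : Subgroup G) ≤ _)
      rw [← h3, ← h3, inf_relIndex_right, inf_relIndex_right, hrel _ (hPsize _ (mul_mem hμP hμ'P) hmc),
        hrel _ (hPsize μ hμP hμc)])
    exact hnb (mem_cent.1 (heq.ge ⟨mem_cent.2 hμb.symm, hbQ⟩).1).symm
  have hnc : ∀ x : G, m ∣ cls x → ¬ NC p (centralizer ({x} : Set G)) := fun x hx h =>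
    hnc_b (h.of_index T.hp (center_le_cent x) (center_le_cent b)
      (by rw [show (centralizer ({b} : Set G)).index = m from hbm]; exact hx))
  -- a noncentral element of `P`
  obtain ⟨μ, hμP, hμc⟩ : ∃ μ ∈ (P : Subgroup G), μ ∉ center G :=
    ⟨l, hlP, fun hc => hlb (mem_cent.2 (mem_center_iff.1 hc b).symm)⟩
  set C := centralizer ((P : Subgroup G) : Set G) with hC
  haveI : C.Normal := by haveI := hPn; exact Subgroup.normal_centralizer
  have hPC : (P : Subgroup G) ≤ C := fun x hx => mem_centralizer_iff.2 fun y hy => (hPab y hy x hx).eq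
  have hCcent : ∀ {y : G}, y ∈ C → (P : Subgroup G) ≤ centralizer {y} := fun hy x hx =>
    mem_cent.2 (mem_centralizer_iff.1 hy x hx)
  have hμn := hPsize μ hμP hμc
  have hCle : C ≤ centralizer ({μ} : Set G) := fun y hy =>
    mem_cent.2 (mem_centralizer_iff.1 hy μ hμP).symm
  have hCμ : C = centralizer ({μ} : Set G) := by
    refine eq_of_le_index hCle ?_
    rw [show (centralizer ({μ} : Set G)).index = n from hμn]
    refine Nat.dvd_antisymm (T.index_dvd_n (P := P) (center_le_centralizer _) hPC (x := μ)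
      (hμn ▸ dvd_mul_right n m) ?_) (hμn ▸ index_dvd_of_le hCle)
    intro t ht htq
    refine mem_centralizer_iff.2 fun y hy => (mem_cent.1 ((?_ : (P : Subgroup G) ≤ _) hy)).eq
    have hμt : μ ∈ centralizer ({t} : Set G) := mem_cent.2 (mem_cent.1 ht).symm
    rcases T.H.sizes t with h | h | h | h
    · exact fun y _ => mem_cent.2 (mem_center_iff.1 (center_of_cls_eq_one h) y)
    · exact hcentn t h
    · exact absurd ⟨μ, hμt, hμc, hPel μ hμP⟩ (hnc t (dvd_of_eq h.symm))
    · exact absurd ⟨μ, hμt, hμc, hPel μ hμP⟩ (hnc t (h ▸ dvd_mul_left m n))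
  have hncC : ¬ NC s C := by
    rintro ⟨k, hkC, hkc, hks⟩
    have key : ∀ k' ∈ C, k' ∉ center G → El s k' → centralizer ({k'} : Set G) = C := by
      intro k' hk' hk'c hk's
      have hcomm : Commute μ k' := mem_centralizer_iff.1 hk' μ hμP
      have e := Element.centralizer_mul_of_coprime hcomm ((hPel μ hμP).coprime T.hp T.hq T.ne hk's)
      have hd : n ∣ cls (μ * k') := hμn ▸ index_dvd_of_le (e ▸ inf_le_left)
      have hcn : cls (μ * k') = n := (T.H.cls_of_n_dvd hd).resolve_right fun h => by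
        refine P.not_dvd_index (T.p_dvd.trans ((dvd_mul_left m n).trans ?_))
        rw [← h]
        show (centralizer ({μ * k'} : Set G)).index ∣ _
        rw [e]
        exact index_dvd_of_le (le_inf (hcentn μ hμn) (hCcent hk'))
      have heq := cent_eq_of_le (e ▸ inf_le_left : centralizer ({μ * k'} : Set G) ≤ _)
        (hμn.trans hcn.symm)
      have hle : C ≤ centralizer ({k'} : Set G) := by
        rw [hCμ, ← heq, e]; exact inf_le_right
      refine (eq_of_le_index hle ?_).symm
      rw [hCμ, show (centralizer ({μ} : Set G)).index = n from hμn]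
      refine (T.H.cls_n_of_dvd ?_ hk'c).symm
      have h1 := index_dvd_of_le hle
      rwa [hCμ, show (centralizer ({μ} : Set G)).index = n from hμn] at h1
    obtain ⟨g, hg⟩ := conj_into hs (D := (Q : Subgroup G)) Q.not_dvd_index hks
    have hgC : g⁻¹ * k * g ∈ C := by
      have := (inferInstance : C.Normal).conj_mem k hkC g⁻¹
      rwa [inv_inv] at this
    have hbC : b ∈ C := by
      rw [← key _ hgC (not_center_conj hkc g) (hks.conj g)]
      exact mem_cent.2 (mem_cent.1 (hQb hg)).symm
    exact hlb (hCcent hbC hlP)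
  obtain ⟨x, hx⟩ := T.H.exnm
  have hxc : x ∉ center G := T.H.not_center (by rw [hx]; nlinarith [T.H.n1, T.H.m1])
  obtain ⟨y, hyx, hyc, r, i, hr, hi⟩ := FGSev.exists_noncentral_primePow hxc
  have hyC : y ∈ centralizer ({x} : Set G) := zpowers_le.2 (mem_cent.2 (Commute.refl x)) hyx
  by_cases hrp : r = p
  · subst hrp
    exact hnc x (hx ▸ dvd_mul_left m n) ⟨y, hyC, hyc, i, hi⟩
  by_cases hrs : r = s
  · subst hrs
    apply hncC
    rw [hCμ]
    exact NC.of_index hr (center_le_cent x) (center_le_cent μ)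
      (show cls μ ∣ cls x by rw [hμn, hx]; exact dvd_mul_right n m) ⟨y, hyC, hyc, i, hi⟩
  exact hyc (T.other hr hrp hrs ⟨i, hi⟩)

/-- An element of class size `n` moving `O_q(G)` makes `n` the larger size. -/
theorem TwoPrimes.lt_of_moves [Fact p.Prime] [Fact q.Prime]
    (hA : ∀ x : G, cls x = n → El q x → False) {a : G} (han : cls a = n)
    (hmv : ¬ Cfsg.pCore q G ≤ centralizer ({a} : Set G)) : m < n := by
  classical
  set L := Cfsg.pCore q G with hL
  obtain ⟨P, hPa⟩ := PSingular.exists_sylow_le_of_not_dvd (p := p) (g := a)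
    (show ¬ p ∣ cls a by rw [han]; exact T.p_not_n)
  obtain ⟨l, hl, hla⟩ := SetLike.not_le_iff_exists.1 hmv
  set a' := l * a * l⁻¹ with ha'
  have ha'a : a' ≠ a := fun h => hla (mem_cent.2 (by
    rw [ha', mul_inv_eq_iff_eq_mul] at h; exact h))
  set S := {y : G | ∃ x ∈ L, y = x * a * x⁻¹} with hS
  set O := {y : G | ∃ x ∈ (P : Subgroup G), y = x * a' * x⁻¹} with hO
  have hncard : ∀ (U : Subgroup G) (z : G),
      Set.ncard {y : G | ∃ x ∈ U, y = x * z * x⁻¹} = (centralizer ({z} : Set G)).relIndex U := by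
    intro U z
    have h := FGSev.card_conj_mul_card_centralizer U z
    have h2 := ((centralizer ({z} : Set G)).subgroupOf U).index_mul_card
    have hc : Nat.card ↥(U ⊓ centralizer ({z} : Set G)) =
        Nat.card ((centralizer ({z} : Set G)).subgroupOf U) := by
      rw [inf_comm, ← inf_subgroupOf_right]
      exact (Nat.card_congr (subgroupOfEquivOfLe inf_le_right).toEquiv).symm
    rw [hc] at h
    rw [← Nat.card_coe_set_eq]
    exact Nat.eq_of_mul_eq_mul_right Nat.card_pos (h.trans h2.symm)
  have hsub : O ⊆ S := by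
    rintro _ ⟨x, hx, rfl⟩
    refine ⟨x * l * x⁻¹, (inferInstance : L.Normal).conj_mem l hl x, ?_⟩
    have e : x * a * x⁻¹ = a := by rw [(mem_cent.1 (hPa hx)).eq, mul_inv_cancel_right]
    calc x * a' * x⁻¹ = x * l * x⁻¹ * (x * a * x⁻¹) * (x * l * x⁻¹)⁻¹ := by rw [ha']; group
      _ = _ := by rw [e]
  have haO : a ∉ O := by
    rintro ⟨x, hx, he⟩
    apply ha'a
    have e : x⁻¹ * a * x = a := by
      rw [mul_assoc, ← (mem_cent.1 (hPa hx)).eq, inv_mul_cancel_left]
    calc a' = x⁻¹ * (x * a' * x⁻¹) * x := by group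
      _ = a := by rw [← he, e]
  have hlt : O.ncard < S.ncard := Set.ncard_lt_ncard
    (hsub.ssubset_of_ne fun e => haO (e ▸ ⟨1, one_mem L, by simp⟩)) (Set.toFinite _)
  have hSn : S.ncard ≤ n := by
    rw [hS, hncard]
    exact Nat.le_of_dvd (by linarith [T.H.n1]) (han ▸ ClassSize.relIndex_dvd_index_of_normal_left L _)
  suffices hOm : m ≤ O.ncard by omega
  rw [hO, hncard]
  -- an element of `L` fixed by the stabiliser of `a'`
  set A := (P : Subgroup G) ⊓ centralizer ({a'} : Set G) with hAdef
  set N := L ⊓ centralizer ({a} : Set G) with hN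
  have hAN : A ≤ normalizer (N : Set G) := by
    intro x hx
    rw [mem_normalizer_iff]
    intro y
    show y ∈ L ∧ y ∈ centralizer ({a} : Set G) ↔ _ ∧ _
    have hxa : x ∈ centralizer ({a} : Set G) := hPa hx.1
    refine and_congr ⟨fun h => (inferInstance : L.Normal).conj_mem y h x, fun h => ?_⟩
      ⟨fun h => Subgroup.mul_mem _ (Subgroup.mul_mem _ hxa h) (Subgroup.inv_mem _ hxa), fun h => ?_⟩
    · simpa [mul_assoc] using (inferInstance : L.Normal).conj_mem _ h x⁻¹
    · simpa [mul_assoc] using mul_mem (mul_mem (inv_mem hxa) h) hxa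
  have hcop : (Nat.card A).Coprime (Nat.card N) := by
    obtain ⟨i, hi⟩ := (P.2.to_le (inf_le_left : A ≤ _)).exists_card_eq
    obtain ⟨j, hj⟩ := ((Cores.pCore_isPGroup (p := q)).to_le (inf_le_left : N ≤ L)).exists_card_eq
    rw [hi, hj]
    exact Nat.Coprime.pow i j ((Nat.coprime_primes T.hp T.hq).2 T.ne)
  have hNsol : Group.IsSolvable N := by
    haveI := ((Cores.pCore_isPGroup (p := q)).to_le (inf_le_left : N ≤ L)).isNilpotent
    infer_instance
  obtain ⟨c, ⟨hcL, hcA⟩, hcN⟩ := Coprime.exists_fixed_mem_coset hAN hcop (Or.inr hNsol)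
    (inf_le_left : N ≤ L) hl (fun x hx => by
      refine mem_inf.2 ⟨?_, ?_⟩
      · have := mul_mem (inv_mem hl) ((inferInstance : L.Normal).conj_mem l hl x)
        simpa [mul_assoc] using this
      · have hxa : x ∈ centralizer ({a} : Set G) := hPa hx.1
        refine mul_mem (mem_cent.2 ?_) (inv_mem hxa)
        have := commute_conj (mem_cent.1 hx.2) l
        rwa [show l⁻¹ * a' * l = a by rw [ha']; group] at this)
  have hca : c * a * c⁻¹ = a' := by
    have h := mem_cent.1 hcN.2
    calc c * a * c⁻¹ = l * ((l⁻¹ * c) * a * (l⁻¹ * c)⁻¹) * l⁻¹ := by group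
      _ = l * a * l⁻¹ := by rw [h.eq, mul_inv_cancel_right]
      _ = a' := rfl
  have hcc : c ∉ center G := fun hc => ha'a (by
    rw [← hca, ← mem_center_iff.1 hc a, mul_inv_cancel_right])
  have hcq : El q c := FGSev.pElem_of_mem Cores.pCore_isPGroup hcL
  have hmc : m ∣ cls c := by
    rcases T.H.sizes c with h | h | h | h
    · exact absurd (center_of_cls_eq_one h) hcc
    · exact (hA c h hcq).elim
    · exact dvd_of_eq h.symm
    · exact h ▸ dvd_mul_left m n
  have h1 := relIndex_mul_index (inf_le_right : centralizer ({a'} : Set G) ⊓ (P : Subgroup G) ≤ _)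
  rw [inf_relIndex_right] at h1
  refine Nat.le_of_dvd (Nat.pos_of_ne_zero fun e => ?_) ?_
  · rw [e, zero_mul] at h1
    exact index_ne_zero_of_finite h1.symm
  refine Nat.Coprime.dvd_of_dvd_mul_right
    (T.hm ▸ ((T.hp.coprime_iff_not_dvd).2 P.not_dvd_index).pow_left β) (h1 ▸ hmc.trans ?_)
  refine index_dvd_of_le fun x hx => mem_cent.2 ?_
  exact mem_centralizer_iff.1 hcA x ⟨hx.2, hx.1⟩

/-- The irregular case is impossible. -/
theorem TwoPrimes.false_of_irregular [Fact p.Prime] [Fact q.Prime]
    (hpirr : ¬ ∃ x : G, El p x ∧ cls x = m) (hqirr : ¬ ∃ x : G, El q x ∧ cls x = n)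
    (hL : ∀ a : G, El p a → cls a = n → Cfsg.pCore q G ≤ centralizer ({a} : Set G)) : False := by
  classical
  haveI : Group.IsSolvable G := by
    haveI : Group.IsSolvable (G ⧸ center G) := by
      refine Char.solvable_of_card_eq_pow_mul_pow p q T.hp T.hq _ rfl fun r hr hd => ?_
      exact T.prime_of_dvd le_rfl hr hd
    haveI : Group.IsSolvable (center G) := isSolvable_of_comm fun a b => mul_comm' a b
    exact solvable_of_ker_le_range (center G).subtype (QuotientGroup.mk' (center G))
      (by rw [QuotientGroup.ker_mk', Subgroup.range_subtype])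
  set K := Cfsg.pCore p G with hK
  set L := Cfsg.pCore q G with hLdef
  -- `C(F) ≤ F`
  have hinto : ∀ {r : ℕ}, r.Prime → ∀ x : G, El r x → K ≤ centralizer ({x} : Set G) →
      L ≤ centralizer ({x} : Set G) → x ∈ Cfsg.pCore r G := by
    intro r hr x hx hKx hLx
    haveI := Fact.mk hr
    have hF : Cfsg.fittingSubgroup G ≤ centralizer ({x} : Set G) := by
      rw [Cores.fittingSubgroup_eq_iSup_pCore]
      refine iSup_le fun t => ?_
      haveI := Fact.mk t.2
      by_cases htp : (t : ℕ) = p
      · rw [htp]; exact hKx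
      by_cases htq : (t : ℕ) = q
      · rw [htq]; exact hLx
      intro y hy
      exact center_le_cent x (T.other t.2 htp htq (FGSev.pElem_of_mem Cores.pCore_isPGroup hy))
    have hxF : x ∈ Cfsg.fittingSubgroup G := Cores.centralizer_fittingSubgroup_le
      (mem_centralizer_iff.2 fun y hy => (mem_cent.1 (hF hy)).eq)
    haveI := Cores.fittingSubgroup_isNilpotent (G := G)
    have h1 : (⟨x, hxF⟩ : Cfsg.fittingSubgroup G) ∈ Cfsg.pCore r (Cfsg.fittingSubgroup G) := by
      obtain ⟨k, hk⟩ := hx
      exact FGS75.FitRank.mem_pCore_of_el ⟨k, Subtype.ext (by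
        show x ^ r ^ k = 1
        rw [← hk, pow_orderOf_eq_one])⟩
    exact Cores.map_subtype_pCore_le (mem_map_of_mem _ h1)
  have hKcent : ∀ x : G, ¬ p ∣ cls x → K ≤ centralizer ({x} : Set G) := fun x hx => by
    obtain ⟨S, hS⟩ := PSingular.exists_sylow_le_of_not_dvd (p := p) (g := x) hx
    exact (Cores.pCore_le_sylow S).trans hS
  have hAK : ∀ a : G, El p a → cls a = n → a ∈ K := fun a ha han =>
    hinto T.hp a ha (hKcent a (by rw [han]; exact T.p_not_n)) (hL a ha han)
  have hprime_n : ∀ a : G, cls a = n → ∀ r, r.Prime → El r a → r = p := by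
    intro a han r hr ha
    by_contra hrp
    by_cases hrq : r = q
    · exact hqirr ⟨a, hrq ▸ ha, han⟩
    · exact T.H.not_center (by rw [han]; exact T.H.n1.ne') (T.other hr hrp hrq ha)
  obtain ⟨r0, a, hr0, ha, han⟩ := T.H.exists_primePow
  obtain rfl := hprime_n a han r0 hr0 ha
  -- a `p`-element of largest class size
  obtain ⟨u, hup, hu⟩ : ∃ u : G, El r0 u ∧ cls u = n * m := by
    by_contra hcon
    push Not at hcon
    obtain ⟨P⟩ : Nonempty (Sylow r0 G) := inferInstance
    have hPK : (P : Subgroup G) ≤ K := by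
      intro x hx
      have hxp : El r0 x := FGSev.pElem_of_mem P.2 hx
      rcases T.H.sizes x with h | h | h | h
      · exact hinto T.hp x hxp (fun y _ => mem_cent.2 (mem_center_iff.1 (center_of_cls_eq_one h) y))
          (fun y _ => mem_cent.2 (mem_center_iff.1 (center_of_cls_eq_one h) y))
      · exact hAK x hxp h
      · exact absurd ⟨x, hxp, h⟩ hpirr
      · exact absurd h (hcon x hxp)
    refine T.false_of_normal P ?_ hpirr
    rw [le_antisymm hPK (Cores.pCore_le_sylow P)]
    infer_instance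
  set M := centralizer ((K : Subgroup G) : Set G) with hMdef
  haveI : M.Normal := Subgroup.normal_centralizer
  -- centralisers of these elements meet only `M`
  have hstep : ∀ v : G, El r0 v → cls v = n * m → ∀ t ∈ centralizer ({v} : Set G), El q t → t ∈ M := by
    intro v hv hvs t ht htq
    have hle := T.H.minimal hvs (mem_cent.1 ht).symm (hv.coprime T.hp T.hq T.ne htq)
    obtain ⟨j, hj⟩ := htq
    have h := Coprime.pxq_lemma (p := r0) (P := zpowers v) (Q := zpowers t) (V := K)
      ((FGSev.pElem_iff_isPGroup r0 v).1 hv)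
      (by rw [Nat.card_zpowers, hj]; exact ((Nat.coprime_primes T.hq T.hp).2 T.ne.symm).pow_left j)
      Cores.pCore_isPGroup (le_top.trans (normalizer_eq_top (H := K)).ge)
      (le_top.trans (normalizer_eq_top (H := K)).ge)
      (by
        rw [zpowers_le, mem_centralizer_iff]
        rintro _ ⟨i, rfl⟩
        exact ((mem_cent.1 ht).zpow_left i).eq)
      (by
        rw [zpowers_le, mem_centralizer_iff]
        intro k hk
        have hkv : Commute k v := (mem_centralizer_iff.1 hk.2 v (mem_zpowers v)).symm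
        exact (mem_cent.1 (hle (mem_cent.2 hkv))).eq)
    exact h (mem_zpowers t)
  have hstep' : ∀ c : G, El r0 c → cls c = n → ∀ t ∈ centralizer ({c} : Set G), El q t → t ∈ M := by
    intro c hc hcn t ht htq
    have hMc : M ≤ centralizer ({c} : Set G) := fun y hy =>
      mem_cent.2 (mem_centralizer_iff.1 hy c (hAK c hc hcn)).symm
    obtain ⟨T1, k, hT1, hel, hk, hidx⟩ := exists_qpart q (centralizer ({u} : Set G))
    have hd : M.index ∣ k * (n * m) := by
      rw [← hu, ← hidx]
      exact index_dvd_of_le fun y hy => hstep u hup hu y (hT1 hy) (hel y hy)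
    have h := relIndex_mul_index hMc
    rw [show (centralizer ({c} : Set G)).index = n from hcn] at h
    have hd' : M.relIndex (centralizer {c}) * n ∣ (k * m) * n := by
      rw [h, mul_assoc, mul_comm m n]; exact hd
    have hnd : ¬ q ∣ M.relIndex (centralizer ({c} : Set G)) := fun hq' =>
      (T.hq.dvd_mul.1 (hq'.trans (Nat.dvd_of_mul_dvd_mul_right (by linarith [T.H.n1]) hd'))).elim hk
        T.q_not_m
    have hmem : (⟨t, ht⟩ : centralizer ({c} : Set G)) ∈ M.subgroupOf (centralizer {c}) := by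
      refine Element.mem_of_coprime_index ?_
      obtain ⟨j, hj⟩ := htq
      rw [orderOf_mk, hj]
      exact ((T.hq.coprime_iff_not_dvd).2 hnd).pow_left j
    exact hmem
  -- the elements of class size `m`
  have huc : u ∉ center G := T.H.not_center (by rw [hu]; nlinarith [T.H.n1, T.H.m1])
  have hB : ∀ b : G, El q b → cls b = m → b ∈ L := by
    intro b hb hbm
    obtain ⟨f, hfb, hfc, hfp⟩ := NC.of_index T.hp (center_le_cent u) (center_le_cent b)
      (show cls b ∣ cls u by rw [hbm, hu]; exact dvd_mul_left m n)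
      ⟨u, mem_cent.2 (Commute.refl u), huc, hup⟩
    have hbf : b ∈ centralizer ({f} : Set G) := mem_cent.2 (mem_cent.1 hfb).symm
    have hbM : b ∈ M := by
      rcases T.H.sizes f with h | h | h | h
      · exact absurd (center_of_cls_eq_one h) hfc
      · exact hstep' f hfp h b hbf hb
      · exact absurd ⟨f, hfp, h⟩ hpirr
      · exact hstep f hfp h b hbf hb
    obtain ⟨S, hS⟩ := PSingular.exists_sylow_le_of_not_dvd (p := q) (g := b)
      (show ¬ q ∣ cls b by rw [hbm]; exact T.q_not_m)
    exact hinto T.hq b hb (fun y hy => mem_cent.2 (mem_centralizer_iff.1 hbM y hy))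
      ((Cores.pCore_le_sylow S).trans hS)
  have hU : ∀ v : G, El r0 v → cls v = n * m → L ≤ centralizer ({v} : Set G) := by
    intro v hv hvs
    by_cases ht : ∃ t ∈ centralizer ({v} : Set G), El q t ∧ cls t = n * m
    · obtain ⟨t, htv, htq, hts⟩ := ht
      have hc := (mem_cent.1 htv)
      have hcop := htq.coprime T.hq T.hp T.ne.symm hv
      have hle := T.H.minimal hts hc hcop
      obtain ⟨j, hj⟩ := hv
      have h := Coprime.pxq_lemma (p := q) (P := zpowers t) (Q := zpowers v) (V := L)
        ((FGSev.pElem_iff_isPGroup q t).1 htq)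
        (by rw [Nat.card_zpowers, hj]; exact ((Nat.coprime_primes T.hp T.hq).2 T.ne).pow_left j)
        Cores.pCore_isPGroup (le_top.trans (normalizer_eq_top (H := L)).ge)
        (le_top.trans (normalizer_eq_top (H := L)).ge)
        (by
          rw [zpowers_le, mem_centralizer_iff]
          rintro _ ⟨i, rfl⟩
          exact (hc.symm.zpow_left i).eq)
        (by
          rw [zpowers_le, mem_centralizer_iff]
          intro k hk
          have hkt : Commute k t := (mem_centralizer_iff.1 hk.2 t (mem_zpowers t)).symm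
          exact (mem_cent.1 (hle (mem_cent.2 hkt))).eq)
      intro y hy
      exact mem_cent.2 (mem_centralizer_iff.1 (h (mem_zpowers v)) y hy)
    · obtain ⟨S⟩ : Nonempty (Sylow q (centralizer ({v} : Set G))) := inferInstance
      have hSL : (S : Subgroup _).map (centralizer ({v} : Set G)).subtype ≤ L := by
        rintro _ ⟨y, hy, rfl⟩
        have hyq : El q (y : G) := El.coe_iff.1 (FGSev.pElem_of_mem S.2 hy)
        rcases T.H.sizes (y : G) with h | h | h | h
        · exact hinto T.hq (y : G) hyq (fun z _ => mem_cent.2 (mem_center_iff.1 (center_of_cls_eq_one h) z))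
            (fun z _ => mem_cent.2 (mem_center_iff.1 (center_of_cls_eq_one h) z))
        · exact absurd ⟨_, hyq, h⟩ hqirr
        · exact hB _ hyq h
        · exact absurd ⟨_, y.2, hyq, h⟩ ht
      obtain ⟨j, hj⟩ := (Cores.pCore_isPGroup (p := q) (G := G)).exists_card_eq
      have hd : q ^ j ∣ Nat.card (centralizer ({v} : Set G)) := by
        have h1 : Nat.card L ∣ Nat.card (centralizer ({a} : Set G)) := card_dvd_of_le (hL a ha han)
        have h2 : Nat.card (centralizer ({v} : Set G)) * m = Nat.card (centralizer ({a} : Set G)) := by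
          refine Nat.eq_of_mul_eq_mul_right (show 0 < n by linarith [T.H.n1]) ?_
          calc Nat.card (centralizer ({v} : Set G)) * m * n
              = Nat.card (centralizer ({v} : Set G)) * (centralizer ({v} : Set G)).index := by
                rw [show (centralizer ({v} : Set G)).index = n * m from hvs]; ring
            _ = Nat.card (centralizer ({a} : Set G)) * (centralizer ({a} : Set G)).index := by
                rw [card_mul_index, card_mul_index]
            _ = _ := by rw [show (centralizer ({a} : Set G)).index = n from han]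
        rw [← h2, hj] at h1
        exact (((T.hq.coprime_iff_not_dvd).2 T.q_not_m).pow_left j).dvd_of_dvd_mul_right h1
      have h3 := S.pow_dvd_card_of_pow_dvd_card hd
      rw [← hj, Nat.card_congr ((S : Subgroup _).equivMapOfInjective _
        (centralizer ({v} : Set G)).subtype_injective).toEquiv] at h3
      rw [← eq_of_le_of_card_ge hSL (Nat.le_of_dvd Nat.card_pos h3)]
      exact map_subtype_le _
  obtain ⟨r, b, hr, hbr, hbm⟩ := T.H.symm.exists_primePow
  obtain rfl : r = q := by
    by_contra hrq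
    by_cases hrp : r = r0
    · exact hpirr ⟨b, hrp ▸ hbr, hbm⟩
    · exact T.H.not_center (by rw [hbm]; exact T.H.m1.ne') (T.other hr hrp hrq hbr)
  have hbL := hB b hbr hbm
  obtain ⟨P⟩ : Nonempty (Sylow r0 G) := inferInstance
  refine P.not_dvd_index (T.p_dvd.trans (hbm ▸ index_dvd_of_le fun x hx => ?_))
  have hxp : El r0 x := FGSev.pElem_of_mem P.2 hx
  have hxL : L ≤ centralizer ({x} : Set G) := by
    rcases T.H.sizes x with h | h | h | h
    · exact fun y _ => mem_cent.2 (mem_center_iff.1 (center_of_cls_eq_one h) y)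
    · exact hL x hxp h
    · exact absurd ⟨x, hxp, h⟩ hpirr
    · exact hU x hxp h
  exact mem_cent.2 (mem_cent.1 (hxL hbL)).symm

theorem TwoPrimes.isNilpotent : Group.IsNilpotent G := by
  classical
  haveI := Fact.mk T.hp
  haveI := Fact.mk T.hq
  obtain ⟨P⟩ : Nonempty (Sylow p G) := inferInstance
  obtain ⟨Q⟩ : Nonempty (Sylow q G) := inferInstance
  by_cases hp' : ∃ x : G, El p x ∧ cls x = m
  swap
  · exfalso
    by_cases hq' : ∃ x : G, El q x ∧ cls x = n
    · exact T.false_of_normal P
        (T.normal_of_complement (T.symm.complement_of_regular hq') P) hp'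
    by_cases hL : ∀ a : G, El p a → cls a = n → Cfsg.pCore q G ≤ centralizer ({a} : Set G)
    · exact T.false_of_irregular hp' hq' hL
    by_cases hK : ∀ b : G, El q b → cls b = m → Cfsg.pCore p G ≤ centralizer ({b} : Set G)
    · exact T.symm.false_of_irregular hq' hp' hK
    push Not at hL hK
    obtain ⟨a, -, han, hmv⟩ := hL
    obtain ⟨b, -, hbm, hmv'⟩ := hK
    have h1 := T.lt_of_moves (fun x h h' => hq' ⟨x, h', h⟩) han hmv
    have h2 := T.symm.lt_of_moves (fun x h h' => hp' ⟨x, h', h⟩) hbm hmv'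
    omega
  have hQn : (Q : Subgroup G).Normal := T.symm.normal_of_complement (T.complement_of_regular hp') Q
  by_cases hq' : ∃ x : G, El q x ∧ cls x = n
  swap
  · exact (T.symm.false_of_normal Q hQn hq').elim
  refine (Group.isNilpotent_of_finite_tfae.out 0 3 rfl rfl).2 fun s hs S => ?_
  by_cases hsp : s = p
  · subst hsp
    exact T.normal_of_complement (T.symm.complement_of_regular hq') S
  by_cases hsq : s = q
  · subst hsq
    exact T.symm.normal_of_complement (T.complement_of_regular hp') S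
  have hle : (S : Subgroup G) ≤ center G := fun x hx =>
    T.other hs.out hsp hsq (FGSev.pElem_of_mem S.2 hx)
  exact ⟨fun x hx g => by rwa [mem_center_iff.1 (hle hx) g, mul_inv_cancel_right]⟩

end Cfsg.Agent.FourSizes
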