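import Cfsg.Agent.ClassCount.DiagonalNorm
import Cfsg.Agent.MaxClassP.Section
import Cfsg.Agent.H4.MaxClass
import Cfsg.Agent.PSolv.Cores
import Cfsg.Agent.S0662
import Cfsg.Agent.Lib.ClassSize

/-!
# The `p`-th power map of a `p`-group of maximal class

`L j` is the lower central series. The map `x ↦ x ^ p` takes `L j` into `L (j + p - 1)` and, as long
as this is not the trivial group, takes `L j ∖ L (j + 1)` outside `L (j + p)`.
-/

set_option autoImplicit false

open Subgroup
open scoped commutatorElement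

namespace Cfsg.Agent.MaxClassPowers

open Cfsg.Agent.MaxClassP (lcs twoStep mem_twoStep lcs_succ comm_lcs)
open Cfsg.Agent.DiagonalNorm (d)

universe u

variable {Q : Type u} [Group Q]

theorem lcs_mono_index {i j : ℕ} (h : i ≤ j) : lcs Q j ≤ lcs Q i :=
  Subgroup.lowerCentralSeries_antitone _ h

theorem d_mem {y : Q} {i : ℕ} (hy : y ∈ lcs Q i) (s : Q) : d s y ∈ lcs Q (i + 1) := by
  have := MaxClassP.comm_mem hy s
  simpa [d, mul_assoc] using this

theorem commutator_zpowers_sup [Finite Q] {a : Q} {b : ℕ} (ha : a ∈ lcs Q b) :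
    ⁅zpowers a ⊔ lcs Q (b + 1), zpowers a ⊔ lcs Q (b + 1)⁆ ≤ lcs Q (2 * b + 2) := by
  set π := QuotientGroup.mk' (lcs Q (2 * b + 2)) with hπ
  have hc : ∀ {x y : Q} {i j : ℕ}, x ∈ lcs Q i → y ∈ lcs Q j → 2 * b + 2 ≤ i + j + 1 →
      π x * π y = π y * π x := by
    intro x y i j hx hy hij
    rw [← commutatorElement_eq_one_iff_mul_comm, ← map_commutatorElement]
    exact (QuotientGroup.eq_one_iff _).2
      (lcs_mono_index hij (comm_lcs i j (commutator_mem_commutator hx hy)))
  rw [← QuotientGroup.ker_mk' (lcs Q (2 * b + 2)), ← Subgroup.map_eq_bot_iff, Subgroup.map_commutator,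
    commutator_eq_bot_iff_le_centralizer, Subgroup.map_sup, MonoidHom.map_zpowers]
  refine sup_le ?_ ?_ <;> rw [le_centralizer_iff] <;> refine sup_le ?_ ?_
  · rw [zpowers_le, mem_centralizer_iff]
    rintro _ ⟨i, rfl⟩
    exact ((Commute.refl _).zpow_left i).eq
  · rintro _ ⟨y, hy, rfl⟩
    rw [mem_centralizer_iff]
    rintro _ ⟨i, rfl⟩
    exact ((show Commute (π a) (π y) from hc ha hy (by omega)).zpow_left i).eq
  · rw [zpowers_le, mem_centralizer_iff]
    rintro _ ⟨y, hy, rfl⟩
    exact hc hy ha (by omega)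
  · rintro _ ⟨y, hy, rfl⟩
    rw [mem_centralizer_iff]
    rintro _ ⟨x, hx, rfl⟩
    exact hc hx hy (by omega)

theorem lcs_bound [Finite Q] {K : Subgroup Q} {b c : ℕ} (hK : K ≤ lcs Q b) (h1 : ⁅K, K⁆ ≤ lcs Q c) :
    ∀ k, K.lowerCentralSeries (k + 1) ≤ lcs Q (c + k * (b + 1)) := by
  intro k
  induction k with
  | zero => simpa using h1
  | succ k ih =>
    rw [Subgroup.lowerCentralSeries_succ]
    refine (Subgroup.commutator_mono ih hK).trans ((comm_lcs _ b).trans (le_of_eq ?_))
    rw [Nat.succ_mul]; congr 1; omega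

/-- Products of `p`-th powers in a small subgroup. -/
theorem expand [Finite Q] {p : ℕ} [Fact p.Prime] (M K : Subgroup Q) [M.Normal]
    (hcl : K.lowerCentralSeries (p - 1) ≤ M) (hpow : ∀ z ∈ K.lowerCentralSeries 1, z ^ p ∈ M)
    {x y : Q} (hx : x ∈ K) (hy : y ∈ K) :
    ((x * y) ^ p : Q) * (x ^ p * y ^ p)⁻¹ ∈ M := by
  set π := QuotientGroup.mk' M with hπ
  set J := K.map π with hJ
  have hmap : ∀ k, ((⊤ : Subgroup J).lowerCentralSeries k).map J.subtype =
      (K.lowerCentralSeries k).map π := fun k => by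
    rw [map_lowerCentralSeries, map_lowerCentralSeries, ← MonoidHom.range_eq_map, range_subtype]
  have hJcl : (⊤ : Subgroup J).lowerCentralSeries (p - 1) = ⊥ := by
    refine map_injective J.subtype_injective ?_
    rw [hmap, Subgroup.map_bot, Subgroup.map_eq_bot_iff, hπ, QuotientGroup.ker_mk']
    exact hcl
  have hc := H77.Regular.exists_correction (Fact.out : p.Prime) hJcl
    ⟨π x, mem_map_of_mem π hx⟩ ⟨π y, mem_map_of_mem π hy⟩ 1
  have hbot : Cfsg.powerClosure p 1 (commutator J) ≤ ⊥ := by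
    rw [Cfsg.powerClosure, closure_le]
    rintro _ ⟨z, hz, rfl⟩
    rw [SetLike.mem_coe, mem_bot, pow_one]
    rw [← Subgroup.top_lowerCentralSeries_one] at hz
    have h1 := mem_map_of_mem J.subtype hz
    rw [hmap] at h1
    obtain ⟨w, hw, hwz⟩ := h1
    apply Subtype.ext
    rw [Subgroup.coe_pow, Subgroup.coe_one, ← Subgroup.coe_subtype, ← hwz, ← map_pow]
    exact (QuotientGroup.eq_one_iff _).2 (hpow w hw)
  have h1 := congrArg Subtype.val (mem_bot.1 (hbot hc))
  simp only [pow_one, Subgroup.coe_mul, Subgroup.coe_inv, Subgroup.coe_pow, Subgroup.coe_one,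
    MulMemClass.mk_mul_mk, SubgroupClass.coe_pow] at h1
  rw [← QuotientGroup.eq_one_iff]
  show π ((x * y) ^ p * (x ^ p * y ^ p)⁻¹) = 1
  rw [map_mul, map_inv, map_mul, map_pow, map_pow, map_pow, map_mul, mul_inv_eq_one]
  rw [mul_assoc, inv_mul_eq_one, eq_inv_mul_iff_mul_eq] at h1
  exact h1.symm

/-- The hypotheses: `Q` has order `p ^ (m+1)` and maximal class. -/
structure MC (p : ℕ) (Q : Type u) [Group Q] (m : ℕ) : Prop where
  two_le : 2 ≤ m
  card : ∀ j, 1 ≤ j → j ≤ m → Nat.card (lcs Q j) = p ^ (m - j)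
  top : Nat.card Q = p ^ (m + 1)
  frat : ∀ g : Q, g ^ p ∈ lcs Q 1

variable [Finite Q] {p : ℕ} [hp : Fact p.Prime] {m : ℕ}

section

variable (H : MC p Q m)
include H

theorem MC.bot {j : ℕ} (hj : m ≤ j) : lcs Q j = ⊥ :=
  MaxClassP.lcs_eq_bot H.card hj (by have := H.two_le; omega)

theorem MC.isPGroup : IsPGroup p Q := IsPGroup.of_card H.top

theorem MC.quotient {k : ℕ} (hk : 2 ≤ k) (hkm : k ≤ m) : MC p (Q ⧸ lcs Q k) k := by
  set π := QuotientGroup.mk' (lcs Q k)
  have hmap : ∀ j, lcs (Q ⧸ lcs Q k) j = (lcs Q j).map π := fun j => by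
    show (⊤ : Subgroup (Q ⧸ lcs Q k)).lowerCentralSeries j = _
    rw [← map_top_of_surjective π (QuotientGroup.mk'_surjective _), ← map_lowerCentralSeries]
  refine ⟨hk, fun j hj hjk => ?_, ?_, fun g => ?_⟩
  · rw [hmap, PSolv.card_map_mk_eq_relIndex]
    have h := relIndex_mul_relIndex ⊥ (lcs Q k) (lcs Q j) bot_le (lcs_mono_index hjk)
    rw [relIndex_bot_left, relIndex_bot_left, H.card k (by omega) hkm, H.card j hj (by omega),
      show m - j = (m - k) + (k - j) by omega, pow_add] at h
    exact Nat.eq_of_mul_eq_mul_left (pow_pos hp.out.pos _) h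
  · have h := (lcs Q k).card_mul_index
    rw [H.card k (by omega) hkm, H.top, show m + 1 = (m - k) + (k + 1) by omega, pow_add] at h
    rw [← Subgroup.index_eq_card]
    exact Nat.eq_of_mul_eq_mul_left (pow_pos hp.out.pos _) h
  · obtain ⟨g, rfl⟩ := QuotientGroup.mk'_surjective (lcs Q k) g
    rw [hmap, ← map_pow]
    exact mem_map_of_mem π (H.frat g)

theorem MC.mem_of_mk {k j : ℕ} (hjk : j ≤ k) {x : Q}
    (h : (x : Q ⧸ lcs Q k) ∈ lcs (Q ⧸ lcs Q k) j) : x ∈ lcs Q j := by
  set π := QuotientGroup.mk' (lcs Q k)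
  have hmap : lcs (Q ⧸ lcs Q k) j = (lcs Q j).map π := by
    show (⊤ : Subgroup (Q ⧸ lcs Q k)).lowerCentralSeries j = _
    rw [← map_top_of_surjective π (QuotientGroup.mk'_surjective _), ← map_lowerCentralSeries]
  rw [hmap] at h
  obtain ⟨y, hy, he⟩ := h
  have h1 : y⁻¹ * x ∈ lcs Q k := QuotientGroup.eq.1 he
  simpa using mul_mem hy (lcs_mono_index hjk h1)

theorem MC.central_top {z : Q} (hz : z ∈ lcs Q (m - 1)) (g : Q) : Commute z g := by
  rw [Commute, SemiconjBy, ← commutatorElement_eq_one_iff_mul_comm, ← mem_bot,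
    ← H.bot (j := m - 1 + 1) (by omega), lcs_succ]
  exact commutator_mem_commutator hz (mem_top g)

/-- Outside `twoStep`, the commutator with `s` raises the level exactly by one. -/
theorem MC.not_commute {s a : Q} {j : ℕ} (hj : 1 ≤ j) (hjm : j < m) (hs : s ∉ twoStep Q j)
    (ha : a ∈ lcs Q j) (ha' : a ∉ lcs Q (j + 1)) : d s a ∉ lcs Q (j + 2) := by
  intro hd
  refine hs (mem_twoStep.2 fun y hy => ?_)
  set π := QuotientGroup.mk' (lcs Q (j + 2))
  let C : Subgroup Q := (centralizer ({π s} : Set _)).comap π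
  have hC : ∀ g, g ∈ C ↔ π g * π s = π s * π g := fun g => mem_centralizer_singleton_iff
  have h1 : lcs Q (j + 1) ≤ C := fun g hg => by
    rw [hC, ← commutatorElement_eq_one_iff_mul_comm, ← map_commutatorElement]
    exact (QuotientGroup.eq_one_iff _).2 (commutator_mem_commutator hg (mem_top s))
  have h2 := MaxClassP.lcs_le_of_mem H.card hj hjm h1 ha ha' ((hC a).2 (by
    have h : π (d s a) = 1 := (QuotientGroup.eq_one_iff _).2 hd
    rw [d, map_mul, map_mul, map_mul, map_inv, map_inv, inv_mul_eq_one, eq_mul_inv_iff_mul_eq] at h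
    exact h))
  have h3 := (hC y).1 (h2 hy)
  rw [← QuotientGroup.eq_one_iff]
  show π (y⁻¹ * s * y * s⁻¹) = 1
  rw [map_mul, map_mul, map_mul, map_inv, map_inv, mul_assoc _ (π s), ← h3]
  group

theorem MC.exists_not_twoStep (S : Finset ℕ) (hS : S.card ≤ p) (hlt : ∀ i ∈ S, i + 1 < m) :
    ∃ s : Q, ∀ i ∈ S, s ∉ twoStep Q i :=
  MaxClassP.exists_notMem H.isPGroup S (twoStep Q)
    (fun i hi => MaxClassP.twoStep_ne_top H.card (hlt i hi)) hS

/-- Linearity of the iterated commutator. -/
theorem MC.iterate_lin (s : Q) {a : Q} {b : ℕ} (ha : a ∈ lcs Q b) (t : ℕ) :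
    ∀ l, (d s)^[l] a ∈ lcs Q (b + l) ∧
      (((d s)^[l] a) ^ t)⁻¹ * (d s)^[l] (a ^ t) ∈ lcs Q (b + l + 1) := by
  intro l
  induction l with
  | zero => simp [ha, one_mem]
  | succ l ih =>
    obtain ⟨hz, hw⟩ := ih
    rw [Function.iterate_succ_apply', Function.iterate_succ_apply']
    set z := (d s)^[l] a
    set w := (d s)^[l] (a ^ t)
    have he : d s z ∈ lcs Q (b + l + 1) := d_mem hz s
    refine ⟨by simpa [add_assoc] using he, ?_⟩
    rw [show b + (l + 1) + 1 = b + l + 2 by ring]
    set π := QuotientGroup.mk' (lcs Q (b + l + 2))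
    have hcen : ∀ x ∈ lcs Q (b + l + 1), ∀ y, Commute (π x) (π y) := fun x hx y => by
      rw [Commute, SemiconjBy, ← commutatorElement_eq_one_iff_mul_comm, ← map_commutatorElement]
      exact (QuotientGroup.eq_one_iff _).2 (commutator_mem_commutator hx (mem_top y))
    have e1 : π s * π z * (π s)⁻¹ = π z * π (d s z) := by
      rw [d, map_mul, map_mul, map_mul, map_inv, map_inv, mul_inv_cancel_left]
    set r := (z ^ t)⁻¹ * w with hr
    have e2 : π w = π z ^ t * π r := by rw [hr, map_mul, map_inv, map_pow, mul_inv_cancel_left]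
    have e3 : π (d s w) = π (d s z) ^ t := by
      have hrs : π s * π r * (π s)⁻¹ = π r := by
        rw [← (hcen r hw s).eq, mul_inv_cancel_right]
      have hct : π (d s w) = (π w)⁻¹ * (π s * π w * (π s)⁻¹) := by
        rw [d, map_mul, map_mul, map_mul, map_inv, map_inv]
      rw [hct, e2, ← conj_mul, hrs, ← conj_pow, e1,
        ((hcen _ he z).symm).mul_pow, mul_inv_rev]
      calc (π r)⁻¹ * (π z ^ t)⁻¹ * (π z ^ t * π (d s z) ^ t * π r)
          = (π r)⁻¹ * (π (d s z) ^ t * π r) := by group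
        _ = π (d s z) ^ t := by
          rw [← (hcen _ hw (d s z)).pow_right t |>.eq, inv_mul_cancel_left]
    rw [← QuotientGroup.eq_one_iff]
    show π ((d s z ^ t)⁻¹ * d s w) = 1
    rw [map_mul, map_inv, map_pow, e3, inv_mul_cancel]

theorem MC.iterate_ne {s a : Q} {b : ℕ} (hb : 1 ≤ b) (ha : a ∈ lcs Q b) (ha' : a ∉ lcs Q (b + 1)) :
    ∀ l, b + l ≤ m - 1 → (∀ i, b ≤ i → i < b + l → s ∉ twoStep Q i) →
      (d s)^[l] a ∉ lcs Q (b + l + 1) := by
  intro l
  induction l with
  | zero => intro _ _; simpa using ha'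
  | succ l ih =>
    intro hl hs
    rw [Function.iterate_succ_apply', show b + (l + 1) + 1 = b + l + 2 by ring]
    exact H.not_commute (by omega) (by omega) (hs (b + l) (by omega) (by omega))
      (H.iterate_lin s ha 1 l).1 (ih (by omega) fun i h1 h2 => hs i h1 (by omega))

/-- A group of maximal class and order `p ^ (p+1)` does not have exponent `p`. -/
theorem MC.not_exponent (hm : m = p) : ¬ ∀ g : Q, g ^ p = 1 := by
  intro hexp
  have hp2 := hp.out.two_le
  obtain ⟨s, hs⟩ := H.exists_not_twoStep (Finset.range (p - 1)) (by simp) (fun i hi => by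
    have := Finset.mem_range.1 hi; omega)
  obtain ⟨a, -, ha⟩ : ∃ a ∈ lcs Q 0, a⁻¹ * s * a * s⁻¹ ∉ lcs Q 2 := by
    have := mem_twoStep.not.1 (hs 0 (by simp; omega))
    push Not at this
    exact this
  set N := zpowers a ⊔ lcs Q 1 with hN
  have hK : ⁅N, N⁆ ≤ lcs Q 2 := commutator_zpowers_sup (b := 0) (mem_top a)
  have hcl : N.lowerCentralSeries (p - 1) = ⊥ := by
    rw [eq_bot_iff, show p - 1 = p - 2 + 1 by omega]
    exact (lcs_bound (b := 0) le_top hK (p - 2)).trans (H.bot (by omega)).le
  have hsN : ∀ x ∈ N, s * x * s⁻¹ ∈ N := fun x hx => by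
    have := mul_mem hx (mem_sup_right (lcs_mono_index (Nat.le_add_left 1 0) (d_mem (mem_top x) s)) :
      d s x ∈ N)
    rwa [d, mul_inv_cancel_left] at this
  have htop : lcs Q p = ⊥ := H.bot (by omega)
  have hz := DiagonalNorm.iterate_d_eq_one (p := p) N s a hsN
    (mem_sup_left (mem_zpowers a)) (fun x _ => hexp x) hcl (fun t => by rw [hexp, hexp]) (fun t => by
      have h := (H.iterate_lin s (b := 0) (mem_top a) t (p - 1)).2
      rw [H.bot (by omega), mem_bot, inv_mul_eq_one] at h
      exact h.symm)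
  have h1 : d s a ∉ lcs Q 2 := by simpa [d, mul_assoc] using ha
  have h2 := H.iterate_ne (s := s) (a := d s a) le_rfl (d_mem (i := 0) (mem_top a) s) h1 (p - 2)
    (by omega) (fun i h1 h2 => hs i (Finset.mem_range.2 (by omega)))
  rw [← Function.iterate_succ_apply, show Nat.succ (p - 2) = p - 1 by omega, hz] at h2
  exact h2 (one_mem _)

/-- In order `p ^ (p+2)` the derived group does not have exponent `p`. -/
theorem MC.not_exponent_one (hm : m = p + 1) : ¬ ∀ g ∈ lcs Q 1, g ^ p = 1 := by
  intro hexp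
  have hp2 := hp.out.two_le
  obtain ⟨s, hs⟩ := H.exists_not_twoStep (Finset.Icc 1 (p - 1)) (by simp) (fun i hi => by
    have := Finset.mem_Icc.1 hi; omega)
  have hsj : ∀ j, 1 ≤ j → j ≤ p - 1 → s ∉ twoStep Q j := fun j h1 h2 =>
    hs j (Finset.mem_Icc.2 ⟨h1, h2⟩)
  have hsp : s ^ p ∈ lcs Q p := by
    have : ∀ j, 1 ≤ j → j ≤ p → s ^ p ∈ lcs Q j := by
      intro j hj hjp
      induction j with
      | zero => omega
      | succ j ih =>
        rcases Nat.eq_zero_or_pos j with rfl | hj0
        · exact H.frat s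
        · exact MaxClassP.pow_mem_succ H.card hj0 (by omega) (hsj j hj0 (by omega))
            (ih hj0 (by omega))
    exact this p (by omega) le_rfl
  -- the centraliser of `s`
  set C := centralizer ({s} : Set Q) with hC
  have hCL : C ⊓ lcs Q 1 ≤ lcs Q p := by
    intro x hx
    have : ∀ j, 1 ≤ j → j ≤ p → x ∈ lcs Q j := by
      intro j hj hjp
      induction j with
      | zero => omega
      | succ j ih =>
        rcases Nat.eq_zero_or_pos j with rfl | hj0
        · exact hx.2
        · by_contra hne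
          refine H.not_commute hj0 (by omega) (hsj j hj0 (by omega)) (ih hj0 (by omega)) hne ?_
          have : d s x = 1 := by
            rw [d, inv_mul_eq_one, eq_mul_inv_iff_mul_eq]
            exact mem_centralizer_singleton_iff.1 hx.1
          rw [this]
          exact one_mem _
    exact this p (by omega) le_rfl
  have hne : C ⊔ lcs Q 1 ≠ ⊤ := fun e => by
    have e' : C ⊔ frattini Q = ⊤ := eq_top_iff.2 (e.ge.trans (sup_le le_sup_left
      (le_sup_of_le_right (Subgroup.top_lowerCentralSeries_one.le.trans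
        (PGroup.commutator_le_frattini H.isPGroup)))))
    have hCtop := frattini_nongenerating e'
    refine hsj 1 le_rfl (by omega) (mem_twoStep.2 fun y _ => ?_)
    have hy : y * s = s * y := mem_centralizer_singleton_iff.1 (hCtop ▸ mem_top y : y ∈ C)
    rw [mul_assoc (y⁻¹), ← hy, ← mul_assoc, inv_mul_cancel, one_mul, mul_inv_cancel]
    exact one_mem _
  have hL1i : (lcs Q 1).index = p ^ 2 := by
    have h := (lcs Q 1).card_mul_index
    rw [H.card 1 le_rfl (by omega), H.top, show m + 1 = (m - 1) + 2 by omega, pow_add] at h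
    exact Nat.eq_of_mul_eq_mul_left (pow_pos hp.out.pos _) h
  have hrel : (lcs Q 1).relIndex C ≤ p := by
    rw [← relIndex_sup_right (K := lcs Q 1)]
    have h1 := relIndex_mul_index (le_sup_right : lcs Q 1 ≤ C ⊔ lcs Q 1)
    obtain ⟨i, hi⟩ := H.isPGroup.index (C ⊔ lcs Q 1)
    have h2 : p ≤ (C ⊔ lcs Q 1).index := by
      rw [hi]
      refine Nat.le_self_pow (fun e => hne (index_eq_one.1 (by rw [hi, e, pow_zero]))) p
    rw [hL1i, pow_two] at h1
    nlinarith [hp.out.pos]
  have hCcard : Nat.card C ≤ p * p := by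
    have h1 := ((lcs Q 1).subgroupOf C).card_mul_index
    rw [← h1]
    refine Nat.mul_le_mul ?_ hrel
    rw [← inf_subgroupOf_right (lcs Q 1) C,
      Nat.card_congr (subgroupOfEquivOfLe inf_le_right).toEquiv, inf_comm]
    refine (card_le_of_le hCL).trans (le_of_eq ?_)
    rw [H.card p (by omega) (by omega), hm, Nat.add_sub_cancel_left, pow_one]
  -- all of `L 1 * s` is one class
  have hclass : ∀ x ∈ lcs Q 1, ∃ g : Q, g * s * g⁻¹ = x * s := by
    intro x hx
    have hsub : (Set.range fun g : Q => g * s * g⁻¹) ⊆ (fun x => x * s) '' (lcs Q 1 : Set Q) := by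
      rintro _ ⟨g, rfl⟩
      refine ⟨g * s * g⁻¹ * s⁻¹, ?_, inv_mul_cancel_right _ _⟩
      rw [lcs_succ]
      exact commutator_mem_commutator (mem_top g) (mem_top s)
    have heq := Set.eq_of_subset_of_ncard_le hsub ?_ (Set.toFinite _)
    · have hmem : x * s ∈ (fun x => x * s) '' (lcs Q 1 : Set Q) := ⟨x, hx, rfl⟩
      rw [← heq] at hmem
      exact hmem
    · rw [ClassSize.ncard_range_conj, Set.ncard_image_of_injective _ (mul_left_injective s)]
      show Nat.card (lcs Q 1) ≤ C.index
      have h1 := C.card_mul_index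
      rw [H.top, show m + 1 = (m - 1) + 2 by omega, pow_add, ← H.card 1 le_rfl (by omega), pow_two]
        at h1
      refine Nat.le_of_mul_le_mul_right ?_ (show 0 < p * p by positivity)
      rw [← h1, mul_comm C.index]
      exact Nat.mul_le_mul hCcard le_rfl
  obtain ⟨a, ha, ha'⟩ := MaxClassP.lcs_succ_lt H.card (j := 1) le_rfl (by omega)
  have hcl : (lcs Q 1).lowerCentralSeries (p - 1) = ⊥ := by
    have h1 : ⁅lcs Q 1, lcs Q 1⁆ ≤ lcs Q 3 := comm_lcs 1 1
    rw [eq_bot_iff, show p - 1 = p - 2 + 1 by omega]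
    exact (lcs_bound le_rfl h1 (p - 2)).trans (H.bot (by omega)).le
  have hz := DiagonalNorm.iterate_d_eq_one (p := p) (lcs Q 1) s a
    (fun x hx => (inferInstance : (lcs Q 1).Normal).conj_mem x hx s) ha hexp hcl (fun t => by
      obtain ⟨g, hg⟩ := hclass _ (pow_mem ha t)
      rw [← hg, conj_pow, ← (H.central_top (by rwa [hm, Nat.add_sub_cancel]) g).eq,
        mul_inv_cancel_right]) (fun t => by
      have h := (H.iterate_lin s ha t (p - 1)).2
      rw [H.bot (by omega), mem_bot, inv_mul_eq_one] at h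
      exact h.symm)
  have h2 := H.iterate_ne (s := s) le_rfl ha ha' (p - 1) (by omega)
    (fun i h1 h2 => hsj i h1 (by omega))
  rw [hz] at h2
  exact h2 (one_mem _)

end

/-- `x ↦ x ^ p` takes `L j` into `L (j + p - 1)`. -/
theorem pow_mem : ∀ (m : ℕ) (Q : Type u) [Group Q] [Finite Q] (_ : MC p Q m) (j : ℕ),
    1 ≤ j → ∀ a ∈ lcs Q j, a ^ p ∈ lcs Q (j + p - 1) := by
  intro m
  induction m using Nat.strong_induction_on with
  | _ m ih =>
  intro Q _ _ H
  have hp2 := hp.out.two_le
  have hm2 := H.two_le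
  have pre : ∀ j, 1 ≤ j → ∀ a ∈ lcs Q j, a ^ p ∈ lcs Q (min (j + p - 1) (m - 1)) := by
    intro j hj a ha
    rcases Nat.lt_or_ge m 3 with hm3 | hm3
    · exact lcs_mono_index (by omega) (H.frat a)
    · have H' := H.quotient (k := m - 1) (by omega) (by omega)
      have h1 : (a : Q ⧸ lcs Q (m - 1)) ∈ lcs (Q ⧸ lcs Q (m - 1)) j := by
        show _ ∈ (⊤ : Subgroup (Q ⧸ lcs Q (m - 1))).lowerCentralSeries j
        rw [← map_top_of_surjective _ (QuotientGroup.mk'_surjective (lcs Q (m - 1))),
          ← map_lowerCentralSeries]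
        exact mem_map_of_mem _ ha
      have h2 := ih (m - 1) (by omega) _ H' j hj _ h1
      rw [← QuotientGroup.mk_pow] at h2
      exact H.mem_of_mk (min_le_right _ _)
        (Subgroup.lowerCentralSeries_antitone _ (min_le_left _ _) h2)
  have hkill : ∀ i j, j + i = m → 1 ≤ j → m ≤ j + p - 1 → ∀ a ∈ lcs Q j, a ^ p = 1 := by
    intro i
    induction i with
    | zero =>
      intro j hj _ _ a ha
      rw [H.bot (by omega), mem_bot] at ha
      rw [ha, one_pow]
    | succ i ihi =>
      intro j hji hj1 hjp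
      obtain ⟨b, rfl⟩ : ∃ b, j = b + 1 := ⟨j - 1, by omega⟩
      have hk : ∀ z ∈ lcs Q (b + 2), z ^ p = 1 := ihi (b + 2) (by omega) (by omega) (by omega)
      have hmle : m ≤ 2 * b + 2 + (p - 2) * (b + 1) := by
        have : (p - 2) * 1 ≤ (p - 2) * (b + 1) := Nat.mul_le_mul le_rfl (by omega)
        omega
      obtain ⟨s, hs⟩ := H.exists_not_twoStep {b} (by simp; omega) (fun i hi => by
        simp at hi; omega)
      obtain ⟨y, hy, hy'⟩ : ∃ y ∈ lcs Q b, y⁻¹ * s * y * s⁻¹ ∉ lcs Q (b + 2) := by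
        have := mem_twoStep.not.1 (hs b (by simp))
        push Not at this
        exact this
      have hyc : ∀ g, Commute (y ^ p) g := by
        refine H.central_top ?_
        rcases Nat.eq_zero_or_pos b with rfl | hb
        · exact MaxClassP.pow_mem_lcs H.card H.isPGroup H.frat (by omega) (by omega) (by omega) y
        · exact lcs_mono_index (by omega) (pre b hb y hy)
      set a := d s y with ha
      have haj : a ∈ lcs Q (b + 1) := d_mem hy s
      have haj' : a ∉ lcs Q (b + 2) := by simpa [ha, d, mul_assoc] using hy'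
      have hexp : ∀ {x z : Q} (K : Subgroup Q), K.lowerCentralSeries (p - 1) ≤ ⊥ →
          K.lowerCentralSeries 1 ≤ lcs Q (b + 2) → x ∈ K → z ∈ K → (x * z) ^ p = x ^ p * z ^ p := by
        intro x z K h1 h2 hx hz
        have h := expand (⊥ : Subgroup Q) K h1 (fun w hw => mem_bot.2 (hk w (h2 hw))) hx hz
        rwa [mem_bot, mul_inv_eq_one] at h
      have hap : a ^ p = 1 := by
        have hK := commutator_zpowers_sup hy
        have hKle : zpowers y ⊔ lcs Q (b + 1) ≤ lcs Q b :=
          sup_le (zpowers_le.2 hy) (lcs_mono_index (Nat.le_succ b))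
        have h := hexp (x := y) (z := a) (zpowers y ⊔ lcs Q (b + 1))
          (by
            rw [show p - 1 = p - 2 + 1 by omega]
            exact (lcs_bound hKle hK (p - 2)).trans (H.bot hmle).le)
          (by
            rw [Subgroup.lowerCentralSeries_succ, Subgroup.lowerCentralSeries_zero]
            exact hK.trans (lcs_mono_index (by omega)))
          (mem_sup_left (mem_zpowers y)) (mem_sup_right haj)
        rwa [ha, d, mul_inv_cancel_left, conj_pow, ← (hyc s).eq, mul_inv_cancel_right,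
          left_eq_mul] at h
      have hmul : ∀ x ∈ lcs Q (b + 1), ∀ z ∈ lcs Q (b + 1), (x * z) ^ p = x ^ p * z ^ p := by
        intro x hx z hz
        have hK : ⁅lcs Q (b + 1), lcs Q (b + 1)⁆ ≤ lcs Q (b + 1 + (b + 1) + 1) := comm_lcs _ _
        refine hexp (lcs Q (b + 1)) ?_ ?_ hx hz
        · rw [show p - 1 = p - 2 + 1 by omega]
          refine (lcs_bound le_rfl hK (p - 2)).trans (H.bot ?_).le
          have : (p - 2) * (b + 1) ≤ (p - 2) * (b + 1 + 1) := Nat.mul_le_mul le_rfl (by omega)
          omega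
        · rw [Subgroup.lowerCentralSeries_succ, Subgroup.lowerCentralSeries_zero]
          exact hK.trans (lcs_mono_index (by omega))
      let T : Subgroup Q :=
        { carrier := {x | x ∈ lcs Q (b + 1) ∧ x ^ p = 1}
          one_mem' := ⟨one_mem _, one_pow p⟩
          mul_mem' := fun {x z} hx hz =>
            ⟨mul_mem hx.1 hz.1, by rw [hmul x hx.1 z hz.1, hx.2, hz.2, one_mul]⟩
          inv_mem' := fun {x} hx => ⟨inv_mem hx.1, by rw [inv_pow, hx.2, inv_one]⟩ }
      intro x hx
      exact (MaxClassP.lcs_le_of_mem H.card (H := T) (by omega) (by omega)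
        (fun z hz => ⟨lcs_mono_index (Nat.le_succ _) hz, hk z hz⟩) haj haj' ⟨haj, hap⟩ hx).2
  intro j hj a ha
  rcases Nat.lt_or_ge (j + p - 1) m with hlt | hge
  · have := pre j hj a ha
    rwa [min_eq_left (by omega)] at this
  · rw [show a ^ p = 1 from ?_]
    · exact one_mem _
    rcases Nat.lt_or_ge m j with hmj | hmj
    · rw [H.bot hmj.le, mem_bot] at ha
      rw [ha, one_pow]
    · exact hkill (m - j) j (by omega) hj hge a ha

variable (H : MC p Q m)
include H

/-- The `p`-th power map is nonzero on each section. -/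
theorem MC.exists_pow_not_mem {i : ℕ} (hi : 1 ≤ i) (him : i + p ≤ m) :
    ∃ a ∈ lcs Q i, a ^ p ∉ lcs Q (i + p) := by
  have hp2 := hp.out.two_le
  induction i with
  | zero => omega
  | succ i ih =>
    rcases Nat.eq_zero_or_pos i with rfl | hi0
    · by_contra hcon
      push Not at hcon
      refine (H.quotient (k := p + 1) (by omega) (by omega)).not_exponent_one rfl fun g hg => ?_
      obtain ⟨g, rfl⟩ := QuotientGroup.mk_surjective g
      rw [← QuotientGroup.mk_pow, QuotientGroup.eq_one_iff]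
      have := hcon g (H.mem_of_mk (by omega) hg)
      rwa [show 0 + 1 + p = p + 1 by omega] at this
    · obtain ⟨a, ha, hap⟩ := ih hi0 (by omega)
      by_contra hcon
      push Not at hcon
      rw [show i + 1 + p = i + p + 1 by omega] at hcon
      obtain ⟨s, hs⟩ := H.exists_not_twoStep {i + p - 1} (by simp; omega) (fun j hj => by
        simp at hj; omega)
      have hd := d_mem ha s
      have hK := commutator_zpowers_sup ha
      have hKle : zpowers a ⊔ lcs Q (i + 1) ≤ lcs Q i :=
        sup_le (zpowers_le.2 ha) (lcs_mono_index (Nat.le_succ i))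
      have h := expand (lcs Q (i + p + 1)) (zpowers a ⊔ lcs Q (i + 1))
        (by
          rw [show p - 1 = p - 2 + 1 by omega]
          refine (lcs_bound hKle hK (p - 2)).trans (lcs_mono_index ?_)
          have : (p - 2) * 1 ≤ (p - 2) * i := Nat.mul_le_mul le_rfl hi0
          rw [Nat.mul_succ]
          omega)
        (fun z hz => by
          rw [Subgroup.lowerCentralSeries_succ, Subgroup.lowerCentralSeries_zero] at hz
          exact lcs_mono_index (by omega) (pow_mem m Q H (2 * i + 2) (by omega) z (hK hz)))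
        (mem_sup_left (mem_zpowers a) : a ∈ _) (mem_sup_right hd : d s a ∈ _)
      rw [d, mul_inv_cancel_left, conj_pow, ← QuotientGroup.eq_one_iff] at h
      have hup : ∀ g, ((g : Q) : Q ⧸ lcs Q (i + p + 1)) = 1 → g ∈ lcs Q (i + p + 1) :=
        fun g hg => (QuotientGroup.eq_one_iff g).1 hg
      have h2 : ((d s a ^ p : Q) : Q ⧸ lcs Q (i + p + 1)) = 1 :=
        (QuotientGroup.eq_one_iff _).2 (hcon _ hd)
      rw [d] at h2
      refine H.not_commute (j := i + p - 1) (by omega) (by omega) (hs _ (by simp)) (pow_mem m Q H i hi0 a ha)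
        (by rwa [Nat.sub_add_cancel (by omega : 1 ≤ i + p)]) ?_
      rw [show i + p - 1 + 2 = i + p + 1 by omega]
      apply hup
      simp only [QuotientGroup.mk_mul, QuotientGroup.mk_inv, h2, mul_one] at h
      simp only [d, QuotientGroup.mk_mul, QuotientGroup.mk_inv, inv_mul_eq_one]
      exact (mul_inv_eq_one.1 h).symm

/-- The `p`-th power map is injective on each section. -/
theorem MC.pow_not_mem {i : ℕ} (hi : 1 ≤ i) (him : i + p ≤ m) {a : Q} (ha : a ∈ lcs Q i)
    (ha' : a ∉ lcs Q (i + 1)) : a ^ p ∉ lcs Q (i + p) := by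
  have hp2 := hp.out.two_le
  intro hap
  obtain ⟨b, hb, hbp⟩ := H.exists_pow_not_mem hi him
  have hK : ⁅lcs Q i, lcs Q i⁆ ≤ lcs Q (i + i + 1) := comm_lcs _ _
  let T : Subgroup Q :=
    { carrier := {x | x ∈ lcs Q i ∧ x ^ p ∈ lcs Q (i + p)}
      one_mem' := ⟨one_mem _, by simp⟩
      mul_mem' := fun {x z} hx hz => ⟨mul_mem hx.1 hz.1, by
        have h := expand (lcs Q (i + p)) (lcs Q i)
          (by
            rw [show p - 1 = p - 2 + 1 by omega]
            refine (lcs_bound le_rfl hK (p - 2)).trans (lcs_mono_index ?_)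
            have : (p - 2) * 1 ≤ (p - 2) * (i + 1) := Nat.mul_le_mul le_rfl (by omega)
            omega)
          (fun w hw => by
            rw [Subgroup.lowerCentralSeries_succ, Subgroup.lowerCentralSeries_zero] at hw
            exact lcs_mono_index (by omega) (pow_mem m Q H (i + i + 1) (by omega) w (hK hw)))
          hx.1 hz.1
        have := mul_mem h (mul_mem hx.2 hz.2)
        rwa [inv_mul_cancel_right] at this⟩
      inv_mem' := fun {x} hx => ⟨inv_mem hx.1, by rw [inv_pow]; exact inv_mem hx.2⟩ }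
  have hle : lcs Q i ≤ T := MaxClassP.lcs_le_of_mem H.card hi (by omega)
    (fun z hz => ⟨lcs_mono_index (Nat.le_succ i) hz,
      lcs_mono_index (by omega) (pow_mem m Q H (i + 1) (by omega) z hz)⟩) ha ha' ⟨ha, hap⟩
  exact hbp (hle hb).2

/-- The bound for subgroups of the derived group. -/
theorem MC.card_inf_le (K U : Subgroup Q) (hU : ∀ x ∈ K, x ^ p ∈ U) (j : ℕ) (hj : 1 ≤ j) :
    Nat.card ↥(K ⊓ lcs Q j) ≤ p ^ (p - 1) * Nat.card ↥(U ⊓ lcs Q (j + p - 1)) := by
  have hp2 := hp.out.two_le
  induction hd : m - j generalizing j with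
  | zero =>
    calc Nat.card ↥(K ⊓ lcs Q j) ≤ Nat.card (lcs Q j) := card_le_of_le inf_le_right
      _ = 1 := by rw [H.bot (by omega), card_bot]
      _ ≤ _ := Nat.one_le_iff_ne_zero.2 (mul_ne_zero (pow_ne_zero _ hp.out.ne_zero) Nat.card_pos.ne')
  | succ i ihi =>
    rcases Nat.lt_or_ge (j + p - 1) m with hlt | hge
    swap
    · calc Nat.card ↥(K ⊓ lcs Q j) ≤ Nat.card (lcs Q j) := card_le_of_le inf_le_right
        _ = p ^ (m - j) := H.card j hj (by omega)
        _ ≤ p ^ (p - 1) := Nat.pow_le_pow_right hp.out.pos (by omega)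
        _ ≤ _ := Nat.le_mul_of_pos_right _ Nat.card_pos
    have h := ihi (j + 1) (by omega) (by omega)
    rw [show j + 1 + p - 1 = j + p by omega] at h
    have hUle : U ⊓ lcs Q (j + p) ≤ U ⊓ lcs Q (j + p - 1) :=
      inf_le_inf_left _ (lcs_mono_index (by omega))
    by_cases hsub : K ⊓ lcs Q j ≤ lcs Q (j + 1)
    · refine (card_le_of_le (le_inf inf_le_left hsub)).trans (h.trans ?_)
      exact Nat.mul_le_mul le_rfl (card_le_of_le hUle)
    · obtain ⟨a, ⟨haK, haj⟩, ha'⟩ := SetLike.not_le_iff_exists.1 hsub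
      have hap := H.pow_not_mem hj (by omega) haj ha'
      -- one step down on the left
      have h1 : Nat.card ↥(K ⊓ lcs Q j) ≤ p * Nat.card ↥(K ⊓ lcs Q (j + 1)) := by
        have h2 := ((lcs Q (j + 1)).subgroupOf (K ⊓ lcs Q j)).card_mul_index
        rw [← h2, mul_comm p]
        refine Nat.mul_le_mul ?_ ?_
        · rw [← inf_subgroupOf_right (lcs Q (j + 1)) (K ⊓ lcs Q j),
            Nat.card_congr (subgroupOfEquivOfLe inf_le_right).toEquiv]
          exact card_le_of_le (le_inf (inf_le_right.trans inf_le_left) inf_le_left)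
        · have h3 : (lcs Q (j + 1)).relIndex (lcs Q j) = p := by
            have h4 := relIndex_mul_relIndex ⊥ (lcs Q (j + 1)) (lcs Q j) bot_le
              (lcs_mono_index (Nat.le_succ j))
            rw [relIndex_bot_left, relIndex_bot_left, H.card (j + 1) (by omega) (by omega),
              H.card j hj (by omega), show m - j = (m - (j + 1)) + 1 by omega, pow_succ] at h4
            exact Nat.eq_of_mul_eq_mul_left (pow_pos hp.out.pos _) h4
          show (lcs Q (j + 1)).relIndex (K ⊓ lcs Q j) ≤ p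
          refine (relIndex_le_of_le_right inf_le_right ?_).trans_eq h3
          rw [h3]
          exact hp.out.ne_zero
      -- and on the right
      have h5 : p * Nat.card ↥(U ⊓ lcs Q (j + p)) ≤ Nat.card ↥(U ⊓ lcs Q (j + p - 1)) := by
        obtain ⟨c, hc⟩ := (H.isPGroup.to_subgroup (U ⊓ lcs Q (j + p))).exists_card_eq
        obtain ⟨e, he⟩ := (H.isPGroup.to_subgroup (U ⊓ lcs Q (j + p - 1))).exists_card_eq
        have hlt2 : Nat.card ↥(U ⊓ lcs Q (j + p)) < Nat.card ↥(U ⊓ lcs Q (j + p - 1)) := by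
          refine lt_of_le_of_ne (card_le_of_le hUle) fun heq => hap ?_
          have : a ^ p ∈ U ⊓ lcs Q (j + p - 1) := ⟨hU a haK, pow_mem m Q H j hj a haj⟩
          rw [← eq_of_le_of_card_ge hUle heq.ge] at this
          exact this.2
        rw [hc, he] at hlt2 ⊢
        rw [← pow_succ']
        exact Nat.pow_le_pow_right hp.out.pos
          ((Nat.pow_lt_pow_iff_right hp.out.one_lt).1 hlt2)
      calc Nat.card ↥(K ⊓ lcs Q j) ≤ p * Nat.card ↥(K ⊓ lcs Q (j + 1)) := h1
        _ ≤ p * (p ^ (p - 1) * Nat.card ↥(U ⊓ lcs Q (j + p))) := Nat.mul_le_mul le_rfl h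
        _ = p ^ (p - 1) * (p * Nat.card ↥(U ⊓ lcs Q (j + p))) := by ring
        _ ≤ _ := Nat.mul_le_mul le_rfl h5

end Cfsg.Agent.MaxClassPowers

namespace Cfsg.Agent.MaxClassPowers

open Cfsg.Agent.MaxClassP (lcs)

universe v

/-- A group of maximal class satisfies the hypotheses. -/
theorem MC.of_maxClass {p : ℕ} [hp : Fact p.Prime] {S : Type v} [Group S] [Finite S] {n : ℕ}
    (hn : 3 ≤ n) (hcard : Nat.card S = p ^ n) (hmax : Group.nilpotencyClass S = n - 1) :
    MC p S (n - 1) := by
  have hS : IsPGroup p S := IsPGroup.of_card hcard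
  haveI := hS.isNilpotent
  have hidx : (commutator S).index = p ^ 2 := H4.index_commutator_eq_sq hn hcard hmax
  have hL1 : lcs S 1 = commutator S := top_lowerCentralSeries_one
  have hcomm : Nat.card (commutator S) = p ^ (n - 2) := by
    refine Nat.eq_of_mul_eq_mul_right (pow_pos hp.out.pos 2) ?_
    rw [← pow_add, ← hidx, card_mul_index, hcard, Nat.sub_add_cancel (by omega : 2 ≤ n)]
  have hne : ∀ j, j ≤ n - 2 → lcs S j ≠ ⊥ := fun j hj h => by
    have := Subgroup.lowerCentralSeries_eq_bot_iff_nilpotencyClass_le.mp h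
    omega
  have hub : ∀ i, i + 1 ≤ n - 2 → Nat.card (lcs S (i + 1)) * p ^ i ≤ p ^ (n - 2) := fun i hi =>
    hcomm ▸ (H4.commutator_card_mul_le hS i).resolve_left (hne (i + 1) hi)
  have hlb : ∀ d j, 1 ≤ j → j + d = n - 1 → p ^ d ≤ Nat.card (lcs S j) := by
    intro d
    induction d with
    | zero => intro j _ _; rw [pow_zero]; exact Nat.card_pos
    | succ d ih =>
      intro j hj hjd
      have hlt2 : lcs S (j + 1) < lcs S j := by
        have := PGroup.commutator_top_lt hS (hne j (by omega))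
        rwa [← MaxClassP.lcs_succ] at this
      have h1 := ih (j + 1) (by omega) (by omega)
      obtain ⟨a, ha⟩ := (hS.to_subgroup (lcs S j)).exists_card_eq
      have h2 : Nat.card (lcs S (j + 1)) < Nat.card (lcs S j) :=
        Set.ncard_lt_ncard (SetLike.coe_ssubset_coe.mpr hlt2) (Set.toFinite _)
      rw [ha] at h2 ⊢
      exact Nat.pow_le_pow_right hp.out.pos
        ((Nat.pow_lt_pow_iff_right hp.out.one_lt).mp (h1.trans_lt h2))
  refine ⟨by omega, fun j hj hj' => le_antisymm ?_ (hlb (n - 1 - j) j hj (by omega)),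
    by rw [hcard, Nat.sub_add_cancel (by omega : 1 ≤ n)], fun g => ?_⟩
  · rcases Nat.lt_or_ge (n - 2) j with h | h
    · have hb : lcs S j = ⊥ := Subgroup.lowerCentralSeries_eq_bot_iff_nilpotencyClass_le.mpr (by omega)
      rw [hb, card_bot]
      exact Nat.one_le_pow _ _ hp.out.pos
    · obtain ⟨i, rfl⟩ := Nat.exists_eq_add_of_le' hj
      refine Nat.le_of_mul_le_mul_right ((hub i h).trans ?_) (pow_pos hp.out.pos i)
      rw [← pow_add]
      exact Nat.pow_le_pow_right hp.out.pos (by omega)
  · rw [hL1]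
    have hfr : frattini S ≤ commutator S := by
      obtain ⟨f, hf⟩ := hS.index (frattini S)
      have hf2 : 2 ≤ f := by
        by_contra hlt2
        have hcy : IsCyclic S := PGroup.isCyclic_of_index_frattini_le hS (by
          rw [hf]; exact (Nat.pow_le_pow_right hp.out.pos (show f ≤ 1 by omega)).trans (pow_one p).le)
        refine hne 1 (by omega) ?_
        rw [hL1, commutator_eq_bot_iff_center_eq_top, eq_top_iff]
        exact fun x _ => mem_center_iff.mpr fun y => hcy.isMulCommutative.is_comm.comm y x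
      refine (eq_of_le_of_card_ge (PGroup.commutator_le_frattini hS) ?_).ge
      refine Nat.le_of_mul_le_mul_right ?_ (pow_pos hp.out.pos 2)
      calc Nat.card (frattini S) * p ^ 2 ≤ Nat.card (frattini S) * (frattini S).index :=
            Nat.mul_le_mul le_rfl (hf ▸ Nat.pow_le_pow_right hp.out.pos hf2)
        _ = Nat.card (commutator S) * p ^ 2 := by rw [← hidx, card_mul_index, card_mul_index]
    refine hfr ?_
    rw [PGroup.frattini_eq_sup hS]
    exact mem_sup_right (subset_closure ⟨g, rfl⟩)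

/-- Subgroups of a group of maximal class have small index over their `p`-th powers. -/
theorem relIndex_powers_le {p : ℕ} [hp : Fact p.Prime] {S : Type v} [Group S] [Finite S] {n : ℕ}
    (hcard : Nat.card S = p ^ n) (hmax : Group.nilpotencyClass S = n - 1) (K : Subgroup S) :
    (Subgroup.closure {y : S | ∃ h ∈ K, y = h ^ p}).relIndex K ≤ p ^ p := by
  have hp2 := hp.out.two_le
  set U := Subgroup.closure {y : S | ∃ h ∈ K, y = h ^ p} with hU
  have hUK : U ≤ K := by
    rw [hU, closure_le]
    rintro _ ⟨h, hh, rfl⟩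
    exact Subgroup.pow_mem K hh p
  have hUmem : ∀ x ∈ K, x ^ p ∈ U := fun x hx => subset_closure ⟨x, hx, rfl⟩
  have hcardK : Nat.card U * U.relIndex K = Nat.card K := by
    have h := relIndex_mul_relIndex ⊥ U K bot_le hUK
    rwa [relIndex_bot_left, relIndex_bot_left] at h
  rcases Nat.lt_or_ge p n with hpn | hpn
  swap
  · calc U.relIndex K ≤ Nat.card K := Nat.le_of_dvd Nat.card_pos (relIndex_dvd_card U K)
      _ ≤ Nat.card S := Subgroup.card_le_card_group K
      _ ≤ p ^ p := hcard ▸ Nat.pow_le_pow_right hp.out.pos hpn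
  have H := MC.of_maxClass (by omega : 3 ≤ n) hcard hmax
  by_cases hK : K = ⊤
  · subst hK
    haveI : U.Normal := by
      refine ⟨fun x hx g => ?_⟩
      induction hx using Subgroup.closure_induction with
      | one => simp
      | mul y z _ _ ihy ihz =>
        have := mul_mem ihy ihz
        rwa [show g * y * g⁻¹ * (g * z * g⁻¹) = g * (y * z) * g⁻¹ by group] at this
      | inv y _ ihy =>
        have := inv_mem ihy
        rwa [show (g * y * g⁻¹)⁻¹ = g * y⁻¹ * g⁻¹ by group] at this
      | mem y hy =>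
        obtain ⟨h, -, rfl⟩ := hy
        rw [← conj_pow]
        exact hUmem _ (mem_top _)
    by_contra hlt
    rw [relIndex_top_right] at hlt
    obtain ⟨r, hr⟩ := H.isPGroup.index U
    have hrp : p < r := by
      by_contra hle
      exact hlt (hr ▸ Nat.pow_le_pow_right hp.out.pos (by omega))
    have hUr := (S0662.result n hcard hmax (by omega)).1 U r (by omega) hr
    have hUp : U ≤ lcs S p := hUr.le.trans (lcs_mono_index (by omega))
    refine (H.quotient (k := p) hp2 (by omega)).not_exponent rfl fun g => ?_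
    obtain ⟨g, rfl⟩ := QuotientGroup.mk_surjective g
    rw [← QuotientGroup.mk_pow, QuotientGroup.eq_one_iff]
    exact hUp (hUmem g (mem_top g))
  · have hsup : K ⊔ lcs S 1 ≠ ⊤ := fun e => hK (frattini_nongenerating (eq_top_iff.2 (e.ge.trans
      (sup_le le_sup_left (le_sup_of_le_right (Subgroup.top_lowerCentralSeries_one.le.trans
        (PGroup.commutator_le_frattini H.isPGroup)))))))
    have hrel : (lcs S 1).relIndex K ≤ p := by
      rw [← relIndex_sup_right (K := lcs S 1)]
      have h1 := relIndex_mul_index (le_sup_right : lcs S 1 ≤ K ⊔ lcs S 1)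
      obtain ⟨i, hi⟩ := H.isPGroup.index (K ⊔ lcs S 1)
      have h2 : p ≤ (K ⊔ lcs S 1).index := by
        rw [hi]
        refine Nat.le_self_pow (fun e => hsup (index_eq_one.1 (by rw [hi, e, pow_zero]))) p
      have hL1i : (lcs S 1).index = p ^ 2 := by
        have h := (lcs S 1).card_mul_index
        rw [H.card 1 le_rfl (by omega), H.top, show n - 1 + 1 = (n - 1 - 1) + 2 by omega, pow_add] at h
        exact Nat.eq_of_mul_eq_mul_left (pow_pos hp.out.pos _) h
      rw [hL1i, pow_two] at h1
      nlinarith [hp.out.pos]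
    refine Nat.le_of_mul_le_mul_left ?_ (Nat.card_pos (α := U))
    rw [hcardK]
    have h2 := ((lcs S 1).subgroupOf K).card_mul_index
    calc Nat.card K = Nat.card ((lcs S 1).subgroupOf K) * (lcs S 1).relIndex K := h2.symm
      _ ≤ Nat.card ↥(K ⊓ lcs S 1) * p := by
          refine Nat.mul_le_mul (le_of_eq ?_) hrel
          rw [← inf_subgroupOf_right (lcs S 1) K, Nat.card_congr (subgroupOfEquivOfLe inf_le_right).toEquiv,
            inf_comm]
      _ ≤ p ^ (p - 1) * Nat.card ↥(U ⊓ lcs S (1 + p - 1)) * p :=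
          Nat.mul_le_mul (H.card_inf_le K U hUmem 1 le_rfl) le_rfl
      _ ≤ p ^ (p - 1) * Nat.card U * p :=
          Nat.mul_le_mul (Nat.mul_le_mul le_rfl (card_le_of_le inf_le_left)) le_rfl
      _ = Nat.card U * (p ^ (p - 1) * p) := by ring
      _ = Nat.card U * p ^ p := by rw [← pow_succ, Nat.sub_add_cancel hp.out.one_le]

end Cfsg.Agent.MaxClassPowers
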