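import Cfsg.Agent.FGSev.TwoSizes
import Cfsg.Agent.Modules.Fixed
import Mathlib.GroupTheory.Nilpotent

/-!
# Groups with the class size frequencies of a nilpotent group (Cossey–Hawkes–Mann)
-/

set_option autoImplicit false

namespace Cfsg.Agent.ClassCount

open Subgroup

/-- A group is the disjoint union of its classes. -/
noncomputable def sigmaCarrier (K : Type*) [Group K] : (Σ C : ConjClasses K, C.carrier) ≃ K :=
  Equiv.ofBijective (fun z => (z.2 : K))
    ⟨by
      rintro ⟨C, g, hg⟩ ⟨D, g', hg'⟩ (e : g = g')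
      subst e
      obtain rfl : C = D := (ConjClasses.mem_carrier_iff_mk_eq.1 hg).symm.trans
        (ConjClasses.mem_carrier_iff_mk_eq.1 hg')
      rfl,
     fun g => ⟨⟨ConjClasses.mk g, g, ConjClasses.mem_carrier_mk⟩, rfl⟩⟩

/-- A size preserving bijection from equal class-size frequencies. -/
theorem exists_equiv_of_classCount {G H : Type*} [Group G] [Finite G] [Group H] [Finite H]
    (h : ∀ k : ℕ, Nat.card {C : ConjClasses G // Nat.card C.carrier = k} =
      Nat.card {C : ConjClasses H // Nat.card C.carrier = k}) :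
    ∃ Ψ : G ≃ H, ∀ g, (centralizer ({Ψ g} : Set H)).index = (centralizer ({g} : Set G)).index := by
  classical
  have ek := fun k => Finite.card_eq.1 (h k)
  let eC : ConjClasses G ≃ ConjClasses H := Equiv.ofFiberEquiv (f := fun C => Nat.card C.carrier)
    (g := fun C => Nat.card C.carrier) fun k => (ek k).some
  have heC : ∀ C, Nat.card (eC C).carrier = Nat.card C.carrier := fun C =>
    Equiv.ofFiberEquiv_map (f := fun C : ConjClasses G => Nat.card C.carrier)
      (g := fun C : ConjClasses H => Nat.card C.carrier) (fun k => (ek k).some) C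
  have ec : ∀ C : ConjClasses G, Nonempty (C.carrier ≃ (eC C).carrier) := fun C =>
    Finite.card_eq.1 (heC C).symm
  refine ⟨((sigmaCarrier G).symm.trans
    ((Equiv.sigmaCongr eC fun C => (ec C).some).trans (sigmaCarrier H))), fun g => ?_⟩
  obtain ⟨z, rfl⟩ := (sigmaCarrier G).surjective g
  obtain ⟨C, g, hg⟩ := z
  show (centralizer ({sigmaCarrier H ((Equiv.sigmaCongr eC fun C => (ec C).some)
    ((sigmaCarrier G).symm (sigmaCarrier G ⟨C, g, hg⟩)))} : Set H)).index = _
  rw [Equiv.symm_apply_apply, ← ClassSize.natCard_carrier, ← ClassSize.natCard_carrier]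
  show Nat.card (ConjClasses.mk (((ec C).some ⟨g, hg⟩ : (eC C).carrier) : H)).carrier =
    Nat.card (ConjClasses.mk g).carrier
  rw [ConjClasses.mem_carrier_iff_mk_eq.1 hg, ← heC C]
  exact congrArg (fun D : ConjClasses H => Nat.card D.carrier)
    (ConjClasses.mem_carrier_iff_mk_eq.1 ((ec C).some ⟨g, hg⟩).2)

variable {G : Type*} [Group G] [Finite G]

theorem not_dvd_index_of_sylow_le {q : ℕ} [Fact q.Prime] (Q : Sylow q G) {x : G}
    (hx : x ∈ centralizer ((Q : Subgroup G) : Set G)) : ¬ q ∣ (centralizer ({x} : Set G)).index := fun hd =>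
  Q.not_dvd_index (hd.trans (index_dvd_of_le fun a ha =>
    mem_centralizer_singleton_iff.2 (mem_centralizer_iff.1 hx a ha)))

theorem card_sylow_center (q : ℕ) [Fact q.Prime] (Z0 : Sylow q (center G)) :
    Nat.card ↥((Z0 : Subgroup (center G)).map (center G).subtype) =
      q ^ (Nat.card (center G)).factorization q := by
  rw [← Nat.card_congr ((Z0 : Subgroup (center G)).equivMapOfInjective _
    (center G).subtype_injective).toEquiv, Z0.card_eq_multiplicity]

theorem le_center_map (q : ℕ) [Fact q.Prime] (Z0 : Sylow q (center G)) :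
    (Z0 : Subgroup (center G)).map (center G).subtype ≤ center G := map_subtype_le _

/-- A `q`-element centralising a Sylow `q`-subgroup is central, if the count of elements with `q'`-class
has no more `q`-part than the centre. -/
theorem central_of_count {q : ℕ} [Fact q.Prime]
    (hcnt : ¬ q * q ^ (Nat.card (center G)).factorization q ∣
      Nat.card {x : G // ¬ q ∣ (centralizer ({x} : Set G)).index})
    {u : G} (hu : ∃ k, orderOf u = q ^ k) (hsize : ¬ q ∣ (centralizer ({u} : Set G)).index) :
    u ∈ center G := by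
  classical
  by_contra hnc
  apply hcnt
  obtain ⟨Z0⟩ : Nonempty (Sylow q (center G)) := inferInstance
  set N := (Z0 : Subgroup (center G)).map (center G).subtype with hN
  have hNc : N ≤ center G := map_subtype_le _
  haveI hNn : N.Normal := ⟨fun n hn g => by
    rwa [mem_center_iff.1 (hNc hn) g, mul_inv_cancel_right]⟩
  have hNp : IsPGroup q N := Z0.2.map _
  let π := QuotientGroup.mk' N
  obtain ⟨Q, hQ⟩ : ∃ Q : Sylow q G, (Q : Subgroup G) ≤ centralizer ({u} : Set G) := by
    obtain ⟨Q0⟩ : Nonempty (Sylow q ↥(centralizer ({u} : Set G))) := inferInstance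
    obtain ⟨Q1, hQ1⟩ := (Q0.2.map (centralizer ({u} : Set G)).subtype).exists_le_sylow
    refine ⟨Q1, ?_⟩
    have he : (Q0 : Subgroup _).map (centralizer ({u} : Set G)).subtype = Q1 :=
      eq_of_le_of_card_ge hQ1 (by
        rw [← Nat.card_congr ((Q0 : Subgroup _).equivMapOfInjective _
          (centralizer ({u} : Set G)).subtype_injective).toEquiv, Q0.card_eq_multiplicity,
          Q1.card_eq_multiplicity, ← (centralizer ({u} : Set G)).card_mul_index,
          Nat.factorization_mul Nat.card_pos.ne' index_ne_zero_of_finite, Finsupp.add_apply,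
          Nat.factorization_eq_zero_of_not_dvd hsize, add_zero])
    rw [← he]
    exact map_subtype_le _
  have huQ : u ∈ centralizer ((Q : Subgroup G) : Set G) :=
    mem_centralizer_iff.2 fun a ha => mem_centralizer_singleton_iff.1 (hQ ha)
  let S : Set G := {x | ¬ q ∣ (centralizer ({x} : Set G)).index}
  -- multiplication by central elements does not change the centraliser
  have hcz : ∀ x z : G, z ∈ center G → centralizer ({x * z} : Set G) = centralizer ({x} : Set G) := by
    intro x z hz
    ext a
    rw [mem_centralizer_singleton_iff, mem_centralizer_singleton_iff, ← mul_assoc, mul_assoc x z a,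
      ← mem_center_iff.1 hz a, ← mul_assoc, mul_left_inj]
  let Sbar : Set (G ⧸ N) := π '' S
  have hpre : ∀ x : G, π x ∈ Sbar → x ∈ S := by
    rintro x ⟨y, hy, hxy⟩
    have h1 : y⁻¹ * x ∈ N := QuotientGroup.eq.1 hxy
    show ¬ q ∣ (centralizer ({x} : Set G)).index
    rw [← mul_inv_cancel_left y x, hcz y _ (hNc h1)]
    exact hy
  have hcard : Nat.card S = Nat.card N * Nat.card Sbar := by
    rw [← Nat.card_congr (QuotientGroup.preimageMkEquivSubgroupProdSet N Sbar) |>.trans (Nat.card_prod _ _)]
    refine Nat.card_congr (Equiv.setCongr ?_)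
    ext x
    exact ⟨fun hx => ⟨x, hx, rfl⟩, hpre x⟩
  letI : MulAction ↥(Q : Subgroup G) ↥Sbar :=
    { smul := fun a s => ⟨π a * s.1 * (π a)⁻¹, by
        obtain ⟨_, x, hx, rfl⟩ := s
        refine ⟨(a : G) * x * (a : G)⁻¹, ?_, by simp⟩
        show ¬ q ∣ (centralizer ({(a : G) * x * (a : G)⁻¹} : Set G)).index
        rwa [ClassSize.index_centralizer_conj]⟩
      one_smul := fun s => Subtype.ext (show π ((1 : ↥(Q : Subgroup G)) : G) * s.1 * _ = s.1 by simp)
      mul_smul := fun a b s => Subtype.ext (show π ((a * b : ↥(Q : Subgroup G)) : G) * s.1 * _ =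
        π a * (π b * s.1 * (π b)⁻¹) * (π a)⁻¹ by simp [mul_assoc]) }
  have hmod := Q.2.card_modEq_card_fixedPoints ↥Sbar
  let C := (centralizer ((Q : Subgroup G) : Set G)).map π
  have hfix : Nat.card (MulAction.fixedPoints ↥(Q : Subgroup G) ↥Sbar) = Nat.card C := by
    refine Nat.card_congr
      { toFun := fun s => ⟨s.1.1, ?_⟩
        invFun := fun c => ⟨⟨c.1, ?_⟩, ?_⟩
        left_inv := fun _ => rfl
        right_inv := fun _ => rfl }
    · obtain ⟨⟨_, x, hx, rfl⟩, hs⟩ := s
      refine ⟨x, mem_centralizer_iff.2 fun a ha => ?_, rfl⟩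
      have h1 : π a * π x * (π a)⁻¹ = π x := congrArg Subtype.val (hs ⟨a, ha⟩)
      rw [← map_inv, ← map_mul, ← map_mul, eq_comm] at h1
      have hz : x⁻¹ * (a * x * a⁻¹) ∈ N := QuotientGroup.eq.1 h1
      by_contra hne
      set z := x⁻¹ * (a * x * a⁻¹) with hzdef
      have hz1 : z ≠ 1 := fun e => hne (by
        rw [hzdef, inv_mul_eq_one, eq_mul_inv_iff_mul_eq] at e; exact e.symm)
      -- `z` translates the class of `x` freely
      let K := (ConjClasses.mk x).carrier
      have hKz : ∀ y ∈ K, ∀ w ∈ zpowers z, w * y ∈ K := by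
        have hxz : IsConj x (z * x) := isConj_iff.2 ⟨a, by
          rw [← mem_center_iff.1 (hNc hz) x, hzdef, mul_inv_cancel_left]⟩
        have hstep : ∀ y, y ∈ K → z * y ∈ K := by
          intro y hy
          rw [ConjClasses.mem_carrier_iff_mk_eq, ConjClasses.mk_eq_mk_iff_isConj] at hy ⊢
          obtain ⟨g, hg⟩ := isConj_iff.1 hy.symm
          refine (hxz.trans (isConj_iff.2 ⟨g, ?_⟩)).symm
          rw [← hg, ← mul_assoc, mem_center_iff.1 (hNc hz) g]
          group
        intro y hy w hw
        rw [← mem_powers_iff_mem_zpowers] at hw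
        obtain ⟨i, rfl⟩ := hw
        show z ^ i * y ∈ K
        induction i with
        | zero => simpa using hy
        | succ i ih => rw [pow_succ', mul_assoc]; exact hstep _ ih
      letI : MulAction ↥(zpowers z) ↥K :=
        { smul := fun w y => ⟨w.1 * y.1, hKz y y.2 w w.2⟩
          one_smul := fun y => Subtype.ext (one_mul _)
          mul_smul := fun w w' y => Subtype.ext (mul_assoc _ _ _) }
      have hk := (hNp.to_le (zpowers_le.2 hz)).card_modEq_card_fixedPoints ↥K
      have hemp : IsEmpty (MulAction.fixedPoints ↥(zpowers z) ↥K) := ⟨fun y => hz1 (by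
        have h2 : z * (y.1 : G) = y.1 := congrArg Subtype.val (y.2 ⟨z, mem_zpowers z⟩)
        exact mul_eq_right.1 h2)⟩
      have h0 : Nat.card (MulAction.fixedPoints ↥(zpowers z) ↥K) = 0 := by
        haveI := hemp; exact Nat.card_of_isEmpty
      rw [h0, Nat.modEq_zero_iff_dvd] at hk
      exact hx ((ClassSize.natCard_carrier x) ▸ hk)
    · obtain ⟨_, x, hx, rfl⟩ := c
      exact ⟨x, not_dvd_index_of_sylow_le Q hx, rfl⟩
    · intro a
      obtain ⟨_, x, hx, rfl⟩ := c
      refine Subtype.ext (show π a * π x * (π a)⁻¹ = π x from ?_)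
      rw [← map_inv, ← map_mul, ← map_mul, mem_centralizer_iff.1 hx a a.2, mul_inv_cancel_right]
  have huC : q ∣ Nat.card C := by
    obtain ⟨k, hk⟩ := hu
    have h1 : orderOf (π u) ∣ q ^ k := hk ▸ orderOf_map_dvd π u
    obtain ⟨i, -, hi⟩ := (Nat.dvd_prime_pow Fact.out).1 h1
    have h2 := C.orderOf_dvd_natCard (⟨u, huQ, rfl⟩ : π u ∈ C)
    rw [hi] at h2
    refine (dvd_pow_self q ?_).trans h2
    rintro rfl
    rw [pow_zero, orderOf_eq_one_iff] at hi
    exact hnc (hNc ((QuotientGroup.eq_one_iff u).1 hi))
  rw [hfix] at hmod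
  have hq : q ∣ Nat.card Sbar :=
    Nat.modEq_zero_iff_dvd.1 (hmod.trans (Nat.modEq_zero_iff_dvd.2 huC))
  show _ ∣ Nat.card S
  rw [hcard, show Nat.card N = q ^ (Nat.card (center G)).factorization q from card_sylow_center q Z0, mul_comm q]
  exact Nat.mul_dvd_mul_left _ hq

theorem card_center_eq_card_index_one :
    Nat.card (center G) = Nat.card {x : G // (centralizer ({x} : Set G)).index = 1} :=
  Nat.card_congr (Equiv.subtypeEquivRight fun x => (ClassSize.index_centralizer_eq_one_iff x).symm)

/-- The class-size frequencies determine nilpotency. -/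
theorem isNilpotent_of_equiv {H : Type*} [Group H] [Finite H] (hH : Group.IsNilpotent H) (Ψ : G ≃ H)
    (hΨ : ∀ g, (centralizer ({Ψ g} : Set H)).index = (centralizer ({g} : Set G)).index) :
    Group.IsNilpotent G := by
  classical
  have hsub : ∀ P : ℕ → Prop, Nat.card {x : G // P (centralizer ({x} : Set G)).index} =
      Nat.card {y : H // P (centralizer ({y} : Set H)).index} := fun P =>
    Nat.card_congr (Ψ.subtypeEquiv fun g => by rw [hΨ])
  have hZ : Nat.card (center G) = Nat.card (center H) := by
    rw [card_center_eq_card_index_one, card_center_eq_card_index_one, hsub fun k => k = 1]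
  have hcard : Nat.card G = Nat.card H := Nat.card_congr Ψ
  have hsyl : ∀ (q : ℕ) [Fact q.Prime] (Q : Sylow q H), (Q : Subgroup H).Normal := fun q hq Q =>
    ((Group.isNilpotent_of_finite_tfae (G := H)).out 0 3 rfl rfl).1 hH q hq Q
  -- in `H`, the centre of a Sylow subgroup is central
  have hzH : ∀ (q : ℕ) [Fact q.Prime] (Q : Sylow q H) (a : H), a ∈ (Q : Subgroup H) →
      a ∈ centralizer ((Q : Subgroup H) : Set H) → a ∈ center H := by
    intro q _ Q a ha haC
    by_contra hac
    obtain ⟨g, hg⟩ := not_forall.1 (fun h => hac (mem_center_iff.2 h))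
    have hle : closure {g : H | ∃ r k : ℕ, r.Prime ∧ orderOf g = r ^ k} ≤ centralizer ({a} : Set H) := by
      rw [closure_le]
      rintro b ⟨r, k, hr, hk⟩
      haveI := Fact.mk hr
      apply mem_centralizer_singleton_iff.2
      obtain ⟨R, hR⟩ := FGSev.pElem_exists_sylow (p := r) ⟨k, hk⟩
      by_cases hrq : r = q
      · subst hrq
        haveI := hsyl r Q
        haveI := Sylow.unique_of_normal Q this
        exact mem_centralizer_iff.1 haC b (Subsingleton.elim R Q ▸ hR)
      · exact (commute_of_normal_of_disjoint _ _ (hsyl r R) (hsyl q Q)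
          (IsPGroup.disjoint_of_ne _ _ hrq _ _ R.2 Q.2) b a hR ha).eq
    rw [Element.closure_primePow_orderOf] at hle
    exact hg (mem_centralizer_singleton_iff.1 (hle (mem_top g)))
  have hcnt : ∀ (q : ℕ) [Fact q.Prime], ¬ q * q ^ (Nat.card (center G)).factorization q ∣
      Nat.card {x : G // ¬ q ∣ (centralizer ({x} : Set G)).index} := by
    intro q _ hd
    rw [hsub fun k => ¬ q ∣ k, hZ] at hd
    obtain ⟨Q⟩ : Nonempty (Sylow q H) := inferInstance
    haveI := hsyl q Q
    haveI hu := Sylow.unique_of_normal Q this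
    have hset : Nat.card {y : H // ¬ q ∣ (centralizer ({y} : Set H)).index} =
        Nat.card (centralizer ((Q : Subgroup H) : Set H)) := by
      refine Nat.card_congr (Equiv.subtypeEquivRight fun y =>
        ⟨fun hy => mem_centralizer_iff.2 fun a ha => ?_, fun hy => not_dvd_index_of_sylow_le Q hy⟩)
      obtain ⟨R⟩ : Nonempty (Sylow q ↥(centralizer ({y} : Set H))) := inferInstance
      obtain ⟨R1, hR1⟩ := (R.2.map (centralizer ({y} : Set H)).subtype).exists_le_sylow
      have he : (R : Subgroup _).map (centralizer ({y} : Set H)).subtype = R1 :=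
        eq_of_le_of_card_ge hR1 (by
          rw [← Nat.card_congr ((R : Subgroup _).equivMapOfInjective _
            (centralizer ({y} : Set H)).subtype_injective).toEquiv, R.card_eq_multiplicity,
            R1.card_eq_multiplicity, ← (centralizer ({y} : Set H)).card_mul_index,
            Nat.factorization_mul Nat.card_pos.ne' index_ne_zero_of_finite, Finsupp.add_apply,
            Nat.factorization_eq_zero_of_not_dvd hy, add_zero])
      exact mem_centralizer_singleton_iff.1 (map_subtype_le _ (he.symm ▸ (Subsingleton.elim Q R1 ▸ ha)))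
    rw [hset] at hd
    obtain ⟨R⟩ : Nonempty (Sylow q ↥(centralizer ((Q : Subgroup H) : Set H))) := inferInstance
    have hR : (R : Subgroup _).map (centralizer ((Q : Subgroup H) : Set H)).subtype ≤ center H := by
      intro a ha
      obtain ⟨R1, hR1⟩ := (R.2.map (centralizer ((Q : Subgroup H) : Set H)).subtype).exists_le_sylow
      exact hzH q Q a (Subsingleton.elim R1 Q ▸ hR1 ha) (map_subtype_le _ ha)
    have h1 := card_dvd_of_le hR
    rw [← Nat.card_congr ((R : Subgroup _).equivMapOfInjective _
      (centralizer ((Q : Subgroup H) : Set H)).subtype_injective).toEquiv, R.card_eq_multiplicity,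
      (Fact.out : q.Prime).pow_dvd_iff_le_factorization Nat.card_pos.ne'] at h1
    rw [mul_comm, ← pow_succ, (Fact.out : q.Prime).pow_dvd_iff_le_factorization Nat.card_pos.ne'] at hd
    omega
  refine ((Group.isNilpotent_of_finite_tfae (G := G)).out 0 3 rfl rfl).2 ?_
  intro p hp P
  -- elements of `p`-power class size
  set K := (P : Subgroup G).normalCore with hK
  have hin : ∀ x : G, (∃ k, (centralizer ({x} : Set G)).index = p ^ k) → x ∈ K ⊔ center G := by
    rintro x ⟨k, hk⟩
    rw [← Element.pPart_mul_pComplPart p x]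
    have hi : ∀ w ∈ zpowers x, ∃ i, (centralizer ({w} : Set G)).index = p ^ i := fun w hw => by
      obtain ⟨i, -, hi⟩ := (Nat.dvd_prime_pow hp.out).1 (hk ▸ ClassSize.index_centralizer_dvd_of_mem_zpowers hw)
      exact ⟨i, hi⟩
    refine mul_mem (mem_sup_left ?_) (mem_sup_right ?_)
    · -- the `p`-part lies in every Sylow subgroup
      obtain ⟨i, hi⟩ := hi _ (Element.pPart_mem_zpowers p x)
      intro g
      obtain ⟨Q, hQ⟩ := FGSev.pElem_exists_sylow (p := p) ⟨_, Element.orderOf_pPart_eq_pow hp.out x⟩
      obtain ⟨y, hy⟩ := FGSev.sylow_exists_conj P Q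
      have hcop : ((Q : Subgroup G).index).Coprime (centralizer ({Element.pPart p x} : Set G)).index := by
        rw [hi]; exact (Nat.Coprime.pow_left i (hp.out.coprime_iff_not_dvd.2 Q.not_dvd_index)).symm
      obtain ⟨a, ha, c, hc, hac⟩ := ClassSize.mul_eq_univ_of_coprime_index hcop (y * g)
      have h1 : (y * g) * Element.pPart p x * (y * g)⁻¹ ∈ (Q : Subgroup G) := by
        rw [← hac]
        show a * c * Element.pPart p x * (a * c)⁻¹ ∈ _
        have hcu := mem_centralizer_singleton_iff.1 hc
        have : a * c * Element.pPart p x * (a * c)⁻¹ = a * Element.pPart p x * a⁻¹ := by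
          rw [mul_assoc a c, hcu]; group
        rw [this]
        exact mul_mem (mul_mem ha hQ) (inv_mem ha)
      have h2 := (hy _).1 h1
      simpa [mul_assoc] using h2
    · -- the `p'`-part is central
      by_contra hnc
      obtain ⟨w, hw, hwc, q, j, hq, hj⟩ := FGSev.exists_noncentral_primePow hnc
      haveI := Fact.mk hq
      have hwx : w ∈ zpowers x := zpowers_le.2 (Element.pComplPart_mem_zpowers p x) hw
      obtain ⟨i, hi⟩ := hi w hwx
      refine hwc (central_of_count (hcnt q) ⟨j, hj⟩ ?_)
      rw [hi]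
      intro hd
      have hqp := (Nat.prime_dvd_prime_iff_eq hq hp.out).1 (hq.dvd_of_dvd_pow hd)
      subst hqp
      have h1 : orderOf w ∣ orderOf (Element.pComplPart q x) := orderOf_dvd_of_mem_zpowers hw
      rw [hj] at h1
      have hj0 : j = 0 := by
        by_contra hj0
        exact hq.coprime_iff_not_dvd.1 (Element.coprime_orderOf_pComplPart hq x).symm ((dvd_pow_self q hj0).trans h1)
      rw [hj0, pow_zero, orderOf_eq_one_iff] at hj
      exact hwc (hj ▸ one_mem _)
  -- compare with `H`
  obtain ⟨PH⟩ : Nonempty (Sylow p H) := inferInstance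
  have hle : Nat.card ↥((PH : Subgroup H) ⊔ center H) ≤ Nat.card ↥(K ⊔ center G) := by
    calc Nat.card ↥((PH : Subgroup H) ⊔ center H)
        ≤ Nat.card {y : H // ∃ k, (centralizer ({y} : Set H)).index = p ^ k} := by
          refine Nat.card_mono (Set.toFinite {y : H | ∃ k, (centralizer ({y} : Set H)).index = p ^ k}) ?_
          intro y hy
          rw [SetLike.mem_coe, mem_sup_of_normal_right] at hy
          obtain ⟨a, ha, z, hz, rfl⟩ := hy
          have hc : centralizer ({a} : Set H) ≤ centralizer ({a * z} : Set H) := fun g hg => by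
            rw [mem_centralizer_singleton_iff] at hg ⊢
            rw [← mul_assoc, hg, mul_assoc, mem_center_iff.1 hz g, ← mul_assoc]
          obtain ⟨k, hk⟩ : ∃ k, (centralizer ({a} : Set H)).index = p ^ k := by
            refine ⟨_, Nat.eq_prime_pow_of_unique_prime_dvd index_ne_zero_of_finite ?_⟩
            intro r hr hrd
            haveI := Fact.mk hr
            by_contra hrp
            obtain ⟨R⟩ : Nonempty (Sylow r H) := inferInstance
            refine not_dvd_index_of_sylow_le R (mem_centralizer_iff.2 fun b hb => ?_) hrd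
            exact (commute_of_normal_of_disjoint _ _ (hsyl r R) (hsyl p PH)
              (IsPGroup.disjoint_of_ne _ _ hrp _ _ R.2 PH.2) b a hb ha).eq
          obtain ⟨i, -, hi⟩ := (Nat.dvd_prime_pow hp.out).1 (hk ▸ index_dvd_of_le hc)
          exact ⟨i, hi⟩
      _ = Nat.card {x : G // ∃ k, (centralizer ({x} : Set G)).index = p ^ k} :=
          (hsub fun m => ∃ k, m = p ^ k).symm
      _ ≤ _ := Nat.card_mono (Set.toFinite (↑(K ⊔ center G) : Set G)) hin
  have hKP : K ≤ (P : Subgroup G) := normalCore_le _
  obtain ⟨Z0⟩ : Nonempty (Sylow p (center G)) := inferInstance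
  set N := (Z0 : Subgroup (center G)).map (center G).subtype with hN
  have hNc : N ≤ center G := map_subtype_le _
  have hinfG : p ^ (Nat.card (center G)).factorization p ≤ Nat.card ↥(K ⊓ center G) := by
    rw [← card_sylow_center p Z0]
    refine Nat.le_of_dvd Nat.card_pos (card_dvd_of_le (le_inf ?_ hNc))
    haveI : N.Normal := ⟨fun n hn g => by rwa [mem_center_iff.1 (hNc hn) g, mul_inv_cancel_right]⟩
    rw [hK, normal_le_normalCore]
    have hNp : IsPGroup p N := Z0.2.map _
    exact (P.is_maximal' (IsPGroup.to_sup_of_normal_left hNp P.2) le_sup_right) ▸ le_sup_left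
  have hinfH : Nat.card ↥((PH : Subgroup H) ⊓ center H) ≤ p ^ (Nat.card (center H)).factorization p := by
    obtain ⟨j, hj⟩ := IsPGroup.iff_card.mp (PH.2.to_le (inf_le_left : (PH : Subgroup H) ⊓ center H ≤ _))
    rw [hj]
    refine Nat.pow_le_pow_right hp.out.pos ((hp.out.pow_dvd_iff_le_factorization Nat.card_pos.ne').1 ?_)
    rw [← hj]
    exact card_dvd_of_le inf_le_right
  have e1 := Modules.card_sup_mul_card_inf (B := (PH : Subgroup H)) (V := center H)
    (by rw [normalizer_eq_top]; exact le_top)
  have e2 := Modules.card_sup_mul_card_inf (B := K) (V := center G) (by rw [normalizer_eq_top]; exact le_top)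
  rw [← hZ] at hinfH
  have h1 : Nat.card (PH : Subgroup H) * Nat.card (center G) ≤ Nat.card K * Nat.card (center G) := by
    conv_lhs => rw [hZ, ← e1]
    rw [← e2]
    exact Nat.mul_le_mul hle (hinfH.trans hinfG)
  have h2 := Nat.le_of_mul_le_mul_right h1 Nat.card_pos
  rw [PH.card_eq_multiplicity, ← hcard, ← P.card_eq_multiplicity] at h2
  have hPK : K = (P : Subgroup G) := eq_of_le_of_card_ge hKP h2
  rw [← hPK]
  exact normalCore_normal _

end Cfsg.Agent.ClassCount
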