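import Cfsg.Agent.Lib.ClassSize
import Cfsg.Agent.Lib.Element
import Cfsg.Agent.Lib.SubgroupCount
import Cfsg.Agent.Lib.FrobeniusGroup
import Cfsg.Agent.ClassCount.PiCoset
import Cfsg.Agent.Coprime.Generation
import Cfsg.Agent.FGSev.Nilpotent

/-!
# Groups whose two largest class sizes are coprime
-/

set_option autoImplicit false

namespace Cfsg.Agent.TwoLargest

open Subgroup
open scoped Pointwise IsMulCommutative

variable {G : Type*} [Group G]

/-- The class size. -/
noncomputable abbrev cls (g : G) : ℕ := (centralizer ({g} : Set G)).index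

/-- Every prime divisor of the order divides `n`. -/
def IsPi (n : ℕ) (g : G) : Prop := ∀ q : ℕ, q.Prime → q ∣ orderOf g → q ∣ n

theorem IsPi.coprime {n k : ℕ} {g : G} (h : IsPi n g) (hk : k.Coprime n) : (orderOf g).Coprime k :=
  Nat.coprime_of_dvd fun q hq h1 h2 => hq.ne_one (Nat.eq_one_of_dvd_coprimes hk h2 (h q hq h1))

theorem IsPi.of_dvd {n : ℕ} {g u : G} (h : IsPi n g) (hd : orderOf u ∣ orderOf g) : IsPi n u :=
  fun q hq hq' => h q hq (hq'.trans hd)

theorem IsPi.of_mem_zpowers {n : ℕ} {g u : G} (h : IsPi n g) (hu : u ∈ zpowers g) : IsPi n u :=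
  h.of_dvd (orderOf_dvd_of_mem_zpowers hu)

theorem commute_conj_iff (a b : G) : Commute a b ↔ a * b * a⁻¹ = b :=
  ⟨fun h => by rw [h.eq, mul_inv_cancel_right], fun h => mul_inv_eq_iff_eq_mul.1 h⟩

theorem mem_cent {a b : G} : a ∈ centralizer ({b} : Set G) ↔ Commute a b :=
  mem_centralizer_singleton_iff

theorem center_le_cent (a : G) : center G ≤ centralizer ({a} : Set G) := center_le_centralizer _

theorem mem_center_of_le {a : G} (h : (⊤ : Subgroup G) ≤ centralizer ({a} : Set G)) : a ∈ center G :=
  mem_center_iff.2 fun g => mem_cent.1 (h (mem_top g))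

variable [Finite G]

theorem exists_split (n : ℕ) (g : G) :
    ∃ e f : G, e ∈ zpowers g ∧ f ∈ zpowers g ∧ e * f = g ∧ Commute e f ∧ IsPi n e ∧
      (orderOf f).Coprime n := by
  obtain ⟨e, f, h⟩ := ClassCount.exists_split {q | q ∣ n} (Nat.card G) Nat.card_pos.ne'
  obtain ⟨hs, hpi⟩ := h G fun g => pow_card_eq_one'
  refine ⟨g ^ e, g ^ f, npow_mem_zpowers _ _, npow_mem_zpowers _ _, hs.add g,
    ((Commute.refl g).pow_pow e f), fun q hq hd => (hpi (g ^ e)).1 (hs.mul g) q hq hd, ?_⟩
  refine Nat.coprime_of_dvd fun q hq h1 h2 => ?_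
  obtain ⟨y, hy, hyo⟩ := Element.exists_orderOf_eq_of_dvd (orderOf_pos (g ^ f)).ne' h1
  have hyf : y ^ f = 1 := (hpi y).2 fun r hr hrd => by
    rw [hyo] at hrd
    exact ((Nat.prime_dvd_prime_iff_eq hr hq).1 hrd) ▸ h2
  have hye : y ^ e = 1 := by
    rw [← orderOf_dvd_iff_pow_eq_one]
    exact (orderOf_dvd_of_mem_zpowers hy).trans (orderOf_dvd_of_pow_eq_one (hs.mul' g))
  have : y = 1 := by rw [← hs.add y, hye, hyf, one_mul]
  rw [this, orderOf_one] at hyo
  exact hq.ne_one hyo.symm

theorem cls_pos (g : G) : 0 < cls g := Nat.pos_of_ne_zero index_ne_zero_of_finite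

theorem center_of_cls_eq_one {g : G} (h : cls g = 1) : g ∈ center G :=
  (ClassSize.index_centralizer_eq_one_iff g).1 h

/-- Normal subgroups of order coprime to the class size centralise the element. -/
theorem commute_of_coprime {T : Subgroup G} [T.Normal] {a : G}
    (h : (Nat.card T).Coprime (cls a)) {t : G} (ht : t ∈ T) : Commute t a := by
  have h1 : (centralizer ({a} : Set G)).relIndex T = 1 :=
    Nat.eq_one_of_dvd_coprimes h (Subgroup.index_dvd_card _)
      (ClassSize.relIndex_dvd_index_of_normal_left T _)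
  exact mem_cent.1 (Subgroup.relIndex_eq_one.1 h1 ht)

open Classical in
/-- The class, as a finite set. -/
noncomputable def clsSet (b : G) : Finset G := (Set.toFinite (conjugatesOf b)).toFinset

theorem mem_clsSet {b u : G} : u ∈ clsSet b ↔ IsConj b u := by simp [clsSet, conjugatesOf]

theorem card_clsSet (b : G) : (clsSet b).card = cls b := by
  rw [clsSet, ← Set.ncard_eq_toFinset_card]
  exact ClassSize.ncard_conjugatesOf b

open Classical in
/-- The left stabiliser of a class. -/
noncomputable def stabCls (b : G) : Subgroup G := MulAction.stabilizer G (clsSet b)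

theorem mem_stabCls {b s : G} : s ∈ stabCls b ↔ ∀ u, IsConj b u → IsConj b (s * u) := by
  classical
  rw [stabCls, MulAction.mem_stabilizer_iff]
  constructor
  · intro h u hu
    rw [← mem_clsSet] at hu ⊢
    rw [← h]
    exact Finset.smul_mem_smul_finset hu
  · intro h
    refine Finset.eq_of_subset_of_card_le (fun w hw => ?_) (by rw [Finset.card_smul_finset])
    obtain ⟨u, hu, rfl⟩ := Finset.mem_smul_finset.1 hw
    exact mem_clsSet.2 (h u (mem_clsSet.1 hu))

instance stabCls_normal (b : G) : (stabCls b).Normal := by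
  refine ⟨fun s hs g => mem_stabCls.2 fun u hu => ?_⟩
  have h1 := mem_stabCls.1 hs (g⁻¹ * u * g) (hu.trans (isConj_iff.2 ⟨g⁻¹, by group⟩))
  refine h1.trans (isConj_iff.2 ⟨g, by group⟩)

theorem card_stabCls (b : G) : Nat.card (stabCls b) ∣ cls b := by
  classical
  rw [← card_clsSet]
  exact SubgroupCount.card_stabilizer_dvd (clsSet b)

/-- When the product class is no bigger, differences of conjugates stabilise the class. -/
theorem comm_mem_stab {a b : G} (hcop : (cls a).Coprime (cls b)) (hle : cls (a * b) ≤ cls b)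
    (g : G) : a⁻¹ * (g * a * g⁻¹) ∈ stabCls b := by
  classical
  have key : ∀ a', IsConj a a' → (clsSet b).image (a' * ·) = clsSet (a * b) := by
    intro a' ha'
    refine Finset.eq_of_subset_of_card_le (fun w hw => ?_) ?_
    · obtain ⟨u, hu, rfl⟩ := Finset.mem_image.1 hw
      exact mem_clsSet.2 (ClassSize.isConj_mul_of_coprime_index hcop ha' (mem_clsSet.1 hu))
    · rw [Finset.card_image_of_injective _ (mul_right_injective a'), card_clsSet, card_clsSet]
      exact hle
  refine mem_stabCls.2 fun u hu => ?_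
  have h1 : g * a * g⁻¹ * u ∈ (clsSet b).image (a * ·) := by
    rw [key a (IsConj.refl a), ← key _ (isConj_iff.2 ⟨g, rfl⟩)]
    exact Finset.mem_image_of_mem _ (mem_clsSet.2 hu)
  obtain ⟨w, hw, he⟩ := Finset.mem_image.1 h1
  rw [show a⁻¹ * (g * a * g⁻¹) * u = w by rw [mul_assoc, ← he, inv_mul_cancel_left]]
  exact mem_clsSet.1 hw

/-- An element commuting with all its differences, of coprime orders, is central. -/
theorem center_of_diff {a : G} {T : Subgroup G} (hT : ∀ g : G, a⁻¹ * (g * a * g⁻¹) ∈ T)
    (hc : ∀ t ∈ T, Commute t a) (hcop : (orderOf a).Coprime (Nat.card T)) : a ∈ center G := by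
  refine mem_center_iff.2 fun g => ?_
  set l := a⁻¹ * (g * a * g⁻¹) with hl
  have h1 : l ^ orderOf a = 1 := by
    have e : g * a * g⁻¹ = a * l := by rw [hl, mul_inv_cancel_left]
    have h2 : (g * a * g⁻¹) ^ orderOf a = 1 := by
      rw [conj_pow, pow_orderOf_eq_one]; group
    rwa [e, ((hc l (hT g)).symm).mul_pow, pow_orderOf_eq_one, one_mul] at h2
  have : l = 1 := by
    rw [← orderOf_eq_one_iff]
    exact Nat.eq_one_of_dvd_coprimes hcop (orderOf_dvd_of_pow_eq_one h1)
      (Subgroup.orderOf_dvd_natCard T (hT g))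
  rw [hl, inv_mul_eq_one] at this
  exact mul_inv_eq_iff_eq_mul.1 this.symm

theorem cent_eq_of_le {a b : G} (h : centralizer ({a} : Set G) ≤ centralizer {b})
    (he : cls b = cls a) : centralizer ({a} : Set G) = centralizer {b} := by
  refine Subgroup.eq_of_le_of_card_ge h (le_of_eq ?_)
  refine Nat.eq_of_mul_eq_mul_right (cls_pos a) ?_
  conv_lhs => rw [← he]
  rw [card_mul_index, card_mul_index]

/-- The hypotheses. -/
structure Hyp (G : Type*) [Group G] (m n : ℕ) : Prop where
  lt : n < m
  one_lt : 1 < n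
  cop : m.Coprime n
  top : ∀ z : G, cls z ≤ m
  second : ∀ z : G, cls z < m → cls z ≤ n

variable {m n : ℕ} (H : Hyp G m n)
include H

theorem Hyp.step_top {w v : G} (hc : Commute w v) (hcop : (orderOf w).Coprime (orderOf v))
    (hv : cls v = m) : centralizer ({v} : Set G) ≤ centralizer {w} := by
  have he := Element.centralizer_mul_of_coprime hc hcop
  have hle : centralizer ({w * v} : Set G) ≤ centralizer {v} := he ▸ inf_le_right
  have heq := cent_eq_of_le hle (le_antisymm
    (Nat.le_of_dvd (cls_pos _) (index_dvd_of_le hle)) (hv ▸ H.top _))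
  rw [← heq, he]
  exact inf_le_left

theorem Hyp.step_second {w v : G} (hc : Commute w v) (hcop : (orderOf w).Coprime (orderOf v))
    (hv : cls v = n) : centralizer ({v} : Set G) ≤ centralizer {w} := by
  have he := Element.centralizer_mul_of_coprime hc hcop
  have hle : centralizer ({w * v} : Set G) ≤ centralizer {v} := he ▸ inf_le_right
  have hd : n ∣ cls (w * v) := hv ▸ index_dvd_of_le hle
  have hlt : cls (w * v) < m := lt_of_le_of_ne (H.top _) fun e => by
    have := Nat.eq_one_of_dvd_coprimes H.cop (e ▸ hd) dvd_rfl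
    linarith [H.one_lt]
  have heq := cent_eq_of_le hle (le_antisymm
    (Nat.le_of_dvd (cls_pos _) (index_dvd_of_le hle)) (hv ▸ H.second _ hlt))
  rw [← heq, he]
  exact inf_le_left

/-- Elements whose class size is prime to `m`. -/
theorem Hyp.diff_mem {a y : G} (hy : cls y = m) (ha : (cls a).Coprime m) (g : G) :
    a⁻¹ * (g * a * g⁻¹) ∈ stabCls y :=
  comm_mem_stab (hy ▸ ha) (hy ▸ H.top _) g

theorem Hyp.coprime_stab {y : G} (hy : cls y = m) : (Nat.card (stabCls y)).Coprime n :=
  Nat.Coprime.coprime_dvd_left (hy ▸ card_stabCls y) H.cop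

theorem Hyp.commute_stab {a y : G} (hy : cls y = m) (ha : (cls a).Coprime m) {s : G}
    (hs : s ∈ stabCls y) : Commute s a :=
  commute_of_coprime (Nat.Coprime.coprime_dvd_left (hy ▸ card_stabCls y) ha.symm) hs

/-- π-elements with class size dividing `n` are central. -/
theorem Hyp.center_of_dvd_second {a y : G} (hy : cls y = m) (ha : cls a ∣ n) (hpi : IsPi n a) :
    a ∈ center G :=
  have hcop : (cls a).Coprime m := Nat.Coprime.coprime_dvd_left ha H.cop.symm
  center_of_diff (H.diff_mem hy hcop) (fun _ ht => H.commute_stab hy hcop ht)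
    (hpi.coprime (H.coprime_stab hy))

/-- Class sizes dividing `m` are 1 or `m`. -/
theorem Hyp.center_of_dvd_top {a x y : G} (hx : cls x = n) (hy : cls y = m)
    (hxo : (orderOf x).Coprime n) (ha : cls a ∣ m) (hne : cls a ≠ m) : a ∈ center G := by
  have hmpos : 0 < m := by linarith [H.lt]
  have hT : ∀ b : G, cls b ∣ m → cls b ≠ m → cls (b * x) ≤ n ∧
      ∀ g, b⁻¹ * (g * b * g⁻¹) ∈ stabCls x := by
    intro b hb hbm
    have hcop : (cls b).Coprime (cls x) := hx ▸ Nat.Coprime.coprime_dvd_left hb H.cop
    obtain ⟨u, hu, v, hv, -⟩ := ClassSize.mul_eq_univ_of_coprime_index hcop 1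
    have hle : centralizer ({b} : Set G) ⊓ centralizer {x} ≤ centralizer {b * x} := fun g hg =>
      mem_cent.2 ((mem_cent.1 hg.1).mul_right (mem_cent.1 hg.2))
    have hidx : (centralizer ({b} : Set G) ⊓ centralizer {x}).index ∣ cls b * n := by
      have h1 : cls b * n ∣ (centralizer ({b} : Set G) ⊓ centralizer {x}).index := by
        rw [← hx]
        exact hcop.mul_dvd_of_dvd_of_dvd (index_dvd_of_le inf_le_left) (index_dvd_of_le inf_le_right)
      have h2 := Subgroup.index_inf_le (H := centralizer ({b} : Set G)) (K := centralizer {x})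
      rw [show (centralizer ({x} : Set G)).index = n from hx] at h2
      rw [le_antisymm h2 (Nat.le_of_dvd (Nat.pos_of_ne_zero index_ne_zero_of_finite) h1)]
    have hd : cls (b * x) ∣ cls b * n := (index_dvd_of_le hle).trans hidx
    have hlt : cls (b * x) < m := lt_of_le_of_ne (H.top _) fun e => hbm
      (le_antisymm (Nat.le_of_dvd hmpos hb)
        (Nat.le_of_dvd (cls_pos b) (H.cop.dvd_of_dvd_mul_right (e ▸ hd))))
    exact ⟨H.second _ hlt, comm_mem_stab hcop (hx ▸ H.second _ hlt)⟩
  have hTn : Nat.card (stabCls x) ∣ n := hx ▸ card_stabCls x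
  obtain ⟨e, f, hea, hfa, hef, -, hepi, hfcop⟩ := exists_split n a
  have hpart : ∀ b ∈ zpowers a, cls b ∣ m ∧ cls b ≠ m := fun b hb => by
    have hd := ClassSize.index_centralizer_dvd_of_mem_zpowers hb
    refine ⟨hd.trans ha, fun he => hne (Nat.dvd_antisymm ha (he ▸ hd))⟩
  have hcT : ∀ b, cls b ∣ m → ∀ t ∈ stabCls x, Commute t b := fun b hb t ht =>
    commute_of_coprime (Nat.Coprime.coprime_dvd_left hTn (Nat.Coprime.coprime_dvd_right hb H.cop.symm)) ht
  have hf : f ∈ center G := center_of_diff (hT f (hpart f hfa).1 (hpart f hfa).2).2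
    (hcT f (hpart f hfa).1) (hfcop.coprime_dvd_right hTn)
  have he : e ∈ center G := by
    obtain ⟨hed, hem⟩ := hpart e hea
    obtain ⟨hle, hdiff⟩ := hT e hed hem
    have hcomm : Commute e x := by
      have hxS := H.diff_mem hy (hx ▸ H.cop.symm : (cls x).Coprime m)
      have h1 : e * x * e⁻¹ * x⁻¹ ∈ stabCls y := by
        have h := (stabCls_normal y).conj_mem _ (hxS e) x
        simpa [mul_assoc] using h
      have h2 : e * x * e⁻¹ * x⁻¹ ∈ stabCls x := by
        have h := (stabCls_normal x).conj_mem _ ((stabCls x).inv_mem (hdiff x)) e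
        simpa [mul_assoc] using h
      have h3 : e * x * e⁻¹ * x⁻¹ = 1 := by
        rw [← orderOf_eq_one_iff]
        exact Nat.eq_one_of_dvd_coprimes (H.coprime_stab hy) (Subgroup.orderOf_dvd_natCard _ h1)
          ((Subgroup.orderOf_dvd_natCard _ h2).trans hTn)
      exact (commute_conj_iff e x).2 (mul_inv_eq_one.1 h3)
    have hcent := Element.centralizer_mul_of_coprime hcomm (hepi.coprime hxo)
    have h1 : cls e * n ∣ cls (e * x) := by
      show cls e * n ∣ (centralizer ({e * x} : Set G)).index
      rw [hcent, ← hx]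
      exact (hx ▸ Nat.Coprime.coprime_dvd_left hed H.cop : (cls e).Coprime (cls x)).mul_dvd_of_dvd_of_dvd
        (index_dvd_of_le inf_le_left) (index_dvd_of_le inf_le_right)
    refine center_of_cls_eq_one ?_
    have := Nat.le_of_dvd (cls_pos _) h1
    have := cls_pos e
    have := H.one_lt
    nlinarith
  rw [← hef]
  exact mul_mem he hf

/-- A good pair: `x` of class `n` is a π'-element, `y` of class `m` is a π-element. -/
structure Hyp.Pair (H : Hyp G m n) (x y : G) : Prop where
  hx : cls x = n
  hy : cls y = m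
  hxo : (orderOf x).Coprime n
  hyo : IsPi n y

variable {x y : G}

theorem Hyp.cop_x (P : H.Pair x y) : (cls x).Coprime m := P.hx ▸ H.cop.symm

/-- The centralisers meet in the centre. -/
theorem Hyp.inf_eq_center (P : H.Pair x y) :
    centralizer ({x} : Set G) ⊓ centralizer {y} = center G := by
  refine le_antisymm (fun d hd => ?_) (le_inf (center_le_cent x) (center_le_cent y))
  obtain ⟨hdx, hdy⟩ := hd
  replace hdx := mem_cent.1 hdx
  replace hdy := mem_cent.1 hdy
  obtain ⟨e, f, he, hf, hef, -, hepi, hfcop⟩ := exists_split n d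
  have hpc : ∀ {u w : G}, u ∈ zpowers d → Commute d w → Commute u w := fun {u w} hu hw => by
    obtain ⟨k, rfl⟩ := hu
    exact hw.zpow_left k
  rw [← hef]
  refine mul_mem ?_ ?_
  · have h1 := H.step_second (hpc he hdx) (hepi.coprime P.hxo) P.hx
    exact H.center_of_dvd_second P.hy (P.hx ▸ index_dvd_of_le h1) hepi
  · by_contra hcen
    have h1 := H.step_top (hpc hf hdy) (P.hyo.coprime hfcop).symm P.hy
    have h2 : cls f = m := by
      by_contra hne
      exact hcen (H.center_of_dvd_top P.hx P.hy P.hxo (P.hy ▸ index_dvd_of_le h1) hne)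
    have h3 := cent_eq_of_le h1 (h2.trans P.hy.symm)
    have hxy : Commute x y :=
      mem_cent.1 (h3 ▸ mem_cent.2 (hpc hf hdx).symm : x ∈ centralizer ({y} : Set G))
    have h4 := index_dvd_of_le (H.step_top hxy (P.hyo.coprime P.hxo).symm P.hy)
    rw [show (centralizer ({x} : Set G)).index = n from P.hx,
      show (centralizer ({y} : Set G)).index = m from P.hy] at h4
    have := Nat.eq_one_of_dvd_coprimes H.cop h4 dvd_rfl
    linarith [H.one_lt]

theorem Hyp.index_center (P : H.Pair x y) : (center G).index = n * m := by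
  rw [← H.inf_eq_center P]
  refine le_antisymm ?_ ?_
  · have h := Subgroup.index_inf_le (H := centralizer ({x} : Set G)) (K := centralizer {y})
    rwa [show (centralizer ({x} : Set G)).index = n from P.hx,
      show (centralizer ({y} : Set G)).index = m from P.hy] at h
  · refine Nat.le_of_dvd (Nat.pos_of_ne_zero index_ne_zero_of_finite) ?_
    exact H.cop.symm.mul_dvd_of_dvd_of_dvd (P.hx ▸ index_dvd_of_le inf_le_left)
      (P.hy ▸ index_dvd_of_le inf_le_right)

theorem Hyp.relIndex_y (P : H.Pair x y) : (center G).relIndex (centralizer {y}) = n := by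
  have h := Subgroup.relIndex_mul_index (center_le_cent y)
  rw [H.index_center P, show (centralizer ({y} : Set G)).index = m from P.hy] at h
  exact Nat.eq_of_mul_eq_mul_right (by linarith [H.lt]) h

theorem Hyp.relIndex_x (P : H.Pair x y) : (center G).relIndex (centralizer {x}) = m := by
  have h := Subgroup.relIndex_mul_index (center_le_cent x)
  rw [H.index_center P, show (centralizer ({x} : Set G)).index = n from P.hx, mul_comm n m] at h
  exact Nat.eq_of_mul_eq_mul_right (by linarith [H.one_lt]) h

/-- Every non-central π-element centralising `y` has class size `m`. -/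
theorem Hyp.cls_eq_top (P : H.Pair x y) {e : G} (hey : Commute e y) (hepi : IsPi n e)
    (hec : e ∉ center G) : cls e = m := by
  classical
  set K : Subgroup G := closure (conjugatesOf x) with hKdef
  have hcx : ∀ {s : G}, s ∈ stabCls y → Commute s x := fun hs => H.commute_stab P.hy (H.cop_x P) hs
  have hconjcomm : ∀ a ∈ conjugatesOf x, ∀ b ∈ conjugatesOf x, Commute a b := by
    intro a ha b hb
    obtain ⟨g, rfl⟩ := isConj_iff.1 ha
    obtain ⟨h, rfl⟩ := isConj_iff.1 hb
    have h1 : Commute x (g⁻¹ * h * x * (g⁻¹ * h)⁻¹) := by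
      have := H.diff_mem P.hy (H.cop_x P) (g⁻¹ * h)
      have h2 := ((Commute.refl x).mul_right (hcx this).symm)
      rwa [mul_inv_cancel_left] at h2
    have h3 := h1.map (MulAut.conj g).toMonoidHom
    simpa [mul_assoc] using h3
  haveI hKc : IsMulCommutative K := Subgroup.isMulCommutative_closure fun a ha b hb =>
    (hconjcomm a ha b hb).eq
  haveI : K.Normal := by
    refine ⟨fun a ha g => ?_⟩
    induction ha using Subgroup.closure_induction with
    | mem a ha => exact subset_closure (IsConj.trans ha (isConj_iff.2 ⟨g, rfl⟩))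
    | one => simp
    | mul a b _ _ iha ihb => rw [← conj_mul]; exact mul_mem iha ihb
    | inv a _ iha => rw [← conj_inv]; exact inv_mem iha
  have hxK : x ∈ K := subset_closure (IsConj.refl x)
  have hKexp : ∀ k ∈ K, k ^ orderOf x = 1 := by
    intro k hk
    induction hk using Subgroup.closure_induction with
    | mem a ha =>
      obtain ⟨g, rfl⟩ := isConj_iff.1 ha
      rw [conj_pow, pow_orderOf_eq_one]; group
    | one => simp
    | mul a b ha hb iha ihb =>
      have hab : Commute a b := congrArg Subtype.val (mul_comm' (⟨a, ha⟩ : K) ⟨b, hb⟩)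
      rw [hab.mul_pow, iha, ihb, one_mul]
    | inv a _ iha => rw [inv_pow, iha, inv_one]
  have hKx : ∀ k ∈ K, Commute k x := fun k hk =>
    congrArg Subtype.val (mul_comm' (⟨k, hk⟩ : K) ⟨x, hxK⟩)
  set o := orderOf e with ho
  have hcop : o.Coprime (orderOf x) := hepi.coprime P.hxo
  have hsmall : ∀ {k : G}, k ∈ K → k ^ o = 1 → k = 1 := fun {k} hk hko => by
    rw [← orderOf_eq_one_iff]
    exact Nat.eq_one_of_dvd_coprimes hcop (orderOf_dvd_of_pow_eq_one hko)
      (orderOf_dvd_of_pow_eq_one (hKexp k hk))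
  -- the norm map
  set φ : K ≃* K := (MulAut.conjNormal e : MulAut K) with hφdef
  have hφ : ∀ (i : ℕ) (k : K), (((φ : MulAut K) ^ i) k : G) = e ^ i * k * (e ^ i)⁻¹ := by
    intro i k
    rw [hφdef, ← map_pow, MulAut.conjNormal_apply]
  let N : K →* K :=
    { toFun := fun k => ∏ i ∈ Finset.range o, ((φ : MulAut K) ^ i) k
      map_one' := by simp
      map_mul' := fun a b => by simp only [map_mul, Finset.prod_mul_distrib] }
  have hNfix : ∀ k : K, Commute (k : G) e → N k = k ^ o := by
    intro k hk
    have : ∀ i ∈ Finset.range o, ((φ : MulAut K) ^ i) k = k := fun i _ => Subtype.ext (by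
      rw [hφ, (hk.pow_right i).symm.eq, mul_inv_cancel_right])
    show ∏ i ∈ Finset.range o, ((φ : MulAut K) ^ i) k = k ^ o
    rw [Finset.prod_congr rfl this, Finset.prod_const, Finset.card_range]
  have hNim : ∀ k : K, Commute (N k : G) e := by
    intro k
    refine ((commute_conj_iff e _).2 ?_).symm
    have h1 : φ (N k) = N k := by
      show φ (∏ i ∈ Finset.range o, ((φ : MulAut K) ^ i) k) = ∏ i ∈ Finset.range o, ((φ : MulAut K) ^ i) k
      rw [map_prod]
      have hstep : ∀ i ∈ Finset.range o, φ (((φ : MulAut K) ^ i) k) = ((φ : MulAut K) ^ (i + 1)) k :=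
        fun i _ => by rw [pow_succ']; rfl
      rw [Finset.prod_congr rfl hstep]
      have hends := Finset.prod_range_succ (fun i => ((φ : MulAut K) ^ i) k) o
      rw [Finset.prod_range_succ'] at hends
      have hco : ((φ : MulAut K) ^ o) k = k := Subtype.ext (by
        rw [hφ, ho, pow_orderOf_eq_one]; simp)
      rw [hco, pow_zero, MulAut.one_apply] at hends
      exact mul_right_cancel hends
    have h2 := congrArg Subtype.val h1
    rwa [hφdef, MulAut.conjNormal_apply] at h2
  obtain ⟨j, hj⟩ : ∃ j : ℕ, o * j ≡ 1 [MOD orderOf x] := by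
    rcases Nat.eq_or_lt_of_le (Nat.one_le_iff_ne_zero.2 (orderOf_pos x).ne') with h1 | h1
    · exact ⟨0, by rw [← h1]; exact Nat.modEq_one⟩
    · obtain ⟨j, hj⟩ := Nat.exists_mul_mod_eq_one_of_coprime hcop h1
      exact ⟨j, by rw [Nat.ModEq, hj.2, Nat.mod_eq_of_lt h1]⟩
  set c : K := (N ⟨x, hxK⟩) ^ j with hcdef
  set v : K := ⟨x, hxK⟩ * c⁻¹ with hvdef
  have hce : Commute (c : G) e := by
    rw [hcdef, Subgroup.coe_pow]; exact (hNim _).pow_left j
  have hNc : N c = N ⟨x, hxK⟩ := by
    rw [hNfix c hce, hcdef, ← pow_mul]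
    have h1 : N ⟨x, hxK⟩ ^ orderOf x = 1 := Subtype.ext (by
      rw [Subgroup.coe_pow]; exact hKexp _ (N _).2)
    rw [mul_comm]
    conv_rhs => rw [← pow_one (N ⟨x, hxK⟩)]
    exact pow_eq_pow_iff_modEq.2 (hj.of_dvd (orderOf_dvd_of_pow_eq_one h1))
  have hv : N v = 1 := by rw [hvdef, map_mul, map_inv, hNc, mul_inv_cancel]
  have hxcv : x = (v : G) * c := by
    rw [hvdef, Subgroup.coe_mul, Subgroup.coe_inv, inv_mul_cancel_right]
  set W : Subgroup G := centralizer ({(c : G)} : Set G) ⊓ centralizer {y} with hW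
  set U : Subgroup G := W ⊓ centralizer {e} with hU
  have hZU : center G ≤ U := le_inf (le_inf (center_le_cent _) (center_le_cent y)) (center_le_cent e)
  have hUW : U ≤ W := inf_le_left
  have hWy : W ≤ centralizer {y} := inf_le_right
  -- fixed points of the kernel are trivial
  have hkerfix : ∀ k : K, N k = 1 → Commute (k : G) e → k = 1 := fun k h1 h2 =>
    Subtype.ext (hsmall k.2 (by
      rw [hNfix k h2] at h1
      exact (congrArg Subtype.val h1)))
  have hUker : (center G).relIndex U + 1 ≤ Nat.card N.ker := by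
    let ι : Option (U ⧸ (center G).subgroupOf U) → N.ker := fun q => match q with
      | none => 1
      | some q => ⟨MulAut.conjNormal ((q.out : U) : G) v, by
          rw [MonoidHom.mem_ker]
          show ∏ i ∈ Finset.range o, ((φ : MulAut K) ^ i) (MulAut.conjNormal ((q.out : U) : G) v) = 1
          have hcom : ∀ i : ℕ, ((φ : MulAut K) ^ i) (MulAut.conjNormal ((q.out : U) : G) v) =
              MulAut.conjNormal ((q.out : U) : G) (((φ : MulAut K) ^ i) v) := fun i => by
            apply Subtype.ext
            rw [hφ, MulAut.conjNormal_apply, MulAut.conjNormal_apply, hφ]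
            have hc : Commute ((q.out : U) : G) (e ^ i) := (mem_cent.1 (q.out : U).2.2).pow_right i
            calc e ^ i * (((q.out : U) : G) * v * ((q.out : U) : G)⁻¹) * (e ^ i)⁻¹
                = (e ^ i * ((q.out : U) : G)) * v * (e ^ i * ((q.out : U) : G))⁻¹ := by group
              _ = (((q.out : U) : G) * e ^ i) * v * (((q.out : U) : G) * e ^ i)⁻¹ := by rw [hc.eq]
              _ = ((q.out : U) : G) * (e ^ i * v * (e ^ i)⁻¹) * ((q.out : U) : G)⁻¹ := by group
          rw [Finset.prod_congr rfl fun i _ => hcom i, ← map_prod]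
          rw [show ∏ i ∈ Finset.range o, ((φ : MulAut K) ^ i) v = 1 from hv, map_one]⟩
    have hv1 : v ≠ 1 := by
      intro h1
      apply hec
      rw [← H.inf_eq_center P]
      refine ⟨mem_cent.2 ?_, mem_cent.2 hey⟩
      rw [hxcv, h1, Subgroup.coe_one, one_mul]
      exact hce.symm
    have hι : Function.Injective ι := by
      rintro (_ | q) (_ | q') hqq
      · rfl
      · exfalso
        have h1 : MulAut.conjNormal ((q'.out : U) : G) v = 1 := (congrArg Subtype.val hqq).symm
        exact hv1 ((MulEquiv.map_eq_one_iff _).1 h1)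
      · exfalso
        have h1 : MulAut.conjNormal ((q.out : U) : G) v = 1 := congrArg Subtype.val hqq
        exact hv1 ((MulEquiv.map_eq_one_iff _).1 h1)
      · have h1 : MulAut.conjNormal ((q.out : U) : G) v = MulAut.conjNormal ((q'.out : U) : G) v :=
          congrArg Subtype.val hqq
        have h2 := congrArg Subtype.val h1
        rw [MulAut.conjNormal_apply, MulAut.conjNormal_apply] at h2
        congr 1
        rw [← q.out_eq', ← q'.out_eq', QuotientGroup.eq, Subgroup.mem_subgroupOf, Subgroup.coe_mul,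
          Subgroup.coe_inv]
        set u : G := ((q.out : U) : G)
        set u' : G := ((q'.out : U) : G)
        have hu : u⁻¹ * u' ∈ U := mul_mem (inv_mem (q.out : U).2) (q'.out : U).2
        have hvfix : Commute (u⁻¹ * u') (v : G) := (commute_conj_iff _ _).2 (by
          calc u⁻¹ * u' * v * (u⁻¹ * u')⁻¹ = u⁻¹ * (u' * v * u'⁻¹) * u := by group
            _ = (v : G) := by rw [← h2]; group)
        rw [← H.inf_eq_center P]
        refine ⟨mem_cent.2 ?_, hu.1.2⟩
        rw [hxcv]
        exact hvfix.mul_right (mem_cent.1 hu.1.1)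
    have := Nat.card_le_card_of_injective ι hι
    rwa [Finite.card_option] at this
  -- the big class
  set D := centralizer ({e} : Set G) ⊓ centralizer {(c : G)} with hD
  have hKc' : K ≤ centralizer {(c : G)} := fun k hk => mem_cent.2
    (congrArg Subtype.val (mul_comm' (⟨k, hk⟩ : K) c))
  have hrel : U.relIndex W * Nat.card N.ker ≤ D.relIndex (centralizer {(c : G)}) := by
    let Φ : (W ⧸ U.subgroupOf W) × N.ker →
        (centralizer ({(c : G)} : Set G)) ⧸ D.subgroupOf (centralizer {(c : G)}) :=
      fun p => QuotientGroup.mk ⟨((p.1.out : W) : G) * ((p.2 : K) : G),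
        mul_mem (p.1.out : W).2.1 (hKc' (p.2 : K).2)⟩
    have hΦ : Function.Injective Φ := by
      rintro ⟨q, k⟩ ⟨q', k'⟩ heq
      have h1 := QuotientGroup.eq.1 heq
      rw [Subgroup.mem_subgroupOf] at h1
      replace h1 := mem_cent.1 h1.1
      simp only [Subgroup.coe_mul, Subgroup.coe_inv] at h1
      set w : G := ((q.out : W) : G)
      set w' : G := ((q'.out : W) : G)
      set w'' := w⁻¹ * w' with hw''
      set k1 : G := w''⁻¹ * ((k : K) : G)⁻¹ * w'' * ((k' : K) : G) with hk1
      have hk1K : k1 ∈ K := by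
        refine mul_mem ?_ (k' : K).2
        have := (inferInstance : K.Normal).conj_mem _ (inv_mem (k : K).2) w''⁻¹
        simpa using this
      have hprod : (w * ((k : K) : G))⁻¹ * (w' * ((k' : K) : G)) = w'' * k1 := by
        rw [hk1, hw'']; group
      rw [hprod] at h1
      have hw''y : Commute w'' y := mem_cent.1 (mul_mem (inv_mem (q.out : W).2.2) (q'.out : W).2.2)
      set z := w''⁻¹ * e * w'' * e⁻¹ with hz
      have hz' : z = k1 * e * k1⁻¹ * e⁻¹ := by
        have h2 : e * w'' = w'' * k1 * e * k1⁻¹ := by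
          rw [h1.eq]; group
        rw [hz, mul_assoc w''⁻¹ e w'', h2]
        group
      have hzK : z ∈ K := by
        rw [hz']
        have := mul_mem hk1K ((inferInstance : K.Normal).conj_mem _ (inv_mem hk1K) e)
        simpa [mul_assoc] using this
      have hzy : Commute z y :=
        (((hw''y.inv_left).mul_left hey).mul_left hw''y).mul_left hey.inv_left
      have hzc : z ∈ center G := by
        rw [← H.inf_eq_center P]; exact ⟨mem_cent.2 (hKx z hzK), mem_cent.2 hzy⟩
      have hz1 : z = 1 := by
        refine hsmall hzK ?_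
        have h3 : k1 * e * k1⁻¹ = z * e := by rw [hz', inv_mul_cancel_right]
        have h4 := congrArg (fun t => t ^ o) h3
        rw [conj_pow, ho, pow_orderOf_eq_one, mul_one, mul_inv_cancel,
          (show Commute z e from (mem_center_iff.1 hzc e).symm).mul_pow, pow_orderOf_eq_one,
          mul_one] at h4
        exact h4.symm
      have hw''e : Commute w'' e := by
        rw [hz, mul_inv_eq_one, mul_assoc, inv_mul_eq_iff_eq_mul] at hz1
        exact hz1.symm
      have hqq : q = q' := by
        rw [← q.out_eq', ← q'.out_eq', QuotientGroup.eq, Subgroup.mem_subgroupOf]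
        exact ⟨Subgroup.mul_mem W (Subgroup.inv_mem W (q.out : W).2) (q'.out : W).2, mem_cent.2 hw''e⟩
      subst hqq
      have hw1 : w'' = 1 := inv_mul_cancel _
      have hk1e : Commute ((((k : K))⁻¹ * (k' : K) : K) : G) e := by
        rw [hk1, hw1] at h1
        simpa using h1
      have h5 := hkerfix _ (by rw [map_mul, map_inv, MonoidHom.mem_ker.1 k.2, MonoidHom.mem_ker.1 k'.2,
        inv_one, one_mul]) hk1e
      exact Prod.ext rfl (Subtype.ext (inv_mul_eq_one.1 h5))
    have := Nat.card_le_card_of_injective Φ hΦ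
    rw [Nat.card_prod] at this
    exact this
  have hchain : (center G).relIndex U * U.relIndex W * W.relIndex (centralizer {y}) = n := by
    rw [Subgroup.relIndex_mul_relIndex _ _ _ hZU hUW,
      Subgroup.relIndex_mul_relIndex _ _ _ (hZU.trans hUW) hWy, H.relIndex_y P]
  have hWc : W.relIndex (centralizer {y}) ≤ cls (c : G) := by
    rw [hW, Subgroup.inf_relIndex_right]
    refine (Subgroup.relIndex_le_of_le_right le_top ?_).trans (le_of_eq (Subgroup.relIndex_top_right _))
    rw [Subgroup.relIndex_top_right]; exact index_ne_zero_of_finite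
  have hbig : n < cls (e * (c : G)) := by
    rw [cls, Element.centralizer_mul_of_coprime hce.symm (hcop.coprime_dvd_right
      (orderOf_dvd_of_pow_eq_one (hKexp _ c.2))), ← hD,
      ← Subgroup.relIndex_mul_index (inf_le_right : D ≤ centralizer {(c : G)})]
    have hUpos : 0 < U.relIndex W * W.relIndex (centralizer {y}) := by
      refine Nat.pos_of_ne_zero fun h0 => ?_
      rw [mul_assoc, h0, mul_zero] at hchain
      linarith [H.one_lt]
    calc n = (center G).relIndex U * (U.relIndex W * W.relIndex (centralizer {y})) := by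
          rw [← hchain, mul_assoc]
      _ < ((center G).relIndex U + 1) * (U.relIndex W * W.relIndex (centralizer {y})) :=
          Nat.mul_lt_mul_of_pos_right (Nat.lt_succ_self _) hUpos
      _ = U.relIndex W * ((center G).relIndex U + 1) * W.relIndex (centralizer {y}) := by ring
      _ ≤ U.relIndex W * Nat.card N.ker * cls (c : G) :=
          Nat.mul_le_mul (Nat.mul_le_mul le_rfl hUker) hWc
      _ ≤ D.relIndex (centralizer {(c : G)}) * cls (c : G) := Nat.mul_le_mul hrel le_rfl
  have htop : cls (e * (c : G)) = m := by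
    by_contra hne
    exact hbig.not_ge (H.second _ (lt_of_le_of_ne (H.top _) hne))
  have hcent := Element.centralizer_mul_of_coprime hce.symm (hcop.coprime_dvd_right
    (orderOf_dvd_of_pow_eq_one (hKexp _ c.2)))
  by_cases hcc : (c : G) ∈ center G
  · have : centralizer ({(c : G)} : Set G) = ⊤ := eq_top_iff.2 fun g _ =>
      mem_cent.2 (mem_center_iff.1 hcc g)
    rw [this, inf_top_eq] at hcent
    rw [cls, ← hcent]; exact htop
  · exfalso
    have hle : centralizer ({e * (c : G)} : Set G) ≤ centralizer {(c : G)} := hcent ▸ inf_le_right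
    have hcm : cls (c : G) = m := by
      by_contra hne
      exact hcc (H.center_of_dvd_top P.hx P.hy P.hxo (htop ▸ index_dvd_of_le hle) hne)
    have heq := cent_eq_of_le hle (hcm.trans htop.symm)
    have hxc : x ∈ centralizer ({e * (c : G)} : Set G) :=
      heq ▸ mem_cent.2 (hKx c c.2).symm
    apply hec
    rw [← H.inf_eq_center P]
    exact ⟨mem_cent.2 (mem_cent.1 (hcent ▸ hxc).1).symm, mem_cent.2 hey⟩

theorem Hyp.stab_inf (P : H.Pair x y) {a : G} (ha : cls a = m) (hapi : IsPi n a) {s : G}
    (hs : s ∈ stabCls y) (hsa : Commute s a) : s = 1 := by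
  have hsc : s ∈ center G := by
    rw [← H.inf_eq_center (x := x) (y := a) ⟨P.hx, ha, P.hxo, hapi⟩]
    exact ⟨mem_cent.2 (H.commute_stab P.hy (H.cop_x P) hs), mem_cent.2 hsa⟩
  have hsy : Commute y s := mem_center_iff.1 hsc y
  obtain ⟨g, hg⟩ := isConj_iff.1 (mem_stabCls.1 hs y (IsConj.refl y))
  refine FGSev.eq_one_of_orderOf_mul_eq hsy ((P.hyo.coprime (H.coprime_stab P.hy)).coprime_dvd_right
    (Subgroup.orderOf_dvd_natCard _ hs)) ?_
  rw [hsy.eq, ← hg]
  exact orderOf_injective (MulAut.conj g).toMonoidHom (MulAut.conj g).injective y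

omit H [Finite G] in
theorem exists_order_prime_mod {q : ℕ} {a : G} {k : ℕ} (hq : q.Prime) (ha : orderOf a = q ^ k)
    (hac : a ∉ center G) :
    ∃ a1 ∈ zpowers a, a1 ∉ center G ∧ a1 ^ q ∈ center G := by
  classical
  have hex : ∃ i, a ^ q ^ i ∈ center G := ⟨k, by rw [← ha, pow_orderOf_eq_one]; exact one_mem _⟩
  have hi0 : Nat.find hex ≠ 0 := fun h => hac (by
    have := Nat.find_spec hex; rwa [h, pow_zero, pow_one] at this)
  refine ⟨a ^ q ^ (Nat.find hex - 1), npow_mem_zpowers _ _, Nat.find_min hex (by omega), ?_⟩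
  rw [← pow_mul, ← pow_succ, Nat.sub_add_cancel (by omega : 1 ≤ Nat.find hex)]
  exact Nat.find_spec hex

/-- Commuting prime power elements of class size `m`. -/
theorem Hyp.cent_eq_of_commute (P : H.Pair x y) {a b : G} {p q i j : ℕ} (hp : p.Prime) (hq : q.Prime)
    (hao : orderOf a = p ^ i) (hbo : orderOf b = q ^ j) (hapi : IsPi n a) (hbpi : IsPi n b)
    (ha : cls a = m) (hb : cls b = m) (hab : Commute a b) :
    centralizer ({a} : Set G) = centralizer {b} := by
  classical
  rcases eq_or_ne p q with rfl | hpq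
  swap
  · have hcop : (orderOf a).Coprime (orderOf b) := by
      rw [hao, hbo]; exact Nat.Coprime.pow _ _ ((Nat.coprime_primes hp hq).2 hpq)
    exact le_antisymm (H.step_top hab.symm hcop.symm ha) (H.step_top hab hcop hb)
  haveI := Fact.mk hp
  have hmpos : 0 < m := by linarith [H.lt]
  have hnc : ∀ {u : G}, cls u = m → u ∉ center G := fun {u} hu h => by
    have := ((ClassSize.index_centralizer_eq_one_iff u).2 h).symm.trans hu
    linarith [H.lt, H.one_lt]
  have red : ∀ {u : G} {l : ℕ}, orderOf u = p ^ l → IsPi n u → cls u = m →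
      ∃ u1 ∈ zpowers u, u1 ∉ center G ∧ u1 ^ p ∈ center G ∧
        centralizer ({u} : Set G) = centralizer {u1} := by
    intro u l hu hupi hum
    obtain ⟨u1, hu1, h1, h2⟩ := exists_order_prime_mod hp hu (hnc hum)
    have hle := ClassSize.centralizer_le_of_mem_zpowers hu1
    refine ⟨u1, hu1, h1, h2, cent_eq_of_le hle ?_⟩
    by_contra hne
    exact h1 (H.center_of_dvd_top P.hx P.hy P.hxo (hum ▸ index_dvd_of_le hle) (fun e => hne (e.trans hum.symm)))
  obtain ⟨a1, ha1, ha1c, ha1p, haeq⟩ := red hao hapi ha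
  obtain ⟨b1, hb1, hb1c, hb1p, hbeq⟩ := red hbo hbpi hb
  rw [haeq, hbeq]
  have ha1m : cls a1 = m := by rw [cls, ← haeq]; exact ha
  have hb1m : cls b1 = m := by rw [cls, ← hbeq]; exact hb
  have hab1 : Commute a1 b1 := by
    obtain ⟨k, rfl⟩ := ha1
    obtain ⟨l, rfl⟩ := hb1
    exact hab.zpow_zpow k l
  set A0 : Subgroup G := closure {a1, b1} with hA0
  haveI hA0c : IsMulCommutative A0 := Subgroup.isMulCommutative_closure (by
    rintro u (rfl | rfl) w (rfl | rfl)
    · rfl
    · exact hab1.eq
    · exact hab1.eq.symm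
    · rfl)
  have hA0p : IsPGroup p A0 := by
    rintro ⟨u, hu⟩
    obtain ⟨k, hk⟩ : ∃ k, u ^ p ^ k = 1 := by
      induction hu using Subgroup.closure_induction with
      | mem u hu =>
        rcases hu with rfl | rfl
        · exact ⟨i, orderOf_dvd_iff_pow_eq_one.1 (hao ▸ orderOf_dvd_of_mem_zpowers ha1)⟩
        · exact ⟨j, orderOf_dvd_iff_pow_eq_one.1 (hbo ▸ orderOf_dvd_of_mem_zpowers hb1)⟩
      | one => exact ⟨0, by simp⟩
      | mul u w hu hw ihu ihw =>
        obtain ⟨k, hk⟩ := ihu
        obtain ⟨l, hl⟩ := ihw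
        have hc : Commute u w := congrArg Subtype.val (mul_comm' (⟨u, hu⟩ : A0) ⟨w, hw⟩)
        refine ⟨k + l, ?_⟩
        rw [hc.mul_pow, pow_add, pow_mul, hk, one_pow, one_mul, mul_comm, pow_mul, hl, one_pow]
      | inv u _ ih => exact ih.imp fun k hk => by rw [inv_pow, hk, inv_one]
    exact ⟨k, Subtype.ext (by simpa using hk)⟩
  have hA0exp : ∀ u ∈ A0, u ^ p ∈ center G := by
    intro u hu
    induction hu using Subgroup.closure_induction with
    | mem u hu => rcases hu with rfl | rfl <;> assumption
    | one => simp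
    | mul u w hu hw ihu ihw =>
      have hc : Commute u w := congrArg Subtype.val (mul_comm' (⟨u, hu⟩ : A0) ⟨w, hw⟩)
      rw [hc.mul_pow]; exact mul_mem ihu ihw
    | inv u _ ih => rw [inv_pow]; exact inv_mem ih
  set π := QuotientGroup.mk' (center G) with hπ
  set A := A0.map π with hA
  haveI : IsMulCommutative A := by
    refine ⟨⟨?_⟩⟩
    rintro ⟨_, u, hu, rfl⟩ ⟨_, w, hw, rfl⟩
    refine Subtype.ext ?_
    show π u * π w = π w * π u
    rw [← map_mul, ← map_mul]
    exact congrArg π (congrArg Subtype.val (mul_comm' (⟨u, hu⟩ : A0) ⟨w, hw⟩))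
  by_cases hcyc : IsCyclic A
  · obtain ⟨g, hg⟩ := hcyc.exists_generator
    have hcard : Nat.card A ∣ p := by
      rw [← orderOf_eq_card_of_forall_mem_zpowers hg]
      obtain ⟨u, hu, hug⟩ := g.2
      refine orderOf_dvd_of_pow_eq_one (Subtype.ext ?_)
      rw [Subgroup.coe_pow, ← hug, ← map_pow]
      exact (QuotientGroup.eq_one_iff _).2 (hA0exp u hu)
    have hne : (⟨π a1, a1, subset_closure (Or.inl rfl), rfl⟩ : A) ≠ 1 := fun h =>
      ha1c ((QuotientGroup.eq_one_iff a1).1 (congrArg Subtype.val h))
    have hcard' : Nat.card A = p := by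
      rcases (Nat.dvd_prime hp).1 hcard with h | h
      · haveI := (Nat.card_eq_one_iff_unique.1 h).1
        exact absurd (Subsingleton.elim _ _) hne
      · exact h
    obtain ⟨k, hk⟩ : ∃ k : ℕ, (⟨π a1, a1, subset_closure (Or.inl rfl), rfl⟩ : A) ^ k =
        ⟨π b1, b1, subset_closure (Or.inr rfl), rfl⟩ :=
      (mem_powers_iff_mem_zpowers.2 ((zpowers_eq_top_of_prime_card hcard' hne) ▸ mem_top _) :)
    have h1 : π (a1 ^ k) = π b1 := by rw [map_pow]; exact congrArg Subtype.val hk
    have h2 : (a1 ^ k)⁻¹ * b1 ∈ center G := QuotientGroup.eq.1 h1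
    refine cent_eq_of_le (fun g hg => mem_cent.2 ?_) (hb1m.trans ha1m.symm)
    rw [show b1 = a1 ^ k * ((a1 ^ k)⁻¹ * b1) by group]
    exact ((mem_cent.1 hg).pow_right k).mul_right (mem_center_iff.1 h2 g)
  exfalso
  set S := stabCls y with hS
  have hSne : S ≠ ⊥ := by
    intro hb
    have hxc : x ∈ center G := by
      refine mem_center_iff.2 fun g => ?_
      have h := H.diff_mem P.hy (H.cop_x P) g
      rw [← hS, hb, mem_bot, inv_mul_eq_one] at h
      exact mul_inv_eq_iff_eq_mul.1 h.symm
    have := ((ClassSize.index_centralizer_eq_one_iff x).2 hxc).symm.trans P.hx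
    linarith [H.one_lt]
  haveI : (S.map π).Normal := Subgroup.Normal.map inferInstance _ (QuotientGroup.mk'_surjective _)
  have hcop : (Nat.card A).Coprime (Nat.card (S.map π)) := by
    obtain ⟨k, hk⟩ := (hA0p.map π).exists_card_eq
    rw [hA, hk]
    refine Nat.Coprime.coprime_dvd_right (Subgroup.card_map_dvd _ _) (Nat.Coprime.pow_left k ?_)
    have hpn : p ∣ n := hapi p hp (hao ▸ dvd_pow_self p fun hi => hnc ha (by
      subst hi
      rw [pow_zero, orderOf_eq_one_iff] at hao
      rw [hao]; exact one_mem _))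
    exact ((H.coprime_stab P.hy).coprime_dvd_right hpn).symm
  have hgen := Coprime.iSup_centralizer_eq (A := A) (K := S.map π) hcyc
    (by rw [normalizer_eq_top]; exact le_top) hcop
  have hbot : S.map π = ⊥ := by
    rw [← hgen, eq_bot_iff]
    refine iSup₂_le ?_
    rintro _ ⟨⟨u, hu, rfl⟩, hu1⟩ _ ⟨⟨s, hs, rfl⟩, hsu⟩
    rw [mem_bot]
    have huc : u ∉ center G := fun h => hu1 ((QuotientGroup.eq_one_iff u).2 h)
    obtain ⟨k, hk⟩ := Element.orderOf_eq_pow_of_mem_isPGroup hA0p hu
    have hupi : IsPi n u := fun r hr hrd => by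
      rw [hk] at hrd
      rw [(Nat.prime_dvd_prime_iff_eq hr hp).1 (hr.dvd_of_dvd_pow hrd)]
      refine hapi p hp (hao ▸ dvd_pow_self p fun hi => hnc ha ?_)
      subst hi
      rw [pow_zero, orderOf_eq_one_iff] at hao
      rw [hao]; exact one_mem _
    have hua : Commute u a1 := congrArg Subtype.val
      (mul_comm' (⟨u, hu⟩ : A0) ⟨a1, subset_closure (Or.inl rfl)⟩)
    have hum : cls u = m :=
      H.cls_eq_top (x := x) (y := a1) ⟨P.hx, ha1m, P.hxo, hapi.of_mem_zpowers ha1⟩ hua hupi huc
    have hz : s * u * s⁻¹ * u⁻¹ ∈ center G := by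
      refine (QuotientGroup.eq_one_iff _).1 ?_
      show π (s * u * s⁻¹ * u⁻¹) = 1
      rw [map_mul, map_mul, map_mul, map_inv, map_inv, (mem_cent.1 hsu).eq, mul_inv_cancel_right,
        mul_inv_cancel]
    have hzS : s * u * s⁻¹ * u⁻¹ ∈ S := by
      have := mul_mem hs ((inferInstance : S.Normal).conj_mem _ (inv_mem hs) u)
      simpa [mul_assoc] using this
    have hz1 := H.stab_inf P P.hy P.hyo hzS (mem_center_iff.1 hz y).symm
    have := H.stab_inf P hum hupi hs ((commute_conj_iff s u).2 (mul_inv_eq_one.1 hz1))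
    rw [this, map_one]
  refine hSne (eq_bot_iff.2 fun s hs => ?_)
  have hsc : s ∈ center G := (QuotientGroup.eq_one_iff s).1 (mem_bot.1 (hbot ▸ ⟨s, hs, rfl⟩ :
    π s ∈ (⊥ : Subgroup (G ⧸ center G))))
  exact mem_bot.2 (H.stab_inf P P.hy P.hyo hs (mem_center_iff.1 hsc y).symm)

/-- The prime power elements of `C(y)`. -/
theorem Hyp.primePow_cases (P : H.Pair x y) {u : G} (huy : Commute u y) {p k : ℕ} (hp : p.Prime)
    (hu : orderOf u = p ^ k) (huc : u ∉ center G) : IsPi n u ∧ cls u = m := by
  have hk : k ≠ 0 := by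
    rintro rfl
    rw [pow_zero, orderOf_eq_one_iff] at hu
    exact huc (hu ▸ one_mem _)
  have hupi : IsPi n u := by
    intro r hr hrd
    rw [hu] at hrd
    rw [(Nat.prime_dvd_prime_iff_eq hr hp).1 (hr.dvd_of_dvd_pow hrd)]
    by_contra hpn
    refine huc ?_
    have hmem : (⟨u, mem_cent.2 huy⟩ : centralizer ({y} : Set G)) ∈
        (center G).subgroupOf (centralizer {y}) := by
      refine Element.mem_of_coprime_index ?_
      rw [Subgroup.orderOf_mk, hu]
      show (p ^ k).Coprime ((center G).relIndex (centralizer {y}))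
      rw [H.relIndex_y P]
      exact ((Nat.Prime.coprime_iff_not_dvd hp).2 hpn).pow_left k
    exact hmem
  exact ⟨hupi, H.cls_eq_top P huy hupi huc⟩

/-- Non-central elements of `C(y)` have the same centraliser, and it is abelian. -/
theorem Hyp.comm_y (P : H.Pair x y) :
    IsMulCommutative (centralizer ({y} : Set G)) ∧
      ∀ d : G, Commute d y → d ∉ center G → centralizer ({d} : Set G) = centralizer {y} := by
  classical
  -- a non-central prime power part of `y`
  obtain ⟨p, k, u0, hp, hu0, hu0mem, hu0c⟩ : ∃ (p k : ℕ) (u : G), p.Prime ∧ orderOf u = p ^ k ∧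
      u ∈ zpowers y ∧ u ∉ center G := by
    by_contra hcon
    push Not at hcon
    have hle : Subgroup.closure {g : zpowers y | ∃ p k : ℕ, p.Prime ∧ orderOf g = p ^ k} ≤
        (center G).subgroupOf (zpowers y) := by
      rw [Subgroup.closure_le]
      rintro g ⟨p, k, hp, hg⟩
      exact hcon p k g hp (by rwa [Subgroup.orderOf_coe]) g.2
    rw [Element.closure_primePow_orderOf] at hle
    have hyc : y ∈ center G := hle (mem_top ⟨y, mem_zpowers y⟩)
    have := ((ClassSize.index_centralizer_eq_one_iff y).2 hyc).symm.trans P.hy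
    linarith [H.lt, H.one_lt]
  have hu0y : Commute u0 y := by
    obtain ⟨l, rfl⟩ := hu0mem
    exact (Commute.refl y).zpow_left l
  obtain ⟨hu0pi, hu0m⟩ := H.primePow_cases P hu0y hp hu0 hu0c
  have hu0eq : centralizer ({y} : Set G) = centralizer {u0} :=
    cent_eq_of_le (ClassSize.centralizer_le_of_mem_zpowers hu0mem) (hu0m.trans P.hy.symm)
  have hpp : ∀ {u : G} {q l : ℕ}, q.Prime → orderOf u = q ^ l → Commute u y →
      centralizer ({y} : Set G) ≤ centralizer {u} := by
    intro u q l hq hu huy
    by_cases huc : u ∈ center G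
    · exact fun g _ => mem_cent.2 (mem_center_iff.1 huc g)
    · obtain ⟨hupi, hum⟩ := H.primePow_cases P huy hq hu huc
      have huu0 : Commute u u0 := mem_cent.1 (hu0eq ▸ mem_cent.2 huy)
      rw [hu0eq, ← H.cent_eq_of_commute P hq hp hu hu0 hupi hu0pi hum hu0m huu0]
  have hall : ∀ d : G, Commute d y → centralizer ({y} : Set G) ≤ centralizer {d} := by
    intro d hd g hg
    have hle : Subgroup.closure {u : zpowers d | ∃ p k : ℕ, p.Prime ∧ orderOf u = p ^ k} ≤
        (centralizer ({g} : Set G)).subgroupOf (zpowers d) := by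
      rw [Subgroup.closure_le]
      rintro ⟨u, hu⟩ ⟨q, l, hq, hql⟩
      rw [Subgroup.orderOf_mk] at hql
      have huy : Commute u y := by
        obtain ⟨i, rfl⟩ := hu
        exact hd.zpow_left i
      exact mem_cent.2 (mem_cent.1 (hpp hq hql huy hg)).symm
    rw [Element.closure_primePow_orderOf] at hle
    have hdg : d ∈ centralizer ({g} : Set G) := hle (mem_top (⟨d, mem_zpowers d⟩ : zpowers d))
    exact mem_cent.2 (mem_cent.1 hdg).symm
  refine ⟨⟨⟨fun a b => Subtype.ext (mem_cent.1 (hall b (mem_cent.1 b.2) a.2)).eq⟩⟩,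
    fun d hd hdc => ?_⟩
  -- a non-central part of `d`
  obtain ⟨q, l, u, hq, hu, hud, huc⟩ : ∃ (q l : ℕ) (u : G), q.Prime ∧ orderOf u = q ^ l ∧
      u ∈ zpowers d ∧ u ∉ center G := by
    by_contra hcon
    push Not at hcon
    have hle : Subgroup.closure {g : zpowers d | ∃ p k : ℕ, p.Prime ∧ orderOf g = p ^ k} ≤
        (center G).subgroupOf (zpowers d) := by
      rw [Subgroup.closure_le]
      rintro g ⟨p, k, hp, hg⟩
      exact hcon p k g hp (by rwa [Subgroup.orderOf_coe]) g.2
    rw [Element.closure_primePow_orderOf] at hle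
    exact hdc (hle (mem_top ⟨d, mem_zpowers d⟩))
  have huy : Commute u y := by
    obtain ⟨i, rfl⟩ := hud
    exact hd.zpow_left i
  obtain ⟨-, hum⟩ := H.primePow_cases P huy hq hu huc
  exact le_antisymm ((ClassSize.centralizer_le_of_mem_zpowers hud).trans
    (le_of_eq (cent_eq_of_le (hall u huy) (hum.trans P.hy.symm)).symm)) (hall d hd)

/-- `C(y)` is its own normaliser. -/
theorem Hyp.mem_of_normalizes (P : H.Pair x y) {g : G}
    (hg : ∀ d : G, Commute d y → Commute (g * d * g⁻¹) y) : Commute g y := by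
  classical
  obtain ⟨hcomm, hce⟩ := H.comm_y P
  have hcm : ∀ d d' : G, Commute d y → Commute d' y → Commute d d' := fun d d' hd hd' =>
    congrArg Subtype.val (mul_comm' (⟨d, mem_cent.2 hd⟩ : centralizer ({y} : Set G)) ⟨d', mem_cent.2 hd'⟩)
  obtain ⟨a0, ha0, b, hb, hab⟩ := ClassSize.mul_eq_univ_of_coprime_index
    (A := centralizer ({x} : Set G)) (B := centralizer {y})
    (show (centralizer ({x} : Set G)).index.Coprime (centralizer ({y} : Set G)).index by
      rw [show (centralizer ({x} : Set G)).index = n from P.hx,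
        show (centralizer ({y} : Set G)).index = m from P.hy]; exact H.cop.symm) g
  have hby := mem_cent.1 hb
  -- reduce to a π'-element of `C(x)`
  obtain ⟨ea, fa, hea, hfa, hef, -, heapi, hfacop⟩ := exists_split n a0
  have heac : ea ∈ center G := by
    have : ea ∈ centralizer ({x} : Set G) := zpowers_le.2 ha0 hea
    have hmem : (⟨ea, this⟩ : centralizer ({x} : Set G)) ∈ (center G).subgroupOf (centralizer {x}) := by
      refine Element.mem_of_coprime_index ?_
      rw [Subgroup.orderOf_mk]
      show (orderOf ea).Coprime ((center G).relIndex (centralizer {x}))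
      rw [H.relIndex_x P]
      exact heapi.coprime H.cop
    exact hmem
  have hfx : Commute fa x := mem_cent.1 (zpowers_le.2 ha0 hfa)
  have heb : Commute (ea * b) y := (show Commute ea y from (mem_center_iff.1 heac y).symm).mul_left hby
  have hgfa : g = fa * (ea * b) := by
    rw [← hab, ← hef, ← mul_assoc, (mem_center_iff.1 heac fa).symm]
  have hnorm : ∀ d : G, Commute d y → Commute (fa * d * fa⁻¹) y := by
    intro d hd
    have h1 := hg ((ea * b)⁻¹ * d * (ea * b)) ((heb.inv_left.mul_left hd).mul_left heb)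
    rw [hgfa] at h1
    simpa [mul_assoc] using h1
  rw [hgfa]
  refine Commute.mul_left ?_ heb
  by_contra hne
  have hfc : fa ∉ center G := fun h => hne (mem_center_iff.1 h y).symm
  have hCf : ∀ d, Commute d y → Commute d fa → d ∈ center G := by
    intro d hd hdf
    by_contra hdc
    exact hne (mem_cent.1 (hce d hd hdc ▸ mem_cent.2 hdf.symm : fa ∈ centralizer ({y} : Set G)))
  set S := stabCls y with hS
  have hSy : ∀ s ∈ S, Commute s y → s = 1 := fun s hs h => H.stab_inf P P.hy P.hyo hs h
  have hnm : ∀ d, Commute d y → Commute (fa⁻¹ * d * fa) y := by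
    intro d hd
    let σ : centralizer ({y} : Set G) → centralizer ({y} : Set G) := fun d =>
      ⟨fa * d * fa⁻¹, mem_cent.2 (hnorm d (mem_cent.1 d.2))⟩
    have hσ : Function.Injective σ := fun d d' h => Subtype.ext
      (mul_left_cancel (mul_right_cancel (congrArg Subtype.val h)))
    obtain ⟨d', hd'⟩ := (Finite.injective_iff_surjective.1 hσ) ⟨d, mem_cent.2 hd⟩
    have e : fa * (d' : G) * fa⁻¹ = d := congrArg Subtype.val hd'
    rw [← e]
    simpa [mul_assoc] using (mem_cent.1 d'.2)
  by_cases hSfa : ∀ s ∈ S, Commute s fa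
  · -- `[y, fa]` centralises `S`
    have hl : Commute (fa * y * fa⁻¹ * y⁻¹) y := (hnorm y (Commute.refl y)).mul_left (Commute.refl y).inv_left
    set l := fa * y * fa⁻¹ * y⁻¹ with hldef
    have hlS : ∀ s ∈ S, Commute s l := by
      intro s hs
      have hs1 : fa * s * fa⁻¹ = s := by rw [← (hSfa s hs).eq, mul_inv_cancel_right]
      have hs2 : fa⁻¹ * s * fa = s := by rw [mul_assoc, (hSfa s hs).eq, inv_mul_cancel_left]
      have hsy' : y⁻¹ * s * y ∈ S := by
        simpa using (inferInstance : S.Normal).conj_mem _ hs y⁻¹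
      refine ((commute_conj_iff l s).2 ?_).symm
      have h3 : fa⁻¹ * (y⁻¹ * s * y) * fa = y⁻¹ * s * y := by
        rw [mul_assoc, (hSfa _ hsy').eq, inv_mul_cancel_left]
      calc l * s * l⁻¹ = fa * (y * (fa⁻¹ * (y⁻¹ * s * y) * fa) * y⁻¹) * fa⁻¹ := by
            rw [hldef]; group
        _ = s := by rw [h3, show y * (y⁻¹ * s * y) * y⁻¹ = s by group, hs1]
    have hlc : l ∈ center G := by
      by_contra hlc
      obtain ⟨s, hs, hs1⟩ : ∃ s ∈ S, s ≠ 1 := by
        by_contra hall
        push Not at hall
        refine hfc ?_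
        have hxc : x ∈ center G := by
          refine mem_center_iff.2 fun g' => ?_
          have h := hall _ (H.diff_mem P.hy (H.cop_x P) g')
          rw [inv_mul_eq_one] at h
          exact mul_inv_eq_iff_eq_mul.1 h.symm
        have := ((ClassSize.index_centralizer_eq_one_iff x).2 hxc).symm.trans P.hx
        linarith [H.one_lt]
      exact hs1 (hSy s hs (mem_cent.1 (hce l hl hlc ▸ mem_cent.2 (hlS s hs))))
    have hl1 : l = 1 := by
      have e : fa * y * fa⁻¹ = l * y := by rw [hldef, inv_mul_cancel_right]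
      have hpow : ∀ i : ℕ, fa ^ i * y * (fa ^ i)⁻¹ = l ^ i * y := by
        intro i
        induction i with
        | zero => simp
        | succ i ih =>
          rw [pow_succ', mul_inv_rev, show fa * fa ^ i * y * ((fa ^ i)⁻¹ * fa⁻¹) =
            fa * (fa ^ i * y * (fa ^ i)⁻¹) * fa⁻¹ by group, ih,
            show fa * (l ^ i * y) * fa⁻¹ = (fa * l ^ i * fa⁻¹) * (fa * y * fa⁻¹) by group, e,
            mem_center_iff.1 (pow_mem hlc i) fa, mul_inv_cancel_right, ← mul_assoc, ← pow_succ]
      have h1 : l ^ orderOf fa = 1 := by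
        have := hpow (orderOf fa)
        rw [pow_orderOf_eq_one] at this
        simpa using this.symm
      have h2 : l ^ orderOf y = 1 := by
        have h := congrArg (fun t => t ^ orderOf y) e
        rw [conj_pow, pow_orderOf_eq_one, mul_one, mul_inv_cancel,
          (show Commute l y from hl).mul_pow, pow_orderOf_eq_one, mul_one] at h
        exact h.symm
      rw [← orderOf_eq_one_iff]
      exact Nat.eq_one_of_dvd_coprimes (P.hyo.coprime hfacop) (orderOf_dvd_of_pow_eq_one h2)
        (orderOf_dvd_of_pow_eq_one h1)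
    exact hne ((commute_conj_iff fa y).2 (mul_inv_eq_one.1 hl1))
  · -- the class of `fa` is too big
    push Not at hSfa
    obtain ⟨s, hs, hsf⟩ := hSfa
    let ι : Option ((centralizer ({y} : Set G)) ⧸ (center G).subgroupOf (centralizer {y})) →
        conjugatesOf fa := fun q => match q with
      | none => ⟨s * fa * s⁻¹, isConj_iff.2 ⟨s, rfl⟩⟩
      | some q => ⟨(q.out : centralizer ({y} : Set G)) * fa * ((q.out : centralizer ({y} : Set G)) : G)⁻¹,
          isConj_iff.2 ⟨_, rfl⟩⟩
    have hbad : ∀ u : G, Commute u y → s * fa * s⁻¹ ≠ u * fa * u⁻¹ := by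
      intro u hu he
      apply hsf
      have h1 : fa⁻¹ * (s * fa * s⁻¹) ∈ S := by
        have := mul_mem ((inferInstance : S.Normal).conj_mem _ hs fa⁻¹) (inv_mem hs)
        simpa [mul_assoc] using this
      have h2 : Commute (fa⁻¹ * (s * fa * s⁻¹)) y := by
        rw [he, show fa⁻¹ * (u * fa * u⁻¹) = fa⁻¹ * u * fa * u⁻¹ by group]
        exact (hnm u hu).mul_left hu.inv_left
      have h3 := hSy _ h1 h2
      rw [inv_mul_eq_one] at h3
      exact (commute_conj_iff s fa).2 h3.symm
    have hι : Function.Injective ι := by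
      rintro (_ | q) (_ | q') hqq
      · rfl
      · exact absurd (congrArg Subtype.val hqq) (hbad _ (mem_cent.1 (q'.out).2))
      · exact absurd (congrArg Subtype.val hqq).symm (hbad _ (mem_cent.1 (q.out).2))
      · have h1 : ((q.out : centralizer ({y} : Set G)) : G) * fa * ((q.out : centralizer ({y} : Set G)) : G)⁻¹ =
            (q'.out : centralizer ({y} : Set G)) * fa * ((q'.out : centralizer ({y} : Set G)) : G)⁻¹ :=
          congrArg Subtype.val hqq
        congr 1
        rw [← q.out_eq', ← q'.out_eq', QuotientGroup.eq, Subgroup.mem_subgroupOf, Subgroup.coe_mul,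
          Subgroup.coe_inv]
        set u : G := ((q.out : centralizer ({y} : Set G)) : G)
        set u' : G := ((q'.out : centralizer ({y} : Set G)) : G)
        refine hCf _ ((mem_cent.1 (q.out).2).inv_left.mul_left (mem_cent.1 (q'.out).2))
          ((commute_conj_iff _ _).2 ?_)
        calc u⁻¹ * u' * fa * (u⁻¹ * u')⁻¹ = u⁻¹ * (u' * fa * u'⁻¹) * u := by group
          _ = fa := by rw [← h1]; group
    have hcount := Nat.card_le_card_of_injective ι hι
    rw [Finite.card_option] at hcount
    change (center G).relIndex (centralizer {y}) + 1 ≤ _ at hcount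
    rw [H.relIndex_y P, Nat.card_coe_set_eq, ClassSize.ncard_conjugatesOf] at hcount
    have hfm : cls fa = m := by
      by_contra hne'
      have := H.second _ (lt_of_le_of_ne (H.top fa) hne')
      exact absurd (hcount.trans this) (by omega)
    have hxf : x ∈ centralizer ({fa} : Set G) := mem_cent.2 hfx.symm
    have hZr : (center G).relIndex (centralizer {fa}) = n := by
      have h := Subgroup.relIndex_mul_index (center_le_cent fa)
      rw [H.index_center P, show (centralizer ({fa} : Set G)).index = m from hfm] at h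
      exact Nat.eq_of_mul_eq_mul_right (by linarith [H.lt]) h
    have hxc : x ∈ center G := by
      have hmem : (⟨x, hxf⟩ : centralizer ({fa} : Set G)) ∈ (center G).subgroupOf (centralizer {fa}) := by
        refine Element.mem_of_coprime_index ?_
        rw [Subgroup.orderOf_mk]
        show (orderOf x).Coprime ((center G).relIndex (centralizer {fa}))
        rw [hZr]; exact P.hxo
      exact hmem
    have := ((ClassSize.index_centralizer_eq_one_iff x).2 hxc).symm.trans P.hx
    linarith [H.one_lt]

/-- The conclusion, for a good pair. -/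
theorem Hyp.main (P : H.Pair x y) :
    IsMulCommutative (centralizer ({x} : Set G)) ∧ IsMulCommutative (centralizer ({y} : Set G)) ∧
    Cfsg.IsFrobeniusComplement ((centralizer ({y} : Set G)).map (QuotientGroup.mk' (center G))) ∧
    Cfsg.frobeniusKernel ((centralizer ({y} : Set G)).map (QuotientGroup.mk' (center G))) =
      ((centralizer ({x} : Set G)).map (QuotientGroup.mk' (center G)) : Set (G ⧸ center G)) := by
  classical
  obtain ⟨hyc, hce⟩ := H.comm_y P
  set π := QuotientGroup.mk' (center G) with hπ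
  set Cx := centralizer ({x} : Set G) with hCx
  set Cy := centralizer ({y} : Set G) with hCy
  have hmap : ∀ {C : Subgroup G}, center G ≤ C → ∀ {g : G}, π g ∈ C.map π ↔ g ∈ C := by
    intro C hC g
    refine ⟨?_, fun h => mem_map_of_mem π h⟩
    rintro ⟨c, hc, hcg⟩
    simpa using mul_mem hc (hC (QuotientGroup.eq.1 hcg))
  have hcardmap : ∀ {C : Subgroup G}, center G ≤ C →
      Nat.card (C.map π) = (center G).relIndex C := by
    intro C hC
    have h1 : C.map π = (π.comp C.subtype).range := by
      rw [MonoidHom.range_comp, Subgroup.range_subtype]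
    rw [h1, ← Subgroup.index_ker]
    congr 1
    rw [← MonoidHom.comap_ker, hπ, QuotientGroup.ker_mk']
    rfl
  have hHc : Nat.card (Cy.map π) = n := (hcardmap (center_le_cent y)).trans (H.relIndex_y P)
  have hKc : Nat.card (Cx.map π) = m := (hcardmap (center_le_cent x)).trans (H.relIndex_x P)
  have hQc : Nat.card (G ⧸ center G) = n * m := (Subgroup.index_eq_card _).symm.trans (H.index_center P)
  have hF : Cfsg.IsFrobeniusComplement (Cy.map π) := by
    refine ⟨fun h => ?_, fun h => ?_, fun g hg => ?_⟩
    · rw [h, Subgroup.card_bot] at hHc; linarith [H.one_lt]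
    · rw [h, Subgroup.card_top, hQc] at hHc
      nlinarith [H.one_lt, H.lt]
    · obtain ⟨g, rfl⟩ := QuotientGroup.mk'_surjective (center G) g
      rw [eq_bot_iff]
      rintro _ ⟨⟨d, hd, rfl⟩, hdg⟩
      rw [mem_bot]
      by_contra hd1
      apply hg
      refine mem_map_of_mem π (mem_cent.2 ?_)
      have hdc : d ∉ center G := fun h => hd1 ((QuotientGroup.eq_one_iff d).2 h)
      replace hdg : π d ∈ MulAut.conj (π g) • Cy.map π := hdg
      rw [Subgroup.mem_pointwise_smul_iff_inv_smul_mem, ← map_inv, MulAut.smul_def,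
        MulAut.conj_apply, inv_inv, ← map_inv π g, ← map_mul, ← map_mul,
        hmap (center_le_cent y)] at hdg
      have hd' : Commute (g⁻¹ * d * g) y := mem_cent.1 hdg
      have hdc' : g⁻¹ * d * g ∉ center G := fun h => hdc (by
        simpa [mul_assoc] using (inferInstance : (center G).Normal).conj_mem _ h g)
      refine H.mem_of_normalizes P fun u hu => ?_
      have h1 : Commute u (g⁻¹ * d * g) :=
        mem_cent.1 (by rw [hce _ hd' hdc']; exact mem_cent.2 hu)
      have h2 : Commute (g * u * g⁻¹) d := by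
        have := h1.map (MulAut.conj g).toMonoidHom
        simpa [mul_assoc] using this
      exact mem_cent.1 ((hce d (mem_cent.1 hd) hdc).le (mem_cent.2 h2))
  obtain ⟨N, hN, -, hNc⟩ := Frobenius.exists_kernel hF
  have hNcard : Nat.card N = m := by
    have h := hNc.card_mul
    rw [hHc, hQc, mul_comm n m] at h
    exact Nat.eq_of_mul_eq_mul_right (by linarith [H.one_lt]) h
  have hNK : N = Cx.map π := by
    refine (Subgroup.eq_of_le_of_card_ge ?_ (by rw [hNcard, hKc])).symm
    intro u hu
    rw [← SetLike.mem_coe, hN, Frobenius.mem_frobeniusKernel]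
    by_cases hu1 : u = 1
    · exact Or.inl hu1
    refine Or.inr fun g hg => hu1 ?_
    rw [← orderOf_eq_one_iff]
    refine Nat.eq_one_of_dvd_coprimes H.cop (hKc ▸ Subgroup.orderOf_dvd_natCard _ hu) ?_
    have : orderOf (g⁻¹ * u * g) = orderOf u := by
      rw [show g⁻¹ * u * g = (MulAut.conj g⁻¹).toMonoidHom u by simp]
      exact orderOf_injective _ (MulAut.conj g⁻¹).injective u
    exact this ▸ hHc ▸ Subgroup.orderOf_dvd_natCard _ hg
  refine ⟨?_, hyc, hF, by rw [← hN, hNK]⟩
  have hle : ∀ u ∈ Cx, u ∉ center G → centralizer ({u} : Set G) = Cx := by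
    intro u hu huc
    have hsub : centralizer ({u} : Set G) ≤ Cx := by
      intro g hg
      by_contra hgx
      have hgN : π g ∉ N := fun h => hgx ((hmap (center_le_cent x)).1 (hNK ▸ h))
      rw [← SetLike.mem_coe, hN, Frobenius.mem_frobeniusKernel] at hgN
      push Not at hgN
      obtain ⟨hg1, h, hh⟩ := hgN
      obtain ⟨h, rfl⟩ := QuotientGroup.mk'_surjective (center G) h
      rw [← hπ, ← map_inv, ← map_mul, ← map_mul, hmap (center_le_cent y)] at hh
      have hdc : h⁻¹ * g * h ∉ center G := fun hc => hg1 ((QuotientGroup.eq_one_iff g).2 (by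
        simpa [mul_assoc] using (inferInstance : (center G).Normal).conj_mem _ hc h))
      have hu' : Commute (h⁻¹ * u * h) (h⁻¹ * g * h) := by
        have := ((mem_cent.1 hg).symm).map (MulAut.conj h⁻¹).toMonoidHom
        simpa [mul_assoc] using this
      have huy : π (h⁻¹ * u * h) ∈ Cy.map π := mem_map_of_mem π
        (by rw [← hce _ (mem_cent.1 hh) hdc]; exact mem_cent.2 hu')
      have huN : π u ∈ N := hNK ▸ mem_map_of_mem π hu
      rw [← SetLike.mem_coe, hN, Frobenius.mem_frobeniusKernel] at huN
      rcases huN with h1 | h1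
      · exact huc ((QuotientGroup.eq_one_iff u).1 h1)
      · exact h1 (π h) (by rwa [← map_inv, ← map_mul, ← map_mul])
    have hd : n ∣ cls u := P.hx ▸ index_dvd_of_le hsub
    have hlt : cls u < m := lt_of_le_of_ne (H.top _) fun e => by
      have := Nat.eq_one_of_dvd_coprimes H.cop (e ▸ hd) dvd_rfl
      linarith [H.one_lt]
    have hn' : cls x = cls u := P.hx.trans (le_antisymm (Nat.le_of_dvd (cls_pos _) hd) (H.second _ hlt))
    exact cent_eq_of_le hsub hn'
  refine ⟨⟨fun a b => Subtype.ext ?_⟩⟩
  show (a : G) * b = (b : G) * a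
  by_cases hb : (b : G) ∈ center G
  · exact mem_center_iff.1 hb a
  · exact (mem_cent.1 (by rw [hle b b.2 hb]; exact a.2 : (a : G) ∈ centralizer ({(b : G)} : Set G))).eq

/-- Replace the given elements by a good pair with the same centralisers. -/
theorem Hyp.exists_pair (hx : cls x = n) (hy : cls y = m) :
    ∃ x' y' : G, H.Pair x' y' ∧ centralizer ({x'} : Set G) = centralizer {x} ∧
      centralizer ({y'} : Set G) = centralizer {y} := by
  classical
  have hdrop : ∀ {g e f : G}, e * f = g → e ∈ center G →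
      centralizer ({g} : Set G) = centralizer {f} := by
    intro g e f hg he
    ext w
    rw [mem_cent, mem_cent, ← hg]
    have hwe : Commute w e := mem_center_iff.1 he w
    refine ⟨fun h => ?_, fun h => hwe.mul_right h⟩
    have := (hwe.inv_right).mul_right h
    rwa [inv_mul_cancel_left] at this
  obtain ⟨ex, fx, hex, hfx, hxef, -, hexpi, hfxcop⟩ := exists_split n x
  have hexc := H.center_of_dvd_second hy (hx ▸ ClassSize.index_centralizer_dvd_of_mem_zpowers hex) hexpi
  have hxeq := (hdrop hxef hexc).symm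
  have hfxn : cls fx = n := by rw [cls, hxeq]; exact hx
  obtain ⟨ey, fy, hey, hfy, hyef, -, heypi, hfycop⟩ := exists_split n y
  refine ⟨fx, ?_⟩
  by_cases heyc : ey ∈ center G
  swap
  · have heym : cls ey = m := by
      by_contra hne
      exact heyc (H.center_of_dvd_top hfxn hy hfxcop (hy ▸ ClassSize.index_centralizer_dvd_of_mem_zpowers hey) hne)
    exact ⟨ey, ⟨hfxn, heym, hfxcop, heypi⟩, hxeq,
      (cent_eq_of_le (ClassSize.centralizer_le_of_mem_zpowers hey) (heym.trans hy.symm)).symm⟩
  · have hyeq := (hdrop hyef heyc).symm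
    have hfym : cls fy = m := by rw [cls, hyeq]; exact hy
    -- a non-central π-element of the centraliser
    have hdiv : n ∣ (center G).relIndex (centralizer {y}) := by
      have h1 := Subgroup.relIndex_mul_index (center_le_cent x)
      have h2 := Subgroup.relIndex_mul_index (center_le_cent y)
      rw [show (centralizer ({x} : Set G)).index = n from hx] at h1
      rw [show (centralizer ({y} : Set G)).index = m from hy, ← h1] at h2
      exact H.cop.symm.dvd_of_dvd_mul_right ⟨_, h2.trans (mul_comm _ _)⟩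
    obtain ⟨q, hq, hqn⟩ := Nat.exists_prime_and_dvd (n := n) (by linarith [H.one_lt])
    haveI := Fact.mk hq
    obtain ⟨w, hwy, hwpi, hwc⟩ : ∃ w : G, Commute w y ∧ IsPi n w ∧ w ∉ center G := by
      by_contra hcon
      push Not at hcon
      set C := centralizer ({y} : Set G)
      obtain ⟨a, ha⟩ := exists_prime_orderOf_dvd_card' (G := C ⧸ (center G).subgroupOf C) q
        (hqn.trans hdiv)
      obtain ⟨u, rfl⟩ := QuotientGroup.mk_surjective a
      obtain ⟨eu, fu, heu, hfu, huef, -, heupi, hfucop⟩ := exists_split n (u : G)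
      have hmem : ∀ z ∈ zpowers (u : G), z ∈ C := fun z hz => zpowers_le.2 u.2 hz
      have heuc := hcon eu (mem_cent.1 (hmem eu heu)) heupi
      have e1 : (QuotientGroup.mk u : C ⧸ (center G).subgroupOf C) =
          QuotientGroup.mk ⟨fu, hmem fu hfu⟩ := by
        have e : u = ⟨eu, hmem eu heu⟩ * ⟨fu, hmem fu hfu⟩ := Subtype.ext huef.symm
        conv_lhs => rw [e]
        rw [QuotientGroup.mk_mul, (QuotientGroup.eq_one_iff _).2 (show (⟨eu, hmem eu heu⟩ : C) ∈
          (center G).subgroupOf C from heuc), one_mul]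
      have hdq : q ∣ orderOf fu := by
        rw [← ha, e1, ← Subgroup.orderOf_mk fu (hmem fu hfu)]
        exact orderOf_map_dvd (QuotientGroup.mk' _) _
      exact hq.ne_one (Nat.eq_one_of_dvd_coprimes hfucop hdq hqn)
    have hwfy : Commute w fy := by
      obtain ⟨k, rfl⟩ := hfy
      exact hwy.zpow_right k
    have hle := H.step_top hwfy (hwpi.coprime hfycop) hfym
    have hwm : cls w = m := by
      by_contra hne
      exact hwc (H.center_of_dvd_top hfxn hy hfxcop (hfym ▸ index_dvd_of_le hle) hne)
    exact ⟨w, ⟨hfxn, hwm, hfxcop, hwpi⟩, hxeq,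
      ((cent_eq_of_le hle (hwm.trans hfym.symm)).symm).trans hyeq⟩

end Cfsg.Agent.TwoLargest
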